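import Cfsg.Agent.CNModules.Section
import Mathlib.GroupTheory.Perm.Cycle.Type
import Mathlib.GroupTheory.PGroup
import Mathlib.Tactic.Group

/-!
A normal 2-subgroup on which elements of odd order act fixed point freely is elementary abelian, given
that equivariant pairings between such modules vanish and that modules of exponent four have exponent two.
-/

set_option autoImplicit false

open scoped commutatorElement

namespace CfsgLib.CNModules

universe u v

variable {G : Type u} [Group G] [Finite G] {H : Type v} [Group H]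

/-- Equivariant pairings between fixed point free modules over the prime field vanish. -/
def PairingVanishes (H : Type v) [Group H] : Prop :=
  ∀ (M N W : Type u) [AddCommGroup M] [Module (ZMod 2) M] [Finite M] [AddCommGroup N] [Module (ZMod 2) N]
    [Finite N] [AddCommGroup W] [Module (ZMod 2) W] [Finite W]
    (ρ : H →* Module.End (ZMod 2) M) (ρ' : H →* Module.End (ZMod 2) N)
    (ρ'' : H →* Module.End (ZMod 2) W), Fpf ρ → Fpf ρ' → Fpf ρ'' →
    ∀ β : M →ₗ[ZMod 2] N →ₗ[ZMod 2] W, (∀ g x y, β (ρ g x) (ρ' g y) = ρ'' g (β x y)) → β = 0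

/-- Fixed point free modules of exponent four have exponent two. -/
def ExponentDrops (H : Type v) [Group H] : Prop :=
  ∀ (L : Type u) [AddCommGroup L] [Finite L] (ρ : H →* AddMonoid.End L),
    FpfAdd ρ → (∀ x : L, (4 : ℕ) • x = 0) → ∀ x : L, (2 : ℕ) • x = 0

set_option maxHeartbeats 1000000 in
/-- The commutativity of the subgroup. -/
theorem mul_comm_of_pairing (φ : G →* H) (hφ : Function.Surjective φ) (h2 : IsPGroup 2 φ.ker)
    (hfpf : ∀ g, Odd (orderOf g) → g ≠ 1 → ∀ x ∈ φ.ker, g * x * g⁻¹ = x → x = 1)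
    (hpair : PairingVanishes.{u, v} H) : ∀ a ∈ φ.ker, ∀ b ∈ φ.ker, a * b = b * a := by
  classical
  set Q := φ.ker with hQ
  set Z := Q ⊓ Subgroup.centralizer (Q : Set G) with hZ
  haveI hcn : (Subgroup.centralizer (Q : Set G)).Normal := inferInstance
  haveI hZn : Z.Normal := Subgroup.normal_inf_normal _ _
  have hZcomm : ∀ z ∈ Z, ∀ q ∈ Q, q * z = z * q := fun z hz q hq =>
    Subgroup.mem_centralizer_iff.1 (Subgroup.mem_inf.1 hz).2 q hq
  have hid : ∀ x y q : G, ⁅x * y, q⁆ = x * ⁅y, q⁆ * x⁻¹ * ⁅x, q⁆ := fun x y q => by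
    simp only [commutatorElement_def]; group
  have hid' : ∀ x q r : G, ⁅x, q * r⁆ = ⁅x, q⁆ * (q * ⁅x, r⁆ * q⁻¹) := fun x q r => by
    simp only [commutatorElement_def]; group
  have hcz : ∀ z ∈ Z, ∀ q ∈ Q, ⁅z, q⁆ = 1 := fun z hz q hq =>
    commutatorElement_eq_one_iff_mul_comm.2 (hZcomm z hz q hq).symm
  have hconjZ : ∀ z ∈ Z, ∀ q ∈ Q, q * z * q⁻¹ = z := fun z hz q hq => by
    rw [hZcomm z hz q hq, mul_inv_cancel_right]
  -- the elements of the second centre whose square is central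
  set S : Set G := {x | x ∈ Q ∧ (∀ q ∈ Q, ⁅x, q⁆ ∈ Z) ∧ x * x ∈ Z} with hS
  have hmulS : ∀ x y, x ∈ S → y ∈ S → x * y ∈ S := fun x y hx hy => by
    refine ⟨mul_mem hx.1 hy.1, fun q hq => ?_, ?_⟩
    · rw [hid, hconjZ _ (hy.2.1 q hq) _ hx.1]; exact mul_mem (hy.2.1 q hq) (hx.2.1 q hq)
    · have e : x * y * (x * y) = x * x * (x⁻¹ * ⁅y, x⁆ * x) * (y * y) := by
        simp only [commutatorElement_def]; group
      rw [e]
      exact mul_mem (mul_mem hx.2.2 (by simpa using hZn.conj_mem _ (hy.2.1 x hx.1) x⁻¹)) hy.2.2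
  have hinvS : ∀ x, x ∈ S → x⁻¹ ∈ S := fun x hx => by
    refine ⟨inv_mem hx.1, fun q hq => ?_, ?_⟩
    · have := inv_mem (hZn.conj_mem _ (hx.2.1 q hq) x⁻¹)
      convert this using 1
      simp only [commutatorElement_def]; group
    · rw [← mul_inv_rev]; exact inv_mem hx.2.2
  let P : Subgroup G :=
    { carrier := S
      one_mem' := ⟨one_mem _, fun q _ => by simp, by simp⟩
      mul_mem' := fun hx hy => hmulS _ _ hx hy
      inv_mem' := fun hx => hinvS _ hx }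
  have hPmem : ∀ {x}, x ∈ P ↔ x ∈ Q ∧ (∀ q ∈ Q, ⁅x, q⁆ ∈ Z) ∧ x * x ∈ Z := fun {x} => Iff.rfl
  haveI hPn : P.Normal := ⟨fun x hx g => by
    obtain ⟨h1, h2', h3⟩ := hPmem.1 hx
    refine hPmem.2 ⟨(inferInstance : Q.Normal).conj_mem _ h1 g, fun q hq => ?_, ?_⟩
    · have := hZn.conj_mem _ (h2' (g⁻¹ * q * g)
        (by simpa using (inferInstance : Q.Normal).conj_mem _ hq g⁻¹)) g
      convert this using 1
      simp only [commutatorElement_def]; group
    · convert hZn.conj_mem _ h3 g using 1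
      group⟩
  have hZP : Z ≤ P := fun z hz => hPmem.2
    ⟨(Subgroup.mem_inf.1 hz).1, fun q hq => by rw [hcz z hz q hq]; exact one_mem _, mul_mem hz hz⟩
  have hPQ : P ≤ Q := fun x hx => (hPmem.1 hx).1
  -- the squares
  set Q2 := Subgroup.closure {x : G | ∃ q ∈ Q, q * q = x} with hQ2
  haveI hQ2n : Q2.Normal := ⟨fun x hx g => by
    induction hx using Subgroup.closure_induction with
    | mem x hx =>
      obtain ⟨q, hq, rfl⟩ := hx
      exact Subgroup.subset_closure ⟨g * q * g⁻¹, (inferInstance : Q.Normal).conj_mem _ hq g, by group⟩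
    | one => simp
    | mul x y _ _ hx hy =>
      rw [show g * (x * y) * g⁻¹ = g * x * g⁻¹ * (g * y * g⁻¹) by group]; exact mul_mem hx hy
    | inv x _ hx => rw [show g * x⁻¹ * g⁻¹ = (g * x * g⁻¹)⁻¹ by group]; exact inv_mem hx⟩
  have hQ2Q : Q2 ≤ Q := (Subgroup.closure_le _).2 (by rintro _ ⟨q, hq, rfl⟩; exact mul_mem hq hq)
  have hsq2 : ∀ q ∈ Q, q * q ∈ Q2 := fun q hq => Subgroup.subset_closure ⟨q, hq, rfl⟩
  have hcQ2 : ∀ a ∈ Q, ∀ b ∈ Q, ⁅a, b⁆ ∈ Q2 := fun a ha b hb => by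
    have e : ⁅a, b⁆ = a * b * (a * b) * (b⁻¹ * (a⁻¹ * a⁻¹) * b⁻¹⁻¹) * (b⁻¹ * b⁻¹) := by
      simp only [commutatorElement_def]; group
    rw [e]
    exact mul_mem (mul_mem (hsq2 _ (mul_mem ha hb))
      (hQ2n.conj_mem _ (hsq2 _ (inv_mem ha)) _)) (hsq2 _ (inv_mem hb))
  -- the central involutions
  let W0 : Subgroup G :=
    { carrier := {x | x ∈ Z ∧ x * x = 1}
      one_mem' := ⟨one_mem _, by simp⟩
      mul_mem' := fun {x y} hx hy => ⟨mul_mem hx.1 hy.1, by
        have e := hZcomm x hx.1 y (Subgroup.mem_inf.1 hy.1).1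
        calc x * y * (x * y) = x * (y * x) * y := by group
          _ = x * x * (y * y) := by rw [e]; group
          _ = 1 := by rw [hx.2, hy.2, one_mul]⟩
      inv_mem' := fun {x} hx => ⟨inv_mem hx.1, by rw [← mul_inv_rev, hx.2, inv_one]⟩ }
  have hWmem : ∀ {x}, x ∈ W0 ↔ x ∈ Z ∧ x * x = 1 := fun {x} => Iff.rfl
  haveI hWn : W0.Normal := ⟨fun x hx g => hWmem.2 ⟨hZn.conj_mem _ (hWmem.1 hx).1 g, by
    rw [show g * x * g⁻¹ * (g * x * g⁻¹) = g * (x * x) * g⁻¹ by group, (hWmem.1 hx).2]; simp⟩⟩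
  obtain ⟨M, _, _, ρM, prM, hMs, hMa, hMz, hMe, hMf⟩ := exists_section φ hφ hfpf Z P hZP hPQ
    (fun b hb q hq => (hPmem.1 hb).2.1 q hq)
  obtain ⟨N, _, _, ρN, prN, hNs, hNa, hNz, hNe, hNf⟩ := exists_section φ hφ hfpf Q2 Q hQ2Q le_rfl hcQ2
  obtain ⟨W, _, _, ρW, prW, hWs, hWa, hWz, hWe, hWf⟩ := exists_section φ hφ hfpf ⊥ W0 bot_le
    (fun x hx => (Subgroup.mem_inf.1 (hWmem.1 hx).1).1)
    (fun b hb q hq => by rw [hcz b (hWmem.1 hb).1 q hq]; exact one_mem _)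
  have hM2 : ∀ v : M, (2 : ℕ) • v = 0 := fun v => by
    obtain ⟨b, rfl⟩ := hMs v
    rw [two_nsmul, ← hMa, hMz]; exact (hPmem.1 b.2).2.2
  have hN2 : ∀ v : N, (2 : ℕ) • v = 0 := fun v => by
    obtain ⟨b, rfl⟩ := hNs v
    rw [two_nsmul, ← hNa, hNz]; exact hsq2 _ b.2
  have hW2 : ∀ v : W, (2 : ℕ) • v = 0 := fun v => by
    obtain ⟨b, rfl⟩ := hWs v
    rw [two_nsmul, ← hWa, hWz]; exact Subgroup.mem_bot.2 (hWmem.1 b.2).2
  letI : Module (ZMod 2) M := AddCommGroup.zmodModule hM2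
  letI : Module (ZMod 2) N := AddCommGroup.zmodModule hN2
  letI : Module (ZMod 2) W := AddCommGroup.zmodModule hW2
  -- the commutator
  have hb : ∀ (x : P) (q : Q), ⁅(x : G), (q : G)⁆ ∈ W0 := fun x q => by
    obtain ⟨-, h2', h3⟩ := hPmem.1 x.2
    refine hWmem.2 ⟨h2' q q.2, ?_⟩
    have := hid (x : G) x q
    rw [hconjZ _ (h2' q q.2) _ (hPQ x.2), hcz _ h3 q q.2] at this
    exact this.symm
  let c : P → Q → W := fun x q => prW ⟨⁅(x : G), (q : G)⁆, hb x q⟩
  have hcl : ∀ x x' q, c (x * x') q = c x q + c x' q := fun x x' q => by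
    rw [add_comm, ← hWa]
    refine congrArg prW (Subtype.ext ?_)
    show ⁅(x : G) * x', (q : G)⁆ = ⁅(x' : G), (q : G)⁆ * ⁅(x : G), (q : G)⁆
    rw [hid, hconjZ _ ((hPmem.1 x'.2).2.1 q q.2) _ (hPQ x.2)]
  have hcr : ∀ x q q', c x (q * q') = c x q + c x q' := fun x q q' => by
    rw [← hWa]
    refine congrArg prW (Subtype.ext ?_)
    show ⁅(x : G), (q : G) * q'⁆ = ⁅(x : G), (q : G)⁆ * ⁅(x : G), (q' : G)⁆
    rw [hid', hconjZ _ ((hPmem.1 x.2).2.1 q' q'.2) _ q.2]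
  have hc0 : ∀ (x : P) (q : Q), (x : G) ∈ Z → c x q = 0 := fun x q hx => by
    rw [hWz]; exact Subgroup.mem_bot.2 (hcz _ hx q q.2)
  have hc1 : ∀ (x : P) (q : Q), (q : G) ∈ Q2 → c x q = 0 := fun x q hq => by
    have key : ∀ r (hr : r ∈ Q2), c x ⟨r, hQ2Q hr⟩ = 0 := by
      intro r hr
      induction hr using Subgroup.closure_induction with
      | mem r hr =>
        obtain ⟨s, hs, rfl⟩ := hr
        rw [show (⟨s * s, _⟩ : Q) = ⟨s, hs⟩ * ⟨s, hs⟩ from rfl, hcr, ← two_nsmul, hW2]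
      | one => rw [hWz]; exact Subgroup.mem_bot.2 (commutatorElement_one_right _)
      | mul a b ha hb iha ihb =>
        rw [show (⟨a * b, _⟩ : Q) = ⟨a, hQ2Q ha⟩ * ⟨b, hQ2Q hb⟩ from rfl, hcr, iha, ihb, add_zero]
      | inv a ha iha =>
        have := hcr x ⟨a, hQ2Q ha⟩ ⟨a⁻¹, inv_mem (hQ2Q ha)⟩
        rw [iha, zero_add] at this
        rw [← this, hWz]
        exact Subgroup.mem_bot.2 (by simp)
    exact key _ hq
  have hwl : ∀ x x' q, prM x = prM x' → c x q = c x' q := fun x x' q e => by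
    have h1 : prM x + prM x' = 0 := by rw [e, ← two_nsmul, hM2]
    rw [← hMa, hMz] at h1
    have h2' := hc0 _ q h1
    rw [hcl] at h2'
    exact (eq_neg_of_add_eq_zero_left h2').trans (neg_eq_of_add_eq_zero_left (by rw [← two_nsmul, hW2]))
  have hwr : ∀ x q q', prN q = prN q' → c x q = c x q' := fun x q q' e => by
    have h1 : prN q + prN q' = 0 := by rw [e, ← two_nsmul, hN2]
    rw [← hNa, hNz] at h1
    have h2' := hc1 x _ h1
    rw [hcr] at h2'
    exact (eq_neg_of_add_eq_zero_left h2').trans (neg_eq_of_add_eq_zero_left (by rw [← two_nsmul, hW2]))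
  set sM := Function.surjInv hMs
  set sN := Function.surjInv hNs
  have hsM : ∀ m, prM (sM m) = m := Function.surjInv_eq hMs
  have hsN : ∀ n, prN (sN n) = n := Function.surjInv_eq hNs
  let β : M →ₗ[ZMod 2] N →ₗ[ZMod 2] W :=
    AddMonoidHom.toZModLinearMap 2
      (AddMonoidHom.mk' (fun m => AddMonoidHom.toZModLinearMap 2
          (AddMonoidHom.mk' (fun n => c (sM m) (sN n)) (fun n n' => by
            rw [← hcr]; exact hwr _ _ _ (by rw [hNa, hsN, hsN, hsN]))))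
        (fun m m' => LinearMap.ext fun n => by
          show c (sM (m + m')) (sN n) = c (sM m) (sN n) + c (sM m') (sN n)
          rw [← hcl]; exact hwl _ _ _ (by rw [hMa, hsM, hsM, hsM])))
  have hβ : ∀ x q, β (prM x) (prN q) = c x q := fun x q =>
    (hwl _ _ _ (hsM _)).trans (hwr _ _ _ (hsN _))
  have hzero := hpair M N W (linRep ρM) (linRep ρN) (linRep ρW) hMf.linRep hNf.linRep hWf.linRep β
    (fun h m n => by
      obtain ⟨g, rfl⟩ := hφ h
      obtain ⟨x, rfl⟩ := hMs m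
      obtain ⟨q, rfl⟩ := hNs n
      rw [linRep_apply, linRep_apply, linRep_apply, hMe, hNe, hβ, hβ, hWe]
      refine congrArg prW (Subtype.ext ?_)
      simp only [MulAut.conjNormal_apply, commutatorElement_def]
      group)
  have hPZ : ∀ x ∈ P, x ∈ Z := fun x hx => by
    refine Subgroup.mem_inf.2 ⟨hPQ hx, Subgroup.mem_centralizer_iff.2 fun q hq => ?_⟩
    have h1 : c ⟨x, hx⟩ ⟨q, hq⟩ = 0 := by rw [← hβ, hzero]; rfl
    rw [hWz] at h1
    exact (commutatorElement_eq_one_iff_mul_comm.1 (Subgroup.mem_bot.1 h1)).symm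
  -- otherwise the second centre is larger than the centre
  by_contra hne
  push Not at hne
  obtain ⟨a, ha, b, hb', hab⟩ := hne
  haveI hZQn : (Z.subgroupOf Q).Normal := hZn.subgroupOf Q
  haveI : Nontrivial (Q ⧸ Z.subgroupOf Q) := QuotientGroup.nontrivial_iff.2 fun e => hab
    (hZcomm b (by
      have : (⟨b, hb'⟩ : Q) ∈ Z.subgroupOf Q := e ▸ Subgroup.mem_top _
      exact this) a ha)
  haveI : Fact (Nat.Prime 2) := ⟨Nat.prime_two⟩
  have hp : IsPGroup 2 (Q ⧸ Z.subgroupOf Q) := h2.to_quotient _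
  haveI := hp.center_nontrivial
  have hdvd : 2 ∣ Nat.card (Subgroup.center (Q ⧸ Z.subgroupOf Q)) := by
    obtain ⟨k, hk0, hk⟩ := (IsPGroup.nontrivial_iff_card (hp.to_subgroup (Subgroup.center _))).1 inferInstance
    rw [hk]; exact dvd_pow_self 2 hk0.ne'
  obtain ⟨⟨y, hyc⟩, hy⟩ := exists_prime_orderOf_dvd_card' 2 hdvd
  rw [Subgroup.orderOf_mk] at hy
  obtain ⟨⟨x, hxQ⟩, rfl⟩ := QuotientGroup.mk_surjective y
  have hxZ : x ∈ P := hPmem.2 ⟨hxQ, fun q hq => by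
    have h1 := Subgroup.mem_center_iff.1 hyc (QuotientGroup.mk' _ ⟨q, hq⟩)
    have h3 : QuotientGroup.mk' (Z.subgroupOf Q) ⁅(⟨x, hxQ⟩ : Q), ⟨q, hq⟩⁆ = 1 := by
      rw [map_commutatorElement, commutatorElement_eq_one_iff_mul_comm]; exact h1.symm
    exact (QuotientGroup.eq_one_iff (N := Z.subgroupOf Q) _).1 h3, by
    have h1 := pow_orderOf_eq_one (QuotientGroup.mk (s := Z.subgroupOf Q) ⟨x, hxQ⟩)
    rw [hy, pow_two, ← QuotientGroup.mk_mul, QuotientGroup.eq_one_iff] at h1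
    exact h1⟩
  rw [(QuotientGroup.eq_one_iff (N := Z.subgroupOf Q) ⟨x, hxQ⟩).2 (hPZ x hxZ), orderOf_one] at hy
  exact absurd hy (by norm_num)

/-- The exponent of the subgroup. -/
theorem mul_self_of_exponent (φ : G →* H) (hφ : Function.Surjective φ) (h2 : IsPGroup 2 φ.ker)
    (hfpf : ∀ g, Odd (orderOf g) → g ≠ 1 → ∀ x ∈ φ.ker, g * x * g⁻¹ = x → x = 1)
    (hcomm : ∀ a ∈ φ.ker, ∀ b ∈ φ.ker, a * b = b * a)
    (hexp : ExponentDrops.{u, v} H) : ∀ x ∈ φ.ker, x * x = 1 := by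
  classical
  let B : Subgroup G :=
    { carrier := {x | x ∈ φ.ker ∧ x ^ 4 = 1}
      one_mem' := ⟨one_mem _, one_pow _⟩
      mul_mem' := fun {x y} hx hy => ⟨mul_mem hx.1 hy.1, by
        rw [Commute.mul_pow (hcomm _ hx.1 _ hy.1), hx.2, hy.2, one_mul]⟩
      inv_mem' := fun {x} hx => ⟨inv_mem hx.1, by rw [inv_pow, hx.2, inv_one]⟩ }
  have hBmem : ∀ {x}, x ∈ B ↔ x ∈ φ.ker ∧ x ^ 4 = 1 := fun {x} => Iff.rfl
  haveI : B.Normal := ⟨fun x hx g => hBmem.2
    ⟨(inferInstance : φ.ker.Normal).conj_mem _ (hBmem.1 hx).1 g, by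
      rw [conj_pow, (hBmem.1 hx).2]; simp⟩⟩
  obtain ⟨L, _, _, ρ, pr, hs, hadd, hz, -, hf⟩ := exists_section φ hφ hfpf ⊥ B bot_le
    (fun x hx => (hBmem.1 hx).1)
    (fun b hb q hq => by
      rw [commutatorElement_eq_one_iff_mul_comm.2 (hcomm _ (hBmem.1 hb).1 _ hq)]; exact one_mem _)
  have hnsmul : ∀ (n : ℕ) (b : B), pr (b ^ n) = n • pr b := by
    intro n b
    induction n with
    | zero => rw [pow_zero, zero_nsmul, hz]; exact one_mem _
    | succ n ih => rw [pow_succ, hadd, ih, succ_nsmul]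
  have h4 : ∀ v : L, (4 : ℕ) • v = 0 := fun v => by
    obtain ⟨b, rfl⟩ := hs v
    rw [← hnsmul, hz]; exact Subgroup.mem_bot.2 (hBmem.1 b.2).2
  have hB2 : ∀ x ∈ B, x ^ 2 = 1 := fun x hx => by
    have := hexp L ρ hf h4 (pr ⟨x, hx⟩)
    rw [← hnsmul, hz] at this
    exact Subgroup.mem_bot.1 this
  intro x hx
  obtain ⟨k, hk⟩ := h2 ⟨x, hx⟩
  have hk' : x ^ 2 ^ k = 1 := congrArg Subtype.val hk
  rw [← pow_two]
  clear hk
  induction k with
  | zero => rw [pow_zero, pow_one] at hk'; rw [hk', one_pow]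
  | succ k ih =>
    rcases k with _ | k
    · simpa using hk'
    · refine ih ?_
      have hy : x ^ 2 ^ k ∈ B :=
        hBmem.2 ⟨pow_mem hx _, by rw [← pow_mul, ← hk']; congr 1; ring⟩
      have := hB2 _ hy
      rwa [← pow_mul, ← pow_succ] at this

end CfsgLib.CNModules
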