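import Mathlib.FieldTheory.Finite.Basic
import Mathlib.LinearAlgebra.LinearIndependent.Lemmas
import Mathlib.Algebra.CharP.Two

/-!
Linear independence of characters, and identities between products of ring endomorphisms of a field of
characteristic two.
-/

set_option autoImplicit false

namespace CfsgLib.CNModules

variable {F : Type*} [Field F]

/-- The coefficient of a character different from all others in a vanishing combination is zero. -/
theorem coeff_char_eq_zero {A : Type*} [Monoid A] {ι : Type*} [Fintype ι] (χ : ι → A →* F) (c : ι → F)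
    (h : ∀ a, ∑ i, c i * χ i a = 0) (i : ι) (hi : ∀ j, j ≠ i → χ j ≠ χ i) : c i = 0 := by
  classical
  have key := linearIndependent_iff'.1 (linearIndependent_monoidHom A F) (Finset.univ.image χ)
    (fun f => ∑ j ∈ Finset.univ.filter (fun j => χ j = f), c j) (by
      funext a
      rw [Finset.sum_apply, Pi.zero_apply, ← h a]
      rw [← Finset.sum_fiberwise_of_maps_to (g := χ) (t := Finset.univ.image χ)
        (fun j _ => Finset.mem_image_of_mem χ (Finset.mem_univ j)) (fun j => c j * χ j a)]
      refine Finset.sum_congr rfl fun f _ => ?_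
      rw [Pi.smul_apply, smul_eq_mul, Finset.sum_mul]
      exact Finset.sum_congr rfl fun j hj => by rw [(Finset.mem_filter.1 hj).2])
    (χ i) (Finset.mem_image_of_mem χ (Finset.mem_univ i))
  rwa [Finset.sum_eq_single_of_mem i (by simp) fun j hj hji =>
    absurd (Finset.mem_filter.1 hj).2 (hi j hji)] at key

/-- A ring endomorphism as a multiplicative character. -/
def chr (σ : F →+* F) : F →* F := σ.toMonoidHom

@[simp] theorem chr_apply (σ : F →+* F) (x : F) : chr σ x = σ x := rfl

theorem chr_injective : Function.Injective (chr (F := F)) :=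
  fun _ _ h => RingHom.ext fun x => DFunLike.congr_fun h x

variable [CharP F 2]

theorem add_eq_zero_iff_eq_two {a b : F} : a + b = 0 ↔ a = b := CharTwo.add_eq_zero

/-- Two equal products of two endomorphisms give equal sums. -/
theorem sum_of_prod {σ τ α β : F →+* F} (h : ∀ x, σ x * τ x = α x * β x) (x : F) :
    σ x + τ x = α x + β x := by
  have h1 := h (x + 1)
  simp only [map_add, map_one] at h1
  linear_combination h1 - h x

/-- A product of two endomorphisms is an endomorphism only if they agree. -/
theorem eq_of_prod_eq {σ τ ρ : F →+* F} (h : ∀ x, σ x * τ x = ρ x) : σ = τ := by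
  refine RingHom.ext fun x => CharTwo.add_eq_zero.1 ?_
  have h1 := h (x + 1)
  simp only [map_add, map_one] at h1
  linear_combination h1 - h x

/-- Two equal products of two endomorphisms have the same factors, unless both are squares. -/
theorem cases_of_prod {σ τ α β : F →+* F} (h : ∀ x, σ x * τ x = α x * β x) :
    (σ = α ∧ τ = β) ∨ (σ = β ∧ τ = α) ∨ (σ = τ ∧ α = β) := by
  have hs := sum_of_prod h
  by_cases h1 : σ = α
  · subst h1
    exact Or.inl ⟨rfl, RingHom.ext fun x => add_left_cancel (hs x)⟩
  by_cases h2 : σ = β
  · subst h2
    exact Or.inr (Or.inl ⟨rfl, RingHom.ext fun x => by linear_combination hs x⟩)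
  by_cases h3 : σ = τ
  · subst h3
    refine Or.inr (Or.inr ⟨rfl, RingHom.ext fun x => CharTwo.add_eq_zero.1 ?_⟩)
    rw [← hs x, CharTwo.add_self_eq_zero]
  · exfalso
    refine one_ne_zero (coeff_char_eq_zero ![chr σ, chr τ, chr α, chr β] ![(1 : F), 1, -1, -1]
      (fun x => ?_) 0 ?_)
    · simp [Fin.sum_univ_four]
      linear_combination hs x
    · intro j hj e
      fin_cases j
      · exact hj rfl
      · exact h3 (chr_injective e).symm
      · exact h1 (chr_injective e).symm
      · exact h2 (chr_injective e).symm

/-- An additive map commuting with multiplications up to scalars is a multiple of an endomorphism. -/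
theorem exists_ringHom (f : F → F) (hadd : ∀ a b, f (a + b) = f a + f b)
    (hmul : ∀ s : F, s ≠ 0 → ∃ κ, ∀ a, f (s * a) = κ * f a) :
    ∃ ω : F →+* F, ∀ a, f a = f 1 * ω a := by
  have h0 : f 0 = 0 := by
    have := hadd 0 0
    rw [add_zero] at this
    exact left_eq_add.1 this
  by_cases h1 : f 1 = 0
  · refine ⟨RingHom.id F, fun a => ?_⟩
    rw [h1, zero_mul]
    by_cases ha : a = 0
    · rw [ha, h0]
    · obtain ⟨κ, hκ⟩ := hmul a ha
      have := hκ 1
      rwa [h1, mul_zero, mul_one] at this
  refine ⟨{ toFun := fun a => f a / f 1
            map_one' := div_self h1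
            map_mul' := fun a b => ?_
            map_zero' := by simp [h0]
            map_add' := fun a b => by rw [hadd, add_div] }, fun a => ?_⟩
  · by_cases ha : a = 0
    · simp [ha, h0]
    obtain ⟨κ, hκ⟩ := hmul a ha
    have e := hκ 1
    rw [mul_one] at e
    rw [hκ b, e]
    field_simp
  · exact (mul_div_cancel₀ (f a) h1).symm

end CfsgLib.CNModules
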