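import Mathlib.Algebra.Module.LinearMap.End
import Mathlib.Algebra.Group.Even
import Mathlib.Tactic.Abel
import Mathlib.Tactic.Ring

/-!
An abelian group of exponent four with two commuting involutory automorphisms whose fixed points agree on
the elements of order two, and whose ratio satisfies a separability relation there, has exponent two.
-/

set_option autoImplicit false

namespace CfsgLib.CNModules

variable {L : Type*} [AddCommGroup L]

theorem double_fixed_eq_zero (z y f lop : AddMonoid.End L) (q k : ℕ) (hq : Even q) (hexp : ∀ x : L, (4 : ℕ) • x = 0)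
    (hz : ∀ x, z (z x) = x) (hy : ∀ x, y (y x) = x) (hzy : ∀ x, z (y x) = y (z x))
    (hfz : ∀ x, f (z x) = z (f x)) (hfy : ∀ x, f (y x) = y (f x))
    (hiff : ∀ x : L, (2 : ℕ) • x = 0 → (z x = x ↔ y x = x))
    (hzy' : ∀ x : L, (2 : ℕ) • x = 0 → z (y x) = x → z x = x)
    (hlop : ∀ x : L, (2 : ℕ) • x = 0 → z x = x → lop x + z (lop x) = x)
    (hrel : ∀ x : L, (2 : ℕ) • x = 0 → z x = x →
      ((y + 1) * lop : AddMonoid.End L) x + (((y + 1) * lop) ^ q : AddMonoid.End L) x +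
        ((((y + 1) * lop) ^ q) ^ k + ((y + 1) * lop) ^ q : AddMonoid.End L) ((f + 1) x) = 0)
    (a : L) (ha : ∃ b, (2 : ℕ) • b = a) (haz : z a = a) : a = 0 := by
  classical
  set Q : AddMonoid.End L := (y + 1) * lop with hQdef
  have hQ : ∀ x, Q x = y (lop x) + lop x := fun x => rfl
  have h2 : ∀ b : L, (2 : ℕ) • ((2 : ℕ) • b) = 0 := fun b => by rw [← mul_nsmul]; exact hexp b
  -- the elements of order two fixed by `z`
  let A : Set L := {x | (2 : ℕ) • x = 0 ∧ z x = x}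
  let A1 : Set L := {x | (∃ b, (2 : ℕ) • b = x) ∧ z x = x}
  have hneg : ∀ x : L, (2 : ℕ) • x = 0 → -x = x := fun x hx => by
    rw [two_nsmul] at hx; exact neg_eq_of_add_eq_zero_left hx
  have hA1 : ∀ x ∈ A1, x ∈ A := fun x hx => ⟨by obtain ⟨b, rfl⟩ := hx.1; exact h2 b, hx.2⟩
  -- every element of `A1` is twice a fixed element
  have hpre : ∀ x ∈ A1, ∃ b : L, (2 : ℕ) • (b + z b) = x := by
    rintro x ⟨⟨b, hb⟩, hx⟩
    refine ⟨lop b, ?_⟩
    rw [nsmul_add, ← map_nsmul, ← map_nsmul z, ← map_nsmul lop, hb]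
    exact hlop x (by rw [← hb]; exact h2 b) hx
  let pre : L → L := fun x => if h : x ∈ A1 then (hpre x h).choose + z (hpre x h).choose else 0
  have hpre2 : ∀ x ∈ A1, (2 : ℕ) • pre x = x ∧ z (pre x) = pre x := fun x hx => by
    simp only [pre, dif_pos hx]
    exact ⟨(hpre x hx).choose_spec, by rw [map_add, hz, add_comm]⟩
  let E : L → L := fun x => y (pre x) - pre x
  have hwd : ∀ x ∈ A1, ∀ c, (2 : ℕ) • c = x → z c = c → E x = y c - c := by
    intro x hx c hc hcz
    obtain ⟨h1, h1z⟩ := hpre2 x hx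
    have hd : (2 : ℕ) • (pre x - c) = 0 := by rw [nsmul_sub, h1, hc, sub_self]
    have := (hiff _ hd).1 (by rw [map_sub, h1z, hcz])
    rw [map_sub] at this
    show y (pre x) - pre x = y c - c
    exact sub_eq_sub_iff_sub_eq_sub.1 this
  have hEA : ∀ x ∈ A1, E x ∈ A := by
    intro x hx
    obtain ⟨h1, h1z⟩ := hpre2 x hx
    refine ⟨?_, by simp only [E, map_sub, hzy, h1z]⟩
    have := (hiff x (hA1 x hx).1).1 hx.2
    simp only [E, nsmul_sub, ← map_nsmul, h1, this, sub_self]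
  have hadd : ∀ x ∈ A1, ∀ x' ∈ A1, x + x' ∈ A1 ∧ E (x + x') = E x + E x' := by
    intro x hx x' hx'
    obtain ⟨h1, h1z⟩ := hpre2 x hx
    obtain ⟨h2', h2z⟩ := hpre2 x' hx'
    have hm : x + x' ∈ A1 := ⟨⟨pre x + pre x', by rw [nsmul_add, h1, h2']⟩, by rw [map_add, hx.2, hx'.2]⟩
    refine ⟨hm, ?_⟩
    rw [hwd _ hm (pre x + pre x') (by rw [nsmul_add, h1, h2']) (by rw [map_add, h1z, h2z])]
    simp only [E, map_add]
    abel
  -- on fixed elements of order two, the preimage under `1 + z` may be changed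
  have hker : ∀ d : L, (2 : ℕ) • d = 0 → z d = d → y d + d = 0 := fun d hd hdz => by
    rw [(hiff d hd).1 hdz, ← two_nsmul, hd]
  have hQpre : ∀ c : L, (2 : ℕ) • c = 0 → Q (c + z c) = y c + c := by
    intro c hc
    have hs : (2 : ℕ) • (c + z c) = 0 := by rw [nsmul_add, ← map_nsmul, hc, map_zero, add_zero]
    have hl := hlop (c + z c) hs (by rw [map_add, hz, add_comm])
    set l := lop (c + z c)
    have hl2 : (2 : ℕ) • l = 0 := by rw [← map_nsmul, hs, map_zero]
    have hzd : z (l + c) = l + c := by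
      have e1 : z l = l + c + z c := by
        calc z l = -l + (l + z l) := by abel
          _ = l + (c + z c) := by rw [hl, hneg l hl2]
          _ = _ := by abel
      rw [map_add, e1]
      calc l + c + z c + z c = l + c + (2 : ℕ) • z c := by rw [two_nsmul]; abel
        _ = l + c := by rw [← map_nsmul, hc, map_zero, add_zero]
    have hd := hker (l + c) (by rw [nsmul_add, hl2, hc, add_zero]) hzd
    rw [map_add] at hd
    rw [hQ]
    calc y l + l = y l + y c + (l + c) - (y c + c) := by abel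
      _ = -(y c + c) := by rw [hd, zero_sub]
      _ = y c + c := hneg _ (by rw [nsmul_add, ← map_nsmul, hc, map_zero, add_zero])
  -- the basic identity
  have key : ∀ x ∈ A1, Q x ∈ A1 ∧ E (Q x) + Q (E x) = Q x + Q (Q x) := by
    intro x hx
    obtain ⟨b₀, hb₀⟩ := hpre x hx
    set e := (2 : ℕ) • (y b₀ - b₀) with he
    have he2 : (2 : ℕ) • e = 0 := h2 _
    have hez : z e = e := by
      have hd : (2 : ℕ) • ((2 : ℕ) • b₀) = 0 := h2 _
      have hfx : y ((2 : ℕ) • (b₀ + z b₀)) = (2 : ℕ) • (b₀ + z b₀) :=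
        (hiff _ (h2 _)).1 (by rw [map_nsmul, map_add, hz, add_comm])
      rw [he, map_nsmul, map_sub, hzy]
      rw [map_nsmul, map_add, nsmul_add, nsmul_add] at hfx
      rw [nsmul_sub, nsmul_sub]
      have e1 : (2 : ℕ) • y b₀ = (2 : ℕ) • b₀ + (2 : ℕ) • z b₀ - (2 : ℕ) • y (z b₀) :=
        eq_sub_of_add_eq hfx
      rw [e1]
      have e2 : (2 : ℕ) • ((2 : ℕ) • y (z b₀)) - (2 : ℕ) • ((2 : ℕ) • z b₀) = 0 := by
        rw [h2, h2, sub_self]
      rw [← sub_eq_zero, ← e2]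
      abel
    have hel := hlop e he2 hez
    set c := lop (y b₀ - b₀)
    have hle : lop e = (2 : ℕ) • c := by rw [he, map_nsmul]
    rw [hle] at hel
    set w := y b₀ - b₀ - (c + z c) with hw
    have hw2 : (2 : ℕ) • w = 0 := by
      rw [hw, nsmul_sub, ← he, nsmul_add, ← map_nsmul z, hel, sub_self]
    have hQx : Q x = (2 : ℕ) • (c + z c) := by
      have hr : (2 : ℕ) • (c + z c) = e := by rw [nsmul_add, ← map_nsmul z, hel]
      rw [hr, ← hb₀, nsmul_add, ← map_nsmul z, hQpre _ (h2 _), he, nsmul_sub, sub_eq_add_neg,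
        hneg _ (h2 b₀), map_nsmul]
    have hm : Q x ∈ A1 := ⟨⟨c + z c, hQx.symm⟩, by rw [hQx, map_nsmul, map_add, hz, add_comm]⟩
    refine ⟨hm, ?_⟩
    have hEx : E x = y (b₀ + z b₀) - (b₀ + z b₀) :=
      hwd x hx _ hb₀ (by rw [map_add, hz, add_comm])
    have hEQ : E (Q x) = y (c + z c) - (c + z c) :=
      hwd _ hm _ hQx.symm (by rw [map_add, hz, add_comm])
    have hww : (2 : ℕ) • (y w + w) = 0 := by rw [nsmul_add, ← map_nsmul, hw2, map_zero, add_zero]
    have e1 : E (Q x) = Q x + (y w + w) := by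
      rw [hEQ, hQx, show c + z c = y b₀ - b₀ - w by rw [hw]; abel, map_sub, map_sub, hy,
        nsmul_sub, nsmul_sub, hw2, sub_zero, ← nsmul_sub]
      have hn := hneg _ (h2 (y b₀ - b₀))
      calc b₀ - y b₀ - y w - (y b₀ - b₀ - w)
          = -((2 : ℕ) • (y b₀ - b₀)) - (y w - w) := by rw [two_nsmul]; abel
        _ = (2 : ℕ) • (y b₀ - b₀) + -(y w - w) := by rw [hn]; abel
        _ = _ := by
          congr 1
          rw [neg_sub, sub_eq_add_neg, hneg (y w) (by rw [← map_nsmul, hw2, map_zero]), add_comm]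
    have e2 : E x = Q x + (w + z w) := by
      rw [hEx, hQx]
      calc y (b₀ + z b₀) - (b₀ + z b₀) = (y b₀ - b₀) + z (y b₀ - b₀) := by
            rw [map_add, map_sub, hzy]; abel
        _ = ((c + z c) + w) + z ((c + z c) + w) := by rw [show c + z c + w = y b₀ - b₀ by rw [hw]; abel]
        _ = _ := by rw [map_add, map_add, hz, two_nsmul]; abel
    rw [e1, e2, map_add Q (Q x), hQpre w hw2]
    calc Q x + (y w + w) + (Q (Q x) + (y w + w)) = Q x + Q (Q x) + (2 : ℕ) • (y w + w) := by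
          rw [two_nsmul]; abel
      _ = _ := by rw [hww, add_zero]
  have hsq : ∀ x ∈ A1, Q (Q x) ∈ A1 ∧ E (Q (Q x)) = Q (Q (E x)) := by
    intro x hx
    obtain ⟨hQx, k1⟩ := key x hx
    obtain ⟨hQQ, k2⟩ := key _ hQx
    refine ⟨hQQ, ?_⟩
    have hQA : ∀ u : L, (2 : ℕ) • u = 0 → (2 : ℕ) • Q u = 0 := fun u hu => by rw [← map_nsmul, hu, map_zero]
    have e1 : E (Q x) = Q x + Q (Q x) - Q (E x) := eq_sub_of_add_eq k1
    have e2 : E (Q (Q x)) = Q (Q x) + Q (Q (Q x)) - Q (E (Q x)) := eq_sub_of_add_eq k2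
    rw [e2, e1, map_sub, map_add]
    abel
  have hpow : ∀ j x, x ∈ A1 → (Q ^ (2 * j) : AddMonoid.End L) x ∈ A1 ∧
      E ((Q ^ (2 * j) : AddMonoid.End L) x) = (Q ^ (2 * j) : AddMonoid.End L) (E x) := by
    intro j
    induction j with
    | zero => intro x hx; exact ⟨hx, rfl⟩
    | succ j ih =>
      intro x hx
      obtain ⟨h1, h1e⟩ := ih x hx
      obtain ⟨h2, h2e⟩ := hsq _ h1
      rw [show 2 * (j + 1) = 2 + 2 * j by ring, pow_add, pow_two]
      exact ⟨h2, by
        show E (Q (Q ((Q ^ (2 * j) : AddMonoid.End L) x))) = _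
        rw [h2e, h1e]; rfl⟩
  obtain ⟨j, hj⟩ := hq
  have hP : ∀ i x, x ∈ A1 → ((Q ^ q) ^ i : AddMonoid.End L) x ∈ A1 ∧
      E (((Q ^ q) ^ i : AddMonoid.End L) x) = ((Q ^ q) ^ i : AddMonoid.End L) (E x) := fun i x hx => by
    rw [← pow_mul, show q * i = 2 * (j * i) by rw [hj]; ring]
    exact hpow _ x hx
  have hN : ∀ x ∈ A1, (f + 1 : AddMonoid.End L) x ∈ A1 ∧
      E ((f + 1 : AddMonoid.End L) x) = (f + 1 : AddMonoid.End L) (E x) := by
    intro x hx
    obtain ⟨h1, h1z⟩ := hpre2 x hx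
    show f x + x ∈ A1 ∧ E (f x + x) = f (E x) + E x
    have hc : (2 : ℕ) • (f (pre x) + pre x) = f x + x := by rw [nsmul_add, ← map_nsmul, h1]
    have hcz : z (f (pre x) + pre x) = f (pre x) + pre x := by rw [map_add, ← hfz, h1z]
    have hm : f x + x ∈ A1 := ⟨⟨_, hc⟩, by rw [map_add, ← hfz, hx.2]⟩
    refine ⟨hm, ?_⟩
    rw [hwd _ hm _ hc hcz]
    simp only [E, map_add, map_sub, hfy]
    abel
  -- the ratio commutes with `E`
  have hcomm : ∀ x ∈ A1, E (Q x) = Q (E x) := by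
    intro x hx
    obtain ⟨hxA, hxz⟩ := hA1 x hx
    have h1 := hrel x hxA hxz
    have h2' := hrel (E x) (hEA x hx).1 (hEA x hx).2
    obtain ⟨p1, p1e⟩ := hP 1 x hx
    rw [pow_one] at p1 p1e
    obtain ⟨n1, n1e⟩ := hN x hx
    obtain ⟨p2, p2e⟩ := hP k _ n1
    obtain ⟨p3, p3e⟩ := hP 1 _ n1
    rw [pow_one] at p3 p3e
    obtain ⟨s2, s2e⟩ := hadd _ p2 _ p3
    obtain ⟨s1, s1e⟩ := hadd _ p1 _ s2
    have conv : ∀ u : L, (2 : ℕ) • u = 0 →
        Q u + (Q ^ q : AddMonoid.End L) u +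
          (((Q ^ q) ^ k + Q ^ q : AddMonoid.End L) ((f + 1 : AddMonoid.End L) u)) = 0 →
        Q u = (Q ^ q : AddMonoid.End L) u + (((Q ^ q) ^ k : AddMonoid.End L) ((f + 1 : AddMonoid.End L) u) +
          (Q ^ q : AddMonoid.End L) ((f + 1 : AddMonoid.End L) u)) := fun u hu e => by
      rw [add_assoc] at e
      refine (eq_neg_of_add_eq_zero_left e).trans ?_
      refine hneg _ ?_
      rw [eq_neg_of_add_eq_zero_right e, smul_neg, ← map_nsmul, hu, map_zero, neg_zero]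
    rw [conv x hxA h1, conv (E x) (hEA x hx).1 h2', s1e, s2e, p1e, p2e, p3e, n1e]
  -- conclusion
  have hinj : ∀ x ∈ A1, Q x = 0 → x = 0 := by
    intro x hx h
    obtain ⟨hxA, hxz⟩ := hA1 x hx
    have hl2 : (2 : ℕ) • lop x = 0 := by rw [← map_nsmul, hxA, map_zero]
    rw [hQ] at h
    have hfy' : y (lop x) = lop x := (eq_neg_of_add_eq_zero_left h).trans (hneg _ hl2)
    have := hlop x hxA hxz
    rw [(hiff _ hl2).2 hfy', ← two_nsmul, hl2] at this
    exact this.symm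
  have ha1 : a ∈ A1 := ⟨ha, haz⟩
  obtain ⟨hQa, k1⟩ := key a ha1
  rw [hcomm a ha1, ← two_nsmul, ← map_nsmul, (hEA a ha1).1, map_zero] at k1
  obtain ⟨hs, -⟩ := hadd a ha1 _ hQa
  have h0 : a + Q a = 0 := hinj _ hs (by rw [map_add]; exact k1.symm)
  obtain ⟨haA, -⟩ := hA1 a ha1
  have hl2 : (2 : ℕ) • lop a = 0 := by rw [← map_nsmul, haA, map_zero]
  have hla := hlop a haA haz
  have hzyl : z (lop a) = y (lop a) := by
    have e : lop a + z (lop a) + (y (lop a) + lop a) = 0 := by rw [hla, ← hQ]; exact h0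
    have e' : z (lop a) + y (lop a) + (2 : ℕ) • lop a = 0 := by rw [two_nsmul, ← e]; abel
    rw [hl2, add_zero] at e'
    exact (eq_neg_of_add_eq_zero_left e').trans (hneg _ (by rw [← map_nsmul, hl2, map_zero]))
  have hfix := hzy' _ hl2 (by rw [← hzyl, hz])
  rw [hfix, ← two_nsmul, hl2] at hla
  exact hla.symm

/-- The criterion for exponent two. -/
theorem exponent_two_of_double (z y f lop : AddMonoid.End L) (q k : ℕ) (hq : Even q)
    (hexp : ∀ x : L, (4 : ℕ) • x = 0)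
    (hz : ∀ x, z (z x) = x) (hy : ∀ x, y (y x) = x) (hzy : ∀ x, z (y x) = y (z x))
    (hfz : ∀ x, f (z x) = z (f x)) (hfy : ∀ x, f (y x) = y (f x))
    (hiff : ∀ x : L, (2 : ℕ) • x = 0 → (z x = x ↔ y x = x))
    (hzy' : ∀ x : L, (2 : ℕ) • x = 0 → z (y x) = x → z x = x)
    (hlop : ∀ x : L, (2 : ℕ) • x = 0 → z x = x → lop x + z (lop x) = x)
    (hrel : ∀ x : L, (2 : ℕ) • x = 0 → z x = x →
      ((y + 1) * lop : AddMonoid.End L) x + (((y + 1) * lop) ^ q : AddMonoid.End L) x +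
        ((((y + 1) * lop) ^ q) ^ k + ((y + 1) * lop) ^ q : AddMonoid.End L) ((f + 1) x) = 0)
    (b : L) : (2 : ℕ) • b = 0 := by
  have key := double_fixed_eq_zero z y f lop q k hq hexp hz hy hzy hfz hfy hiff hzy' hlop hrel
  set a := (2 : ℕ) • b with ha
  have h2 : a + a = 0 := by rw [← two_nsmul, ha, ← mul_nsmul]; exact hexp b
  have h := key (a + z a) ⟨b + z b, by rw [nsmul_add, ← map_nsmul]⟩ (by rw [map_add, hz, add_comm])
  exact key a ⟨b, rfl⟩ ((eq_neg_of_add_eq_zero_right h).trans (neg_eq_of_add_eq_zero_left h2))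

end CfsgLib.CNModules
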