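import Cfsg.Agent.CNModules.SzGen
import Mathlib.LinearAlgebra.TensorProduct.Tower
import Mathlib.RingTheory.TensorProduct.Finite
import Mathlib.Algebra.Algebra.ZMod

/-!
Operator identities and equivariant pairings for modules over the prime field on which the elements of
odd order of a Suzuki group act fixed point freely.
-/

set_option autoImplicit false

open scoped Matrix TensorProduct

namespace CfsgLib.CNModules

open CfsgLib.Suzuki

variable {F : Type*} [Field F] [CharP F 2] [Finite F] {θ : F →+* F}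
variable (hT : TitsEndo θ)

section Operators

variable {R : Type*} [CommRing R] {M : Type*} [AddCommGroup M] [Module R M]

/-- `u(0,b) - 1`, in characteristic two. -/
def Rop (ρ : grp θ →* Module.End R M) (b : F) : Module.End R M := ρ (uElt hT 0 b) + 1

/-- The left quotient of `z - 1` on the fixed points of `z`. -/
def Lop (ρ : grp θ →* Module.End R M) : Module.End R M :=
  ρ (wElt hT) + ρ (wElt hT * uElt hT 0 1 * wElt hT)

/-- The ratio of `u(0,b) - 1` and `u(0,1) - 1`. -/
def Qop (ρ : grp θ →* Module.End R M) (b : F) : Module.End R M := Rop hT ρ b * Lop hT ρ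

/-- `u(1,0) - 1`. -/
def Nop (ρ : grp θ →* Module.End R M) : Module.End R M := ρ (uElt hT 1 0) + 1

/-- The relation between the ratio and its semisimple part. -/
def Trel (ρ : grp θ →* Module.End R M) (q k : ℕ) (b : F) : Module.End R M :=
  (Qop hT ρ b + Qop hT ρ b ^ q + ((Qop hT ρ b ^ q) ^ k + Qop hT ρ b ^ q) * Nop hT ρ) * Rop hT ρ 1

end Operators

section Natural

variable (σ : F →+* F)

theorem Rop_nat (b : F) (y : Fin 4 → F) :
    Rop hT (nat θ σ) b y = ![σ b * y 2 + σ (θ b) * y 3, σ b * y 3, 0, 0] := by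
  show nat θ σ (uElt hT 0 b) y + y = _
  rw [nat_uZ]
  funext i
  fin_cases i <;> simp <;> grind [CharTwo.two_eq_zero]

theorem Qop_nat (b x z : F) :
    Qop hT (nat θ σ) b ![x, z, 0, 0] = ![σ b * x + (σ b + σ (θ b)) * z, σ b * z, 0, 0] := by
  show Rop hT (nat θ σ) b (nat θ σ (wElt hT) ![x, z, 0, 0] +
    nat θ σ (wElt hT * uElt hT 0 1 * wElt hT) ![x, z, 0, 0]) = _
  rw [rho_mul, rho_mul, nat_w, nat_uZ, nat_w, Rop_nat]
  funext i
  fin_cases i <;> simp <;> grind [CharTwo.two_eq_zero]

theorem Qop_pow_nat (b x z : F) (j : ℕ) :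
    (Qop hT (nat θ σ) b ^ j) ![x, z, 0, 0] =
      ![σ b ^ j * x + (j : F) * σ b ^ (j - 1) * (σ b + σ (θ b)) * z, σ b ^ j * z, 0, 0] := by
  induction j with
  | zero => simp
  | succ j ih =>
    rw [pow_succ', Module.End.mul_apply, ih, Qop_nat]
    funext i
    fin_cases i <;> simp
    · rcases j with _ | j
      · simp
      · simp only [Nat.add_sub_cancel]; push_cast; ring
    · ring

theorem Trel_nat {k : ℕ} (hk : ∀ x : F, θ x = x ^ k) (hk2 : Even k) (hk0 : k ≠ 0) (b : F)
    (y : Fin 4 → F) : Trel hT (nat θ σ) (Nat.card F) k b y = 0 := by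
  obtain ⟨x, z, hxz⟩ : ∃ x z, Rop hT (nat θ σ) 1 y = ![x, z, 0, 0] := ⟨_, _, Rop_nat hT σ 1 y⟩
  obtain ⟨n, hn1, hn⟩ := card_field (F := F)
  have hq0 : ((Nat.card F : ℕ) : F) = 0 := by
    rw [hn, Nat.cast_pow, Nat.cast_ofNat, CharTwo.two_eq_zero, zero_pow (by omega)]
  haveI := Fintype.ofFinite F
  have hpow : σ b ^ Nat.card F = σ b := by rw [Nat.card_eq_fintype_card, FiniteField.pow_card]
  have hP : ∀ x z, (Qop hT (nat θ σ) b ^ Nat.card F) ![x, z, 0, 0] = ![σ b * x, σ b * z, 0, 0] := by
    intro x z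
    rw [Qop_pow_nat, hq0, hpow]; simp
  have hPk : ∀ j x z, ((Qop hT (nat θ σ) b ^ Nat.card F) ^ j) ![x, z, 0, 0] =
      ![σ b ^ j * x, σ b ^ j * z, 0, 0] := by
    intro j
    induction j with
    | zero => simp
    | succ j ih =>
      intro x z
      rw [pow_succ', Module.End.mul_apply, ih, hP]
      funext i; fin_cases i <;> simp <;> ring
  have hN : Nop hT (nat θ σ) ![x, z, 0, 0] = ![z, 0, 0, 0] := by
    show nat θ σ (uElt hT 1 0) ![x, z, 0, 0] + ![x, z, 0, 0] = _
    rw [nat_uA]
    funext i; fin_cases i <;> simp <;> grind [CharTwo.two_eq_zero]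
  rw [Trel, Module.End.mul_apply, hxz, LinearMap.add_apply, LinearMap.add_apply, Module.End.mul_apply,
    hN, LinearMap.add_apply, hPk, hP, hP, Qop_nat, hk b, map_pow]
  funext i
  fin_cases i <;> simp <;> grind [CharTwo.two_eq_zero]

theorem nat_fixed_Z {b : F} (hb : b ≠ 0) (y : Fin 4 → F) :
    nat θ σ (uElt hT 0 b) y = y ↔ y 2 = 0 ∧ y 3 = 0 := by
  rw [nat_uZ]
  constructor
  · intro h
    have h1 := congrFun h 1
    have h0 := congrFun h 0
    simp at h0 h1
    have e3 : y 3 = 0 := h1.resolve_left hb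
    simp [e3] at h0
    exact ⟨h0.resolve_left hb, e3⟩
  · rintro ⟨e2, e3⟩
    funext i; fin_cases i <;> simp [e2, e3]

end Natural

section FieldModules

include hT

variable {M : Type*} [AddCommGroup M] [Module F M] {N : Type*} [AddCommGroup N] [Module F N]

omit hT in
theorem semiconj_pow {p : M →ₗ[F] N} {A : Module.End F M} {B : Module.End F N}
    (h : ∀ x, p (A x) = B (p x)) : ∀ (n : ℕ) x, p ((A ^ n) x) = (B ^ n) (p x) := by
  intro n
  induction n with
  | zero => simp
  | succ n ih => intro x; rw [pow_succ', pow_succ', Module.End.mul_apply, Module.End.mul_apply, h, ih]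

theorem Trel_hom {ρ : grp θ →* Module.End F M} {ρ' : grp θ →* Module.End F N} {p : M →ₗ[F] N}
    (hp : IsHom ρ ρ' p) (q k : ℕ) (b : F) (x : M) :
    p (Trel hT ρ q k b x) = Trel hT ρ' q k b (p x) := by
  have hR : ∀ b x, p (Rop hT ρ b x) = Rop hT ρ' b (p x) := fun b x => by simp [Rop, hp _ _]
  have hN : ∀ x, p (Nop hT ρ x) = Nop hT ρ' (p x) := fun x => by simp [Nop, hp _ _]
  have hQ : ∀ x, p (Qop hT ρ b x) = Qop hT ρ' b (p x) := fun x => by
    simp [Qop, Lop, hR, hp _ _, map_add]
  have hP := semiconj_pow hQ q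
  simp [Trel, hR, hN, hQ, hP, semiconj_pow hP k, map_add]

theorem Trel_eq_zero [Finite M] {ρ : grp θ →* Module.End F M} (hρ : Fpf ρ) {k : ℕ}
    (hk : ∀ x : F, θ x = x ^ k) (hk2 : Even k) (hk0 : k ≠ 0) (b : F) (x : M) :
    Trel hT ρ (Nat.card F) k b x = 0 := by
  by_contra h
  obtain ⟨σ, p, hp, hne⟩ := exists_separating hT hρ h
  exact hne (by rw [Trel_hom hT hp, Trel_nat hT σ hk hk2 hk0])

theorem fixed_iff [Finite M] {ρ : grp θ →* Module.End F M} (hρ : Fpf ρ) {b : F} (hb : b ≠ 0) (x : M) :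
    ρ (uElt hT 0 b) x = x ↔ ρ (uElt hT 0 1) x = x := by
  have key : ∀ c d : F, c ≠ 0 → d ≠ 0 → ρ (uElt hT 0 c) x = x → ρ (uElt hT 0 d) x = x := by
    intro c d hc hd h
    by_contra hne
    obtain ⟨σ, p, hp, hpne⟩ := exists_separating hT hρ (sub_ne_zero.2 hne)
    apply hpne
    have h1 : nat θ σ (uElt hT 0 c) (p x) = p x := by rw [← hp, h]
    rw [map_sub, hp, (nat_fixed_Z hT σ hd _).2 ((nat_fixed_Z hT σ hc _).1 h1), sub_self]
  exact ⟨key b 1 hb one_ne_zero, key 1 b one_ne_zero hb⟩

/-- The last two coordinates of a pairing value. -/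
theorem pairing_key {σ' τ' η : F →+* F}
    (γ : (Fin 4 → F) →ₗ[F] (Fin 4 → F) →ₗ[F] (Fin 4 → F))
    (hγ : ∀ g x y, γ (nat θ σ' g x) (nat θ τ' g y) = nat θ η g (γ x y)) (h00 : γ e0 e0 = 0) :
    γ e0 e3 2 = 0 ∧ γ e0 e3 3 = 0 := by
  set y := γ e0 e3
  set r := γ e0 ![0, 1, 0, 0]
  have hZ : ∀ b, nat θ η (uElt hT 0 b) y = y + τ' b • r := fun b => by
    rw [← hγ, nat_fixed σ' 0 b,
      show nat θ τ' (uElt hT 0 b) e3 = τ' (θ b) • (e0 : Fin 4 → F) + e3 + τ' b • ![0, 1, 0, 0] by
        rw [nat_uZ]; funext i; fin_cases i <;> simp [e0, e3],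
      map_add, map_add, map_smul, map_smul, h00, smul_zero, zero_add]
  have h1 : ∀ b, η b * y 3 + τ' b * r 1 * (-1) = 0 := fun b => by
    have := congrFun (hZ b) 1; simp [nat_uZ] at this; linear_combination this
  have h0 : ∀ b, η b * y 2 + η (θ b) * y 3 + τ' b * r 0 * (-1) = 0 := fun b => by
    have := congrFun (hZ b) 0; simp [nat_uZ] at this; linear_combination this
  by_cases hτ : τ' = η
  · subst hτ
    have e3' : y 3 = 0 := coeff_char_eq_zero ![chr (τ'.comp θ), chr τ'] ![y 3, y 2 - r 0]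
      (fun b => by have := h0 b; simp [Fin.sum_univ_two] at this ⊢; linear_combination this) 0
      (fun j hj e => by
        fin_cases j
        · exact hj rfl
        · exact theta_ne_id hT (RingHom.ext fun x => τ'.injective
            (DFunLike.congr_fun (chr_injective e) x).symm))
    refine ⟨?_, e3'⟩
    set r' := γ e0 ![0, 0, 1, 0]
    have hA : ∀ a, nat θ τ' (uElt hT a 0) y = y + τ' a • r' := fun a => by
      rw [← hγ, nat_fixed σ' a 0,
        show nat θ τ' (uElt hT a 0) e3 = τ' (a ^ 2 * θ a) • (e0 : Fin 4 → F) + e3 + τ' a • ![0, 0, 1, 0] by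
          rw [nat_uA]; funext i; fin_cases i <;> simp [e0, e3],
        map_add, map_add, map_smul, map_smul, h00, smul_zero, zero_add]
    exact coeff_char_eq_zero ![chr (τ'.comp θ), chr τ'] ![y 2, -r' 1]
      (fun a => by
        have := congrFun (hA a) 1
        simp [nat_uA, Fin.sum_univ_two] at this ⊢
        linear_combination this) 0
      (fun j hj e => by
        fin_cases j
        · exact hj rfl
        · exact theta_ne_id hT (RingHom.ext fun x => τ'.injective
            (DFunLike.congr_fun (chr_injective e) x).symm))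
  · have e3' : y 3 = 0 := coeff_char_eq_zero ![chr η, chr τ'] ![y 3, -r 1]
      (fun b => by have := h1 b; simp [Fin.sum_univ_two] at this ⊢; linear_combination this) 0
      (fun j hj e => by
        fin_cases j
        · exact hj rfl
        · exact hτ (chr_injective e))
    refine ⟨?_, e3'⟩
    exact coeff_char_eq_zero ![chr η, chr τ'] ![y 2, -r 0]
      (fun b => by
        have := h0 b; rw [e3'] at this
        simp [Fin.sum_univ_two] at this ⊢; linear_combination this) 0
      (fun j hj e => by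
        fin_cases j
        · exact hj rfl
        · exact hτ (chr_injective e))

theorem pairing_corner {σ τ η : F →+* F}
    (β : (Fin 4 → F) →ₗ[F] (Fin 4 → F) →ₗ[F] (Fin 4 → F))
    (hβ : ∀ g x y, β (nat θ σ g x) (nat θ τ g y) = nat θ η g (β x y)) : β e0 e3 = 0 := by
  have hfix : ∀ a b, nat θ η (uElt hT a b) (β e0 e0) = β e0 e0 := fun a b => by
    rw [← hβ, nat_fixed, nat_fixed]
  by_cases hστ : σ = τ
  · subst hστ
    obtain ⟨z, hz0, hz1⟩ := hT.big
    obtain ⟨t, ht⟩ := exists_mu_eq hT hz0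
    have ht0 : (t : F) ≠ 0 := t.ne_zero
    have h : nat θ η (tElt hT t) (β e0 e3) = β e0 e3 := by
      rw [← hβ, nat_weight σ t,
        show nat θ σ (tElt hT t) e3 = (σ (mu θ t))⁻¹ • (e3 : Fin 4 → F) by
          rw [nat_t]; funext i; fin_cases i <;> simp [e3],
        map_smul, map_smul, LinearMap.smul_apply, smul_smul,
        inv_mul_cancel₀ ((map_ne_zero σ).2 (mu_ne_zero t)), one_smul]
    have hm : η (mu θ t) ≠ 1 := fun e => hz1 (by rw [← ht]; exact η.injective (by rw [e, map_one]))
    have ht1 : η (t : F) ≠ 1 := fun e => hz1 (by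
      have : (t : F) = 1 := η.injective (by rw [e, map_one])
      rw [← ht, mu, this, map_one, mul_one])
    rw [nat_t] at h
    funext i
    have hi := congrFun h i
    fin_cases i <;> simp at hi ⊢ <;> by_contra hne
    · exact hm ((mul_eq_right₀ hne).1 hi)
    · exact ht1 ((mul_eq_right₀ hne).1 hi)
    · exact ht1 (inv_eq_one.1 ((mul_eq_right₀ hne).1 hi))
    · exact hm (inv_eq_one.1 ((mul_eq_right₀ hne).1 hi))
  · have hp : β e0 e0 = 0 := by
      have h := nat_fix η hT (fun a => hfix a 0) (fun b => hfix 0 b)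
      by_contra hne
      have hc : β e0 e0 0 ≠ 0 := fun e => hne (by rw [h, e, zero_smul])
      refine hστ (eq_of_prod_eq (ρ := η) fun x => ?_)
      rcases eq_or_ne x 0 with rfl | hx
      · simp
      obtain ⟨t, rfl⟩ := exists_mu_eq hT hx
      have h2 := congrFun (hβ (tElt hT t) e0 e0) 0
      rw [nat_weight σ t, nat_weight τ t, map_smul, map_smul, LinearMap.smul_apply, smul_smul,
        nat_t] at h2
      simp at h2
      rcases h2 with h2 | h2
      · linear_combination h2
      · exact absurd h2 hc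
    obtain ⟨y2, y3⟩ := pairing_key hT β hβ hp
    obtain ⟨z2, z3⟩ := pairing_key hT β.flip (fun g x y => hβ g y x) hp
    have hw : β e3 e0 = nat θ η (wElt hT) (β e0 e3) := by
      rw [← hβ, nat_w_e0]
      congr 1
      rw [nat_w]; funext i; fin_cases i <;> simp [e0, e3]
    rw [LinearMap.flip_apply, hw, nat_w] at z2 z3
    simp at z2 z3
    funext i; fin_cases i <;> simp [y2, y3, z2, z3]

theorem pairing_nat {σ τ η : F →+* F}
    (β : (Fin 4 → F) →ₗ[F] (Fin 4 → F) →ₗ[F] (Fin 4 → F))
    (hβ : ∀ g x y, β (nat θ σ g x) (nat θ τ g y) = nat θ η g (β x y)) : β = 0 := by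
  have hy : β e0 e3 = 0 := pairing_corner hT β hβ
  have h0 : β e0 = 0 := by
    refine LinearMap.ext fun y => ?_
    have htop : LinearMap.ker (β e0) = ⊤ := by
      refine eq_top_of_e3 τ hT _ (fun a b x hx => ?_) (LinearMap.mem_ker.2 hy)
      rw [LinearMap.mem_ker] at hx ⊢
      have := hβ (uElt hT a b) e0 x
      rwa [nat_fixed σ a b, hx, map_zero] at this
    exact (htop ▸ Submodule.mem_top : y ∈ LinearMap.ker (β e0))
  refine LinearMap.ext fun x => ?_
  have hle : orbSpan (nat θ σ) (e0 : Fin 4 → F) ≤ LinearMap.ker β := by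
    refine Submodule.span_le.2 ?_
    rintro _ ⟨g, rfl⟩
    refine LinearMap.ext fun y => ?_
    have := hβ g e0 (nat θ τ g⁻¹ y)
    rw [← rho_mul, mul_inv_cancel, rho_one, h0, LinearMap.zero_apply, map_zero] at this
    exact this.trans (LinearMap.zero_apply y).symm
  exact hle ((nat_span hT σ).symm ▸ Submodule.mem_top)

variable {W : Type*} [AddCommGroup W] [Module F W]

/-- An equivariant pairing of fixed-point-free modules vanishes. -/
theorem pairing_eq_zero [Finite M] [Finite N] [Finite W] {ρ : grp θ →* Module.End F M}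
    {ρ' : grp θ →* Module.End F N} {ρ'' : grp θ →* Module.End F W} (hρ : Fpf ρ) (hρ' : Fpf ρ')
    (hρ'' : Fpf ρ'') (β : M →ₗ[F] N →ₗ[F] W) (hβ : ∀ g x y, β (ρ g x) (ρ' g y) = ρ'' g (β x y)) :
    β = 0 := by
  refine LinearMap.ker_eq_top.1 (isGen hT hρ _ fun σ f hf => ?_)
  rintro _ ⟨x, rfl⟩
  refine LinearMap.ker_eq_top.1 (isGen hT hρ' _ fun τ g hg => ?_)
  rintro _ ⟨y, rfl⟩
  by_contra hne
  obtain ⟨η, p, hp, hpne⟩ := exists_separating hT hρ'' hne
  apply hpne
  exact LinearMap.congr_fun (LinearMap.congr_fun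
    (pairing_nat hT (((β.comp f).compl₂ g).compr₂ p) (σ := σ) (τ := τ) (η := η)
      fun h a b => by
        show p (β (f _) (g _)) = _
        rw [hf, hg, hβ, hp]
        rfl) x) y

end FieldModules

section PrimeField

variable [Algebra (ZMod 2) F] {M : Type*} [AddCommGroup M] [Module (ZMod 2) M]

variable (F) in
/-- Extension of scalars of an action. -/
noncomputable def extRep {G : Type*} [Group G] (ρ : G →* Module.End (ZMod 2) M) :
    G →* Module.End F (F ⊗[ZMod 2] M) where
  toFun g := (ρ g).baseChange F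
  map_one' := by rw [map_one]; exact LinearMap.baseChange_id
  map_mul' g h := by rw [map_mul]; exact LinearMap.baseChange_comp _ _

omit [CharP F 2] [Finite F] in
theorem extRep_tmul {G : Type*} [Group G] (ρ : G →* Module.End (ZMod 2) M) (g : G) (c : F) (m : M) :
    extRep F ρ g (c ⊗ₜ[ZMod 2] m) = c ⊗ₜ[ZMod 2] ρ g m := rfl

theorem finite_ext [Finite M] : Finite (F ⊗[ZMod 2] M) := by
  haveI : Module.Finite (ZMod 2) M := Module.Finite.of_finite
  exact Module.finite_of_finite F

omit [CharP F 2] [Finite F] in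
theorem tmul_one_injective : Function.Injective fun m : M => (1 : F) ⊗ₜ[ZMod 2] m := by
  obtain ⟨φ, hφ⟩ := (LinearMap.toSpanSingleton (ZMod 2) F 1).exists_leftInverse_of_injective
    (LinearMap.ker_eq_bot.2 (smul_left_injective _ (one_ne_zero (α := F))))
  intro a b h
  have := congrArg (fun z => TensorProduct.lid (ZMod 2) M (TensorProduct.map φ LinearMap.id z)) h
  have h1 : φ 1 = 1 := by simpa using LinearMap.congr_fun hφ 1
  simpa [h1] using this

theorem Fpf.extend {G : Type*} [Group G] [Finite M] {ρ : G →* Module.End (ZMod 2) M} (h : Fpf ρ) :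
    Fpf (extRep F ρ) := by
  intro g hg hg1 v hv
  set n := orderOf g with hn
  have hs : ∀ m : M, (∑ k ∈ Finset.range n, ρ (g ^ k) m) = 0 := by
    intro m
    refine h g hg hg1 _ ?_
    rw [map_sum]
    have e : ∀ k, ρ g (ρ (g ^ k) m) = ρ (g ^ (k + 1)) m := fun k => by
      rw [pow_succ', map_mul]; rfl
    simp only [e]
    have h1 := Finset.sum_range_succ (fun k => ρ (g ^ k) m) n
    rw [Finset.sum_range_succ', pow_zero, hn, pow_orderOf_eq_one] at h1
    exact add_right_cancel h1
  have hext : ∀ x : F ⊗[ZMod 2] M, (∑ k ∈ Finset.range n, extRep F ρ (g ^ k) x) = 0 := by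
    intro x
    induction x using TensorProduct.induction_on with
    | zero => simp
    | tmul c m => simp only [extRep_tmul, ← TensorProduct.tmul_sum, hs, TensorProduct.tmul_zero]
    | add x y hx hy => simp only [map_add, Finset.sum_add_distrib, hx, hy, add_zero]
  have hfix : ∀ k : ℕ, extRep F ρ (g ^ k) v = v := by
    intro k
    induction k with
    | zero => rw [pow_zero, rho_one]
    | succ k ih => rw [pow_succ', rho_mul, ih, hv]
  have h2 := hext v
  rw [Finset.sum_congr rfl (fun k _ => hfix k), Finset.sum_const, Finset.card_range,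
    ← Nat.cast_smul_eq_nsmul F] at h2
  obtain ⟨j, hj⟩ := hg
  rwa [show ((n : ℕ) : F) = 1 by rw [hj]; push_cast; rw [CharTwo.two_eq_zero]; ring, one_smul] at h2

include hT in
/-- The fixed points of all involutions of a root group agree. -/
theorem fixed_iff_two [Finite M] {ρ : grp θ →* Module.End (ZMod 2) M} (hρ : Fpf ρ) {b : F} (hb : b ≠ 0)
    (x : M) : ρ (uElt hT 0 b) x = x ↔ ρ (uElt hT 0 1) x = x := by
  haveI := finite_ext (F := F) (M := M)
  have h := fixed_iff hT hρ.extend hb ((1 : F) ⊗ₜ[ZMod 2] x)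
  rw [extRep_tmul, extRep_tmul] at h
  exact (tmul_one_injective.eq_iff).symm.trans (h.trans tmul_one_injective.eq_iff)

include hT in
/-- The operator identity on a module over the prime field. -/
theorem Trel_eq_zero_two [Finite M] {ρ : grp θ →* Module.End (ZMod 2) M} (hρ : Fpf ρ) {k : ℕ}
    (hk : ∀ x : F, θ x = x ^ k) (hk2 : Even k) (hk0 : k ≠ 0) (b : F) (x : M) :
    Trel hT ρ (Nat.card F) k b x = 0 := by
  haveI := finite_ext (F := F) (M := M)
  have h := Trel_eq_zero hT hρ.extend hk hk2 hk0 b ((1 : F) ⊗ₜ[ZMod 2] x)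
  refine tmul_one_injective (F := F) ?_
  show (1 : F) ⊗ₜ[ZMod 2] (Trel hT ρ (Nat.card F) k b x) = (1 : F) ⊗ₜ[ZMod 2] (0 : M)
  rw [TensorProduct.tmul_zero, ← h]
  have e : Trel hT (extRep F ρ) (Nat.card F) k b = (Trel hT ρ (Nat.card F) k b).baseChange F := by
    have hbc : ∀ A B : Module.End (ZMod 2) M,
        (A * B).baseChange F = A.baseChange F * B.baseChange F := fun A B => LinearMap.baseChange_comp _ _
    have hpw : ∀ (A : Module.End (ZMod 2) M) (j : ℕ), (A ^ j).baseChange F = A.baseChange F ^ j := by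
      intro A j
      induction j with
      | zero => exact LinearMap.baseChange_id
      | succ j ih => rw [pow_succ, pow_succ, hbc, ih]
    have hone : (1 : Module.End (ZMod 2) M).baseChange F = 1 := LinearMap.baseChange_id
    simp only [Trel, Qop, Rop, Lop, Nop, hbc, hpw, LinearMap.baseChange_add, hone]
    rfl
  rw [e, LinearMap.baseChange_tmul]

include hT in
/-- An equivariant pairing over the prime field vanishes. -/
theorem pairing_eq_zero_two [Finite M] {N W : Type*} [AddCommGroup N] [Module (ZMod 2) N] [Finite N]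
    [AddCommGroup W] [Module (ZMod 2) W] [Finite W] {ρ : grp θ →* Module.End (ZMod 2) M}
    {ρ' : grp θ →* Module.End (ZMod 2) N} {ρ'' : grp θ →* Module.End (ZMod 2) W} (hρ : Fpf ρ)
    (hρ' : Fpf ρ') (hρ'' : Fpf ρ'') (β : M →ₗ[ZMod 2] N →ₗ[ZMod 2] W)
    (hβ : ∀ g x y, β (ρ g x) (ρ' g y) = ρ'' g (β x y)) : β = 0 := by
  haveI := finite_ext (F := F) (M := M)
  haveI := finite_ext (F := F) (M := N)
  haveI := finite_ext (F := F) (M := W)
  set B : F ⊗[ZMod 2] M →ₗ[F] F ⊗[ZMod 2] N →ₗ[F] F ⊗[ZMod 2] W :=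
    LinearMap.liftBaseChange F ((LinearMap.baseChangeHom (ZMod 2) F N W).comp β) with hB
  have hBt : ∀ (c d : F) m n, B (c ⊗ₜ[ZMod 2] m) (d ⊗ₜ[ZMod 2] n) = (c * d) ⊗ₜ[ZMod 2] β m n := by
    intro c d m n
    simp [hB, LinearMap.liftBaseChange_tmul, TensorProduct.smul_tmul']
  have h0 : B = 0 := pairing_eq_zero hT hρ.extend hρ'.extend hρ''.extend B fun g x y => by
    induction x using TensorProduct.induction_on with
    | zero => simp
    | add a b ha hb => simp only [map_add, LinearMap.add_apply, ha, hb]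
    | tmul c m =>
      induction y using TensorProduct.induction_on with
      | zero => simp
      | add a b ha hb => simp only [map_add, ha, hb]
      | tmul d n => rw [extRep_tmul, extRep_tmul, hBt, hBt, extRep_tmul, hβ]
  refine LinearMap.ext fun m => LinearMap.ext fun n => tmul_one_injective (F := F) ?_
  have := hBt 1 1 m n
  rw [h0, mul_one] at this
  show (1 : F) ⊗ₜ[ZMod 2] β m n = (1 : F) ⊗ₜ[ZMod 2] (0 : W)
  rw [← this, TensorProduct.tmul_zero]
  rfl

end PrimeField

end CfsgLib.CNModules
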