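import Cfsg.Agent.CNModules.LTwoRep
import Cfsg.Agent.CNModules.SzPairing

/-!
Semisimplicity of the fixed-point-free modules of `SL₂(2ⁿ)`, pairings of such modules, and their operator
identities.
-/

set_option autoImplicit false

open scoped Matrix TensorProduct

namespace CfsgLib.CNModules.LTwo

open CfsgLib.SL2

universe v

variable {F : Type*} [Field F] [CharP F 2] [Finite F]

local notation "SL₂" => Matrix.SpecialLinearGroup (Fin 2) F

variable {M : Type v} [AddCommGroup M] [Module F M]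
variable {ρ : Matrix.SpecialLinearGroup (Fin 2) F →* Module.End F M}
variable {σ τ : F →+* F}

/-- The data of an extension of `σ` by `τ`. -/
structure Extn2 (ρ : Matrix.SpecialLinearGroup (Fin 2) F →* Module.End F M) (σ τ : F →+* F) where
  inc : (Fin 2 → F) →ₗ[F] M
  prj : M →ₗ[F] (Fin 2 → F)
  ret : M →ₗ[F] (Fin 2 → F)
  inc_hom : IsHom (nat2 τ) ρ inc
  prj_hom : IsHom ρ (nat2 σ) prj
  prj_surj : Function.Surjective prj
  exact' : ∀ m, prj m = 0 ↔ ∃ x, inc x = m
  ret_inc : ∀ x, ret (inc x) = x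

section Extensions

variable (E : Extn2 ρ σ τ)
include E

theorem Extn2.inc_ret {m : M} (h : E.prj m = 0) : E.inc (E.ret m) = m := by
  obtain ⟨x, rfl⟩ := (E.exact' m).1 h
  rw [E.ret_inc]

theorem Extn2.prj_inc (x : Fin 2 → F) : E.prj (E.inc x) = 0 := (E.exact' _).2 ⟨x, rfl⟩

theorem Extn2.inc_inj : Function.Injective E.inc := fun x y h => by
  rw [← E.ret_inc x, h, E.ret_inc]

/-- The cocycle of a vector over a fixed one. -/
def Extn2.coc (v : M) (b : F) : Fin 2 → F := E.ret (ρ (u b) v - v)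

/-- A lift of the highest vector which is an eigenvector of the torus. -/
def Extn2.IsLift (v : M) : Prop :=
  E.prj v = f0 ∧ Weight2 ρ v (fun t => σ (t : F))

theorem Extn2.exists_lift : ∃ v, E.IsLift v := by
  classical
  letI := Fintype.ofFinite Fˣ
  obtain ⟨v₀, hv₀⟩ := E.prj_surj f0
  refine ⟨∑ t : Fˣ, (σ (t : F))⁻¹ • ρ (d t) v₀, ?_, fun s => ?_⟩
  · rw [map_sum]
    have : ∀ t : Fˣ, E.prj ((σ (t : F))⁻¹ • ρ (d t) v₀) = (f0 : Fin 2 → F) := fun t => by
      rw [map_smul, E.prj_hom, hv₀, nat2_weight σ t, smul_smul,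
        inv_mul_cancel₀ ((map_ne_zero σ).2 t.ne_zero), one_smul]
    rw [Finset.sum_congr rfl fun t _ => this t, Finset.sum_const, Finset.card_univ,
      ← Nat.card_eq_fintype_card, Nat.card_units, ← Nat.cast_smul_eq_nsmul F, cast_card_sub_one, one_smul]
  · rw [map_sum, Finset.smul_sum]
    refine Fintype.sum_equiv (Equiv.mulLeft s) _ _ fun t => ?_
    rw [map_smul, ← rho_mul, ← map_mul, Equiv.coe_mulLeft, smul_smul]
    congr 1
    rw [Units.val_mul, map_mul, mul_inv, ← mul_assoc, mul_inv_cancel₀ ((map_ne_zero σ).2 s.ne_zero),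
      one_mul]

theorem Extn2.rho_eq {v : M} (hv : E.prj v = f0) (b : F) :
    ρ (u b) v = v + E.inc (E.coc v b) := by
  rw [Extn2.coc, E.inc_ret (by rw [map_sub, E.prj_hom, hv, nat2_fixed σ b, sub_self]), add_sub_cancel]

theorem Extn2.coc_facts {v : M} (hv : E.IsLift v) :
    ∃ f : F → F, (∀ b, E.coc v b = ![f b, 0]) ∧ (∀ a b, f (a + b) = f a + f b) ∧
      ∀ (t : Fˣ) b, σ (t : F) * f ((t : F) ^ 2 * b) = τ (t : F) * f b := by
  have hmul : ∀ a b, E.coc v (a + b) = E.coc v a + nat2 τ (u a) (E.coc v b) := fun a b => by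
    refine E.inc_inj ?_
    have h := E.rho_eq hv.1 (a + b)
    rw [u_add, rho_mul, E.rho_eq hv.1 b, map_add, E.rho_eq hv.1 a, ← E.inc_hom, add_assoc, ← map_add] at h
    exact (add_left_cancel h).symm
  have h0 : E.coc v 0 = 0 := by simp [Extn2.coc, rho_one]
  have h1 : ∀ b, E.coc v b 1 = 0 := by
    intro b
    by_cases hb : b = 0
    · simp [hb, h0]
    have h := congrFun (hmul b b) 0
    rw [CharTwo.add_self_eq_zero, h0, nat2_u] at h
    simp at h
    refine (mul_eq_zero.1 ?_).resolve_left ((map_ne_zero τ).2 hb)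
    linear_combination -h - E.coc v b 0 * CharTwo.two_eq_zero (R := F)
  refine ⟨fun b => E.coc v b 0, fun b => ?_, fun a b => ?_, fun t b => ?_⟩
  · funext i; fin_cases i <;> simp [h1]
  · have h := congrFun (hmul a b) 0
    simpa [nat2_u, h1] using h
  · have hcw : σ (t : F) • E.coc v ((t : F) ^ 2 * b) = nat2 τ (d t) (E.coc v b) := by
      refine E.inc_inj ?_
      have hx : d t * u b = u ((t : F) ^ 2 * b) * d t := by
        rw [← d_conj_u, inv_mul_cancel_right]
      have h := congrArg (fun g => ρ g v) hx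
      simp only [rho_mul] at h
      rw [E.rho_eq hv.1 b, map_add, ← E.inc_hom, hv.2, map_smul, E.rho_eq hv.1, smul_add,
        ← map_smul E.inc] at h
      exact (add_left_cancel h).symm
    have h := congrFun hcw 0
    rw [nat2_d] at h
    simpa using h

/-- There is a lift of the highest vector fixed by the translations. -/
theorem Extn2.exists_fixed_lift : ∃ v, E.IsLift v ∧ Fixed2 ρ v := by
  classical
  obtain ⟨v, hv⟩ := E.exists_lift
  obtain ⟨f, hf, hfadd, hfw⟩ := E.coc_facts hv
  obtain ⟨ω, hω⟩ := exists_ringHom f hfadd (fun s hs => by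
    obtain ⟨t, rfl⟩ := exists_unit_sq hs
    refine ⟨τ (t : F) / σ (t : F), fun b => ?_⟩
    rw [div_mul_eq_mul_div, eq_div_iff ((map_ne_zero σ).2 t.ne_zero)]
    linear_combination hfw t b)
  by_cases hc : f 1 = 0
  · refine ⟨v, hv, fun b => ?_⟩
    rw [E.rho_eq hv.1, hf, hω, hc, zero_mul, show (![0, 0] : Fin 2 → F) = 0 by
      funext i; fin_cases i <;> simp, map_zero, add_zero]
  have hw : ∀ t : Fˣ, σ (t : F) * ω ((t : F) ^ 2) = τ (t : F) := fun t => by
    have := hfw t 1
    rw [mul_one, hω] at this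
    exact mul_right_cancel₀ hc (by linear_combination this)
  have hprod : ∀ x : F, σ x * (ω.comp (frobenius F 2)) x = τ x := fun x => by
    rcases eq_or_ne x 0 with rfl | hx
    · simp
    · simpa [frobenius_def] using hw (Units.mk0 x hx)
  have hσ : σ = ω.comp (frobenius F 2) := eq_of_prod_eq hprod
  by_cases hτ : ω = τ
  · have hwt : ∀ t : Fˣ, σ (t : F) = (τ (t : F))⁻¹ := fun t => by
      refine eq_inv_of_mul_eq_one_left ?_
      have := hw t
      rw [hτ, map_pow] at this
      exact mul_right_cancel₀ ((map_ne_zero τ).2 t.ne_zero) (by linear_combination this)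
    refine ⟨v + f 1 • E.inc f1, ⟨?_, fun t => ?_⟩, fun b => ?_⟩
    · rw [map_add, map_smul, E.prj_inc, smul_zero, add_zero, hv.1]
    · rw [map_add, map_smul, ← E.inc_hom, hv.2, smul_add, smul_comm]
      congr 2
      rw [← map_smul E.inc]
      congr 1
      rw [nat2_d]
      funext i
      fin_cases i <;> simp [f1, hwt]
    · rw [map_add, map_smul, ← E.inc_hom, E.rho_eq hv.1, hf, hω, hτ, add_assoc, ← map_smul E.inc,
        ← map_add E.inc]
      congr 1
      rw [← map_smul E.inc]
      congr 1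
      rw [nat2_u]
      funext i
      fin_cases i <;> simp [f1]
      linear_combination f 1 * τ b * CharTwo.two_eq_zero (R := F)
  · exfalso
    by_cases hid : ∀ x : F, x ^ 2 = x
    · exact hτ (RingHom.ext fun x => by
        have h1 := hprod x
        have h2 := DFunLike.congr_fun hσ x
        rw [← h1, h2, RingHom.comp_apply, frobenius_def, hid, ← sq, ← map_pow, hid])
    push Not at hid
    obtain ⟨z, hz⟩ := hid
    obtain ⟨v1, hv1⟩ := E.prj_surj f1
    set e : F → Fin 2 → F := fun a => E.ret (ρ (u a) v1 - v1 - σ a • v) with he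
    have hev : ∀ a, ρ (u a) v1 = v1 + σ a • v + E.inc (e a) := fun a => by
      rw [he, E.inc_ret ?_]
      · abel
      · rw [map_sub, map_sub, map_smul, E.prj_hom, hv1, hv.1, nat2_u]
        funext i; fin_cases i <;> simp [f1, f0]
    have hid : ∀ a b, σ b * (f 1 * ω a) + τ a * e b 1 = σ a * (f 1 * ω b) + τ b * e a 1 := by
      intro a b
      have h : ρ (u a) (ρ (u b) v1) = ρ (u b) (ρ (u a) v1) := by
        rw [← rho_mul, ← rho_mul, ← u_add, ← u_add, add_comm]
      rw [hev, hev, map_add, map_add, map_add, map_add, map_smul, map_smul, E.rho_eq hv.1 a,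
        E.rho_eq hv.1 b, hev, hev, ← E.inc_hom, ← E.inc_hom] at h
      have h' : E.inc (e a + σ b • E.coc v a + nat2 τ (u a) (e b)) =
          E.inc (e b + σ a • E.coc v b + nat2 τ (u b) (e a)) := by
        refine add_left_cancel (a := v1 + σ a • v + σ b • v) ?_
        simp only [map_add, map_smul]
        refine Eq.trans ?_ (h.trans ?_)
        · rw [smul_add]; abel
        · rw [smul_add]; abel
      have h0 := congrFun (E.inc_inj h') 0
      simp [hf, hω a, hω b, nat2_u, Matrix.vecHead] at h0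
      linear_combination h0
    set K := e 1 1
    have he1 : ∀ b, e b 1 = f 1 * ω b + f 1 * σ b + τ b * K := fun b => by
      have := hid 1 b
      simp only [map_one, mul_one, one_mul] at this
      linear_combination this - σ b * f 1 * CharTwo.two_eq_zero (R := F)
    have key : ∀ a b, f 1 * (τ a + σ a) * ω b + f 1 * (ω a + τ a) * σ b +
        f 1 * (σ a + ω a) * τ b = 0 := fun a b => by
      have := hid a b
      rw [he1, he1] at this
      linear_combination this + (f 1 * σ a * ω b + τ b * f 1 * (ω a + σ a)) * CharTwo.two_eq_zero (R := F)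
    have hsne : σ ≠ τ := fun h => hz (by
      have h1 := hprod z
      rw [← h] at h1
      have h2 : σ z ≠ 0 := (map_ne_zero σ).2 (fun e => hz (by simp [e]))
      have h3 : ω.comp (frobenius F 2) z = 1 := mul_left_cancel₀ h2 (by rw [h1, mul_one])
      rw [RingHom.comp_apply, frobenius_def, ← map_one ω] at h3
      have h4 := Suzuki.sq_eq_one (ω.injective h3)
      rw [h4, one_pow])
    have hsω : ω ≠ σ := fun h => hz (ω.injective (by
      have := DFunLike.congr_fun (h.trans hσ) z
      rw [RingHom.comp_apply, frobenius_def] at this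
      exact this.symm))
    have hz3 : ∀ a, f 1 * (τ a + σ a) = 0 := fun a => coeff_char_eq_zero ![chr ω, chr σ, chr τ]
      ![f 1 * (τ a + σ a), f 1 * (ω a + τ a), f 1 * (σ a + ω a)]
      (fun b => by have := key a b; simp [Fin.sum_univ_three] at this ⊢; linear_combination this) 0
      (fun j hj h => by
        fin_cases j
        · exact hj rfl
        · exact hsω (chr_injective h).symm
        · exact hτ (chr_injective h).symm)
    exact hsne (RingHom.ext fun a => (CharTwo.add_eq_zero.1 ((mul_eq_zero.1 (hz3 a)).resolve_left hc)).symm)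

end Extensions

/-- The extension dual to a given one. -/
noncomputable def Extn2.dual (E : Extn2 ρ σ τ) : Extn2 (dualRep ρ) τ σ :=
  let inc' : (Fin 2 → F) →ₗ[F] Module.Dual F M :=
    { toFun := fun x => (bilL2 x).comp E.prj
      map_add' := fun x y => LinearMap.ext fun m => by simp [bilL2_apply, bil2]; ring
      map_smul' := fun c x => LinearMap.ext fun m => by simp [bilL2_apply, bil2]; ring }
  have hinj : LinearMap.ker inc' = ⊥ := LinearMap.ker_eq_bot'.2 fun x hx => eq_of_bil2 fun y => by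
    obtain ⟨m, rfl⟩ := E.prj_surj y
    rw [← bilL2_apply, ← bilL2_apply]
    have := LinearMap.congr_fun hx m
    simp only [inc', LinearMap.coe_mk, AddHom.coe_mk, LinearMap.comp_apply, LinearMap.zero_apply] at this
    rw [this, bilL2_apply]; simp [bil2]
  { inc := inc'
    prj :=
      { toFun := fun Φ => ![Φ (E.inc f1), Φ (E.inc f0)]
        map_add' := fun _ _ => by funext i; fin_cases i <;> rfl
        map_smul' := fun _ _ => by funext i; fin_cases i <;> rfl }
    ret := (LinearMap.exists_leftInverse_of_injective inc' hinj).choose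
    inc_hom := fun g x => LinearMap.ext fun m => by
      show bilL2 (nat2 σ g x) (E.prj m) = dualRep ρ g ((bilL2 x).comp E.prj) m
      rw [dualRep_apply, LinearMap.comp_apply, E.prj_hom, bilL2_apply, bilL2_apply, bil2_inv]
    prj_hom := fun g Φ => by
      refine eq_of_bil2 fun y => ?_
      have hy : ∀ (Ψ : Module.Dual F M) (z : Fin 2 → F), bil2 ![Ψ (E.inc f1), Ψ (E.inc f0)] z =
          Ψ (E.inc z) := fun Ψ z => by
        rw [← bilL2_apply]; exact LinearMap.congr_fun (bilL2_coords (Ψ.comp E.inc)) z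
      show bil2 ![dualRep ρ g Φ (E.inc f1), dualRep ρ g Φ (E.inc f0)] y = _
      rw [hy, dualRep_apply, ← E.inc_hom, ← hy Φ, bil2_inv]
      rfl
    prj_surj := fun x => ⟨(bilL2 x).comp E.ret, funext fun i => by
      fin_cases i
      · show bilL2 x (E.ret (E.inc f1)) = x 0
        rw [E.ret_inc, bilL2_apply]; simp [bil2, f1]
      · show bilL2 x (E.ret (E.inc f0)) = x 1
        rw [E.ret_inc, bilL2_apply]; simp [bil2, f0]⟩
    exact' := fun Φ => by
      obtain ⟨s, hs⟩ := E.prj.exists_rightInverse_of_surjective (LinearMap.range_eq_top.2 E.prj_surj)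
      constructor
      · intro h
        refine ⟨![Φ (s f1), Φ (s f0)], LinearMap.ext fun m => ?_⟩
        show bilL2 ![(Φ.comp s) f1, (Φ.comp s) f0] (E.prj m) = Φ m
        rw [bilL2_coords, LinearMap.comp_apply]
        have h0 : E.prj (m - s (E.prj m)) = 0 := by
          rw [map_sub, ← LinearMap.comp_apply E.prj s, hs, LinearMap.id_apply, sub_self]
        obtain ⟨y, hy⟩ := (E.exact' _).1 h0
        have hz : Φ (E.inc y) = 0 := by
          have e := LinearMap.congr_fun (bilL2_coords (Φ.comp E.inc)) y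
          simp only [LinearMap.comp_apply] at e
          rw [← e, bilL2_apply]
          have k0 : Φ (E.inc f1) = 0 := congrFun h 0
          have k1 : Φ (E.inc f0) = 0 := congrFun h 1
          simp [bil2, k0, k1]
        rw [hy, map_sub, sub_eq_zero] at hz
        exact hz.symm
      · rintro ⟨x, rfl⟩
        funext i
        fin_cases i
        · show bilL2 x (E.prj (E.inc f1)) = 0
          rw [E.prj_inc, map_zero]
        · show bilL2 x (E.prj (E.inc f0)) = 0
          rw [E.prj_inc, map_zero]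
    ret_inc := fun x => LinearMap.congr_fun
      (LinearMap.exists_leftInverse_of_injective inc' hinj).choose_spec x }

/-- Two-step extensions split. -/
theorem Extn2.exists_section (E : Extn2 ρ σ τ) (hρ : Fpf3 ρ) :
    ∃ s : (Fin 2 → F) →ₗ[F] M, IsHom (nat2 σ) ρ s ∧ ∀ x, E.prj (s x) = x := by
  obtain ⟨v, ⟨hv, hvw⟩, hvf⟩ := E.exists_fixed_lift
  obtain ⟨Φ, ⟨hΦ, -⟩, hΦf⟩ := E.dual.exists_fixed_lift
  have hΦi : ∀ b m, Φ (ρ (u b) m) = Φ m := fun b m => by
    have := LinearMap.congr_fun (hΦf b) (ρ (u b) m)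
    rw [dualRep_apply, rho_inv] at this
    exact this.symm
  have hΦ1 : Φ (E.inc f1) = 1 := by
    have := congrFun hΦ 0
    rw [show (f0 : Fin 2 → F) 0 = 1 from rfl] at this
    exact this
  set Ψ : M →ₗ[F] F := Φ - Φ (ρ w v) • (LinearMap.proj (1 : Fin 2)).comp E.prj with hΨ
  have hΨapp : ∀ m, Ψ m = Φ m - Φ (ρ w v) * E.prj m 1 := fun m => rfl
  set K := orbSpan (prodRep (nat2 σ) ρ) ((f0 : Fin 2 → F), v)
  have hsub : ∀ p ∈ K, E.prj p.2 = p.1 := by
    intro p hp
    have hle : K ≤ LinearMap.ker (E.prj.comp (LinearMap.snd F (Fin 2 → F) M) - LinearMap.fst F (Fin 2 → F) M) := by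
      refine Submodule.span_le.2 ?_
      rintro _ ⟨g, rfl⟩
      show E.prj (ρ g v) - nat2 σ g f0 = 0
      rw [E.prj_hom, hv, sub_self]
    exact sub_eq_zero.1 (hle hp)
  have hkill : ∀ p ∈ K, Ψ p.2 = 0 := by
    intro p hp
    refine (Submodule.span_le (p := LinearMap.ker (Ψ.comp (LinearMap.snd F (Fin 2 → F) M)))).2 ?_ hp
    rintro _ ⟨g, rfl⟩
    refine kill2 hvf hvw Ψ (fun b m => ?_) ?_ ?_ g
    · rw [hΨapp, hΨapp, hΦi, E.prj_hom, nat2_u]
      simp
    · rw [hΨapp, functional_fixed2 hρ Φ hΦi hvf, hv]; simp [f0]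
    · rw [hΨapp, E.prj_hom, hv, nat2_w_f0]; simp [f1]
  obtain ⟨s, hs, hs0⟩ := exists_hom_graph (ρ := nat2 σ) (ρ' := ρ) (nat2_span σ) (v := (f0 : Fin 2 → F)) (x := v)
    fun m hm => by
      by_contra hm0
      obtain ⟨y, rfl⟩ := (E.exact' m).1 (hsub _ hm)
      set W : Submodule F (Fin 2 → F) :=
        K.comap ((LinearMap.inr F (Fin 2 → F) M).comp E.inc)
      have hW : Invariant (nat2 τ) W := fun g z hz => by
        have h := invariant_orbSpan (prodRep (nat2 σ) ρ) ((f0 : Fin 2 → F), v) g _ hz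
        show ((0, E.inc (nat2 τ g z)) : (Fin 2 → F) × M) ∈ K
        rw [E.inc_hom]
        have e : prodRep (nat2 σ) ρ g ((0, E.inc z) : (Fin 2 → F) × M) = (0, ρ g (E.inc z)) := by
          show (nat2 σ g 0, ρ g (E.inc z)) = _
          rw [map_zero]
        exact e ▸ h
      have he0 := nat2_fib τ W hW (fun e => hm0 (by
        rw [(Submodule.eq_bot_iff _).1 e y hm, map_zero]))
      have h3 := hW w _ he0
      rw [nat2_w_f0] at h3
      have := hkill _ h3
      change Ψ (E.inc f1) = 0 at this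
      rw [hΨapp, hΦ1, E.prj_inc, Pi.zero_apply, mul_zero, sub_zero] at this
      exact one_ne_zero this
  refine ⟨s, hs, fun x => ?_⟩
  have hle : orbSpan (nat2 σ) (f0 : Fin 2 → F) ≤ LinearMap.ker (E.prj.comp s - LinearMap.id) := by
    refine Submodule.span_le.2 ?_
    rintro _ ⟨g, rfl⟩
    show E.prj (s (nat2 σ g f0)) - nat2 σ g f0 = 0
    rw [hs, hs0, E.prj_hom, hv, sub_self]
  exact sub_eq_zero.1 (hle ((nat2_span σ).symm ▸ Submodule.mem_top))

/-- Generated by twists of the natural module. -/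
def IsGen2 (ρ : Matrix.SpecialLinearGroup (Fin 2) F →* Module.End F M) : Prop :=
  ∀ W : Submodule F M,
    (∀ (σ : F →+* F) (f : (Fin 2 → F) →ₗ[F] M), IsHom (nat2 σ) ρ f → LinearMap.range f ≤ W) → W = ⊤

theorem isGen2_aux (hbig : ∃ z : F, z ≠ 0 ∧ z ≠ 1) : ∀ (n : ℕ) (M : Type v) [AddCommGroup M] [Module F M] [Finite M]
    (ρ : Matrix.SpecialLinearGroup (Fin 2) F →* Module.End F M), Nat.card M = n → Fpf ρ → IsGen2 ρ := by
  intro n
  induction n using Nat.strong_induction_on with
  | _ n ih =>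
  intro M _ _ _ ρ hn hρ W hW
  classical
  by_cases hM : Subsingleton M
  · exact eq_top_iff.2 fun x _ => by rw [Subsingleton.elim x 0]; exact zero_mem _
  haveI : Nontrivial M := not_subsingleton_iff_nontrivial.1 hM
  obtain ⟨U, ⟨hU, hU0⟩, hUmin⟩ := Set.exists_min_image
    {U : Submodule F M | Invariant ρ U ∧ U ≠ ⊥} (fun U => Nat.card U) (Set.toFinite _)
    ⟨⊤, fun _ _ _ => Submodule.mem_top, top_ne_bot⟩
  haveI : Nontrivial U := Submodule.nontrivial_iff_ne_bot.2 hU0
  have hsimple : ∀ X : Submodule F U, Invariant (subRep ρ U hU) X → X ≠ ⊥ → X = ⊤ := by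
    intro X hX hX0
    have hmapinv : Invariant ρ (X.map U.subtype) := by
      rintro g _ ⟨x, hx, rfl⟩
      exact ⟨_, hX g x hx, rfl⟩
    have h1 := hUmin _ ⟨hmapinv, fun e => hX0 (Submodule.map_injective_of_injective U.subtype_injective
      (e.trans (Submodule.map_bot _).symm))⟩
    refine Submodule.toAddSubgroup_injective (AddSubgroup.eq_top_of_card_eq _ (le_antisymm
      (Nat.card_le_card_of_injective _ Subtype.val_injective) (h1.trans_eq ?_)))
    exact Nat.card_congr (X.equivMapOfInjective U.subtype Subtype.val_injective).symm.toEquiv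
  obtain ⟨τ, f₀, hf₀, hf₀i, hf₀r⟩ := exists_nat2_hom hbig (hρ.sub U hU) hsimple
  set inc := U.subtype.comp f₀
  have hinc : IsHom (nat2 τ) ρ inc := fun g x => congrArg Subtype.val (hf₀ g x)
  have hUW : U ≤ W := by
    intro u hu
    obtain ⟨y, hy⟩ := LinearMap.range_eq_top.1 hf₀r ⟨u, hu⟩
    exact hW τ inc hinc ⟨y, congrArg Subtype.val hy⟩
  have hlt : Nat.card (M ⧸ U) < n := by
    rw [← hn, Submodule.card_eq_card_quotient_mul_card U]
    have h1 : 1 < Nat.card U := Finite.one_lt_card_iff_nontrivial.2 inferInstance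
    haveI : Finite (M ⧸ U) := Finite.of_surjective _ U.mkQ_surjective
    have h2 : 0 < Nat.card (M ⧸ U) := Nat.card_pos
    nlinarith
  haveI : Finite (M ⧸ U) := Finite.of_surjective _ U.mkQ_surjective
  have hq : W.map U.mkQ = ⊤ := by
    refine ih _ hlt (M ⧸ U) (quotRep ρ U hU) rfl (hρ.quot U hU) _ fun σ f hf => ?_
    set P : Submodule F ((Fin 2 → F) × M) :=
      LinearMap.ker (U.mkQ.comp (LinearMap.snd F (Fin 2 → F) M) - f.comp (LinearMap.fst F (Fin 2 → F) M))
    have hmem : ∀ p : (Fin 2 → F) × M, p ∈ P ↔ U.mkQ p.2 = f p.1 := fun p => by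
      rw [LinearMap.mem_ker, LinearMap.sub_apply, sub_eq_zero]; rfl
    have hPinv : Invariant (prodRep (nat2 σ) ρ) P := by
      intro g p hp
      rw [hmem] at hp ⊢
      show U.mkQ (ρ g p.2) = f (nat2 σ g p.1)
      rw [hf, ← hp]
      rfl
    have hnat : ∀ x : Fin 2 → F, ((0, inc x) : (Fin 2 → F) × M) ∈ P := fun x => by
      rw [hmem, map_zero]
      exact (Submodule.Quotient.mk_eq_zero U).2 (f₀ x).2
    obtain ⟨r, hr⟩ := inc.exists_leftInverse_of_injective
      (LinearMap.ker_eq_bot.2 (Subtype.val_injective.comp hf₀i))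
    let E : Extn2 (subRep (prodRep (nat2 σ) ρ) P hPinv) σ τ :=
      { inc := ((LinearMap.inr F (Fin 2 → F) M).comp inc).codRestrict P hnat
        prj := (LinearMap.fst F (Fin 2 → F) M).comp P.subtype
        ret := r.comp ((LinearMap.snd F (Fin 2 → F) M).comp P.subtype)
        inc_hom := fun g x => Subtype.ext (Prod.ext (map_zero (nat2 σ g)).symm (hinc g x))
        prj_hom := fun g x => rfl
        prj_surj := fun x => by
          obtain ⟨m, hm⟩ := U.mkQ_surjective (f x)
          exact ⟨⟨(x, m), (hmem _).2 hm⟩, rfl⟩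
        exact' := fun p => by
          constructor
          · intro h
            have h1 := (hmem p.1).1 p.2
            rw [show (p : (Fin 2 → F) × M).1 = 0 from h, map_zero, Submodule.mkQ_apply,
              Submodule.Quotient.mk_eq_zero] at h1
            obtain ⟨y, hy⟩ := LinearMap.range_eq_top.1 hf₀r ⟨_, h1⟩
            exact ⟨y, Subtype.ext (Prod.ext h.symm (congrArg Subtype.val hy))⟩
          · rintro ⟨x, rfl⟩
            rfl
        ret_inc := fun x => LinearMap.congr_fun hr x }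
    obtain ⟨s, hs, hsec⟩ := E.exists_section fun p hp => Subtype.ext (Prod.ext
      (nat2_three σ _ (congrArg Prod.fst (congrArg Subtype.val hp)))
      (Fpf3.of_fpf hρ _ (congrArg Prod.snd (congrArg Subtype.val hp))))
    rintro _ ⟨x, rfl⟩
    refine ⟨((s x : P) : (Fin 2 → F) × M).2, hW σ ((LinearMap.snd F (Fin 2 → F) M).comp
      (P.subtype.comp s)) (fun g y => by
        show ((s (nat2 σ g y) : P) : (Fin 2 → F) × M).2 = ρ g _
        rw [hs]; rfl) ⟨x, rfl⟩, ?_⟩
    rw [(hmem _).1 (s x).2]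
    congr 1
    exact hsec x
  refine eq_top_iff.2 fun m _ => ?_
  obtain ⟨w, hw, hwm⟩ := (hq ▸ Submodule.mem_top : U.mkQ m ∈ W.map U.mkQ)
  have : m - w ∈ U := (Submodule.Quotient.eq U).1 hwm.symm
  simpa using W.add_mem (hUW this) hw

theorem isGen2 [Finite M] (hbig : ∃ z : F, z ≠ 0 ∧ z ≠ 1) (hρ : Fpf ρ) : IsGen2 ρ :=
  isGen2_aux hbig _ M ρ rfl hρ

/-- Homomorphisms to twists of the natural module separate the points. -/
theorem exists_separating2 [Finite M] (hbig : ∃ z : F, z ≠ 0 ∧ z ≠ 1) (hρ : Fpf ρ) {m : M} (hm : m ≠ 0) :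
    ∃ (σ : F →+* F) (p : M →ₗ[F] (Fin 2 → F)), IsHom ρ (nat2 σ) p ∧ p m ≠ 0 := by
  haveI : Module.Finite F M := Module.Finite.of_finite
  haveI : Finite (Module.Dual F M) := Module.finite_of_finite F
  by_contra hcon
  push Not at hcon
  refine hm ((Module.forall_dual_apply_eq_zero_iff F m).1 fun Φ => ?_)
  have htop := isGen2 hbig hρ.dual (LinearMap.ker (Module.Dual.eval F M m)) fun σ h hh => ?_
  · exact (htop ▸ Submodule.mem_top : Φ ∈ LinearMap.ker (Module.Dual.eval F M m))
  rintro _ ⟨x, rfl⟩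
  show h x m = 0
  let p : M →ₗ[F] (Fin 2 → F) :=
    { toFun := fun m' => ![h f1 m', h f0 m']
      map_add' := fun _ _ => by funext i; fin_cases i <;> simp
      map_smul' := fun _ _ => by funext i; fin_cases i <;> simp }
  have hp : ∀ m' y, bil2 (p m') y = h y m' := fun m' y => by
    rw [← bilL2_apply]
    exact LinearMap.congr_fun (bilL2_coords ((Module.Dual.eval F M m').comp h)) y
  rw [← hp, hcon σ p fun g m' => eq_of_bil2 fun y => by
    rw [hp, ← bil2_inv, hp, hh, dualRep_apply, inv_inv]]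
  simp [bil2]

theorem pairing_nat2 {η : F →+* F} (hbig : ∃ z : F, z ≠ 0 ∧ z ≠ 1)
    (β : (Fin 2 → F) →ₗ[F] (Fin 2 → F) →ₗ[F] (Fin 2 → F))
    (hβ : ∀ g x y, β (nat2 σ g x) (nat2 τ g y) = nat2 η g (β x y)) : β = 0 := by
  have hexp : ∀ b, nat2 τ (u b) f1 = τ b • (f0 : Fin 2 → F) + f1 := fun b => by
    rw [nat2_u]; funext i; fin_cases i <;> simp [f0, f1]
  have hy : ∀ {σ' τ' : F →+* F} (γ : (Fin 2 → F) →ₗ[F] (Fin 2 → F) →ₗ[F] (Fin 2 → F)),
      (∀ g x y, γ (nat2 σ' g x) (nat2 τ' g y) = nat2 η g (γ x y)) → γ f0 f0 = 0 → γ f0 f1 1 = 0 := by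
    intro σ' τ' γ hγ h00
    have h := congrFun (hγ (u 1) f0 f1) 0
    rw [nat2_fixed σ' 1, show nat2 τ' (u (1 : F)) f1 = (f0 : Fin 2 → F) + f1 by
      rw [nat2_u]; funext i; fin_cases i <;> simp [f0, f1], map_add, h00, zero_add, nat2_u] at h
    simpa using h
  have hp : β f0 f0 = 0 ∧ β f0 f1 = 0 := by
    by_cases hστ : σ = τ
    · subst hστ
      obtain ⟨z, hz0, hz1⟩ := hbig
      set t : Fˣ := Units.mk0 z hz0
      have h : nat2 η (d t) (β f0 f1) = β f0 f1 := by
        rw [← hβ, nat2_weight σ t,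
          show nat2 σ (d t) f1 = (σ (t : F))⁻¹ • (f1 : Fin 2 → F) by
            rw [nat2_d]; funext i; fin_cases i <;> simp [f1],
          map_smul, map_smul, LinearMap.smul_apply, smul_smul,
          inv_mul_cancel₀ ((map_ne_zero σ).2 t.ne_zero), one_smul]
      have ht : η z ≠ 1 := fun e => hz1 (η.injective (by rw [e, map_one]))
      rw [nat2_d] at h
      have h1 : β f0 f1 = 0 := by
        funext i
        have hi := congrFun h i
        fin_cases i <;> simp [t] at hi ⊢ <;> by_contra hne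
        · exact ht ((mul_eq_right₀ hne).1 hi)
        · exact ht (inv_eq_one.1 ((mul_eq_right₀ hne).1 hi))
      refine ⟨?_, h1⟩
      have hb := hβ (u 1) f0 f1
      rw [nat2_fixed σ 1, hexp, map_add, map_smul, h1, map_one, one_smul, add_zero, map_zero] at hb
      exact hb
    · have h0 : β f0 f0 = 0 := by
        have h := nat2_fix η (x := β f0 f0) fun b => by rw [← hβ, nat2_fixed σ b, nat2_fixed τ b]
        by_contra hne
        have hc : β f0 f0 0 ≠ 0 := fun e => hne (by rw [h, e, zero_smul])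
        refine hστ (eq_of_prod_eq (ρ := η) fun x => ?_)
        rcases eq_or_ne x 0 with rfl | hx
        · simp
        have h2 := congrFun (hβ (d (Units.mk0 x hx)) f0 f0) 0
        rw [nat2_weight σ, nat2_weight τ, map_smul, map_smul, LinearMap.smul_apply, smul_smul,
          nat2_d] at h2
        simp at h2
        rcases h2 with h2 | h2
        · linear_combination h2
        · exact absurd h2 hc
      refine ⟨h0, ?_⟩
      have e1 := hy β hβ h0
      have e0 := hy β.flip (fun g x y => hβ g y x) h0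
      have hw : β f1 f0 = nat2 η w (β f0 f1) := by
        rw [← hβ, nat2_w_f0]
        congr 1
        rw [nat2_w]; funext i; fin_cases i <;> simp [f0, f1]
      rw [LinearMap.flip_apply, hw, nat2_w] at e0
      simp at e0
      funext i; fin_cases i <;> simp [e0, e1]
  have h0 : β f0 = 0 := LinearMap.ext fun y => by
    rw [show y = y 0 • f0 + y 1 • f1 by funext i; fin_cases i <;> simp [f0, f1], map_add, map_smul,
      map_smul, hp.1, hp.2]
    simp
  refine LinearMap.ext fun x => ?_
  have hle : orbSpan (nat2 σ) (f0 : Fin 2 → F) ≤ LinearMap.ker β := by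
    refine Submodule.span_le.2 ?_
    rintro _ ⟨g, rfl⟩
    refine LinearMap.ext fun y => ?_
    have := hβ g f0 (nat2 τ g⁻¹ y)
    rw [← rho_mul, mul_inv_cancel, rho_one, h0, LinearMap.zero_apply, map_zero] at this
    exact this.trans (LinearMap.zero_apply y).symm
  exact hle ((nat2_span σ).symm ▸ Submodule.mem_top)

variable {N : Type*} [AddCommGroup N] [Module F N] {W : Type*} [AddCommGroup W] [Module F W]

/-- An equivariant pairing of fixed-point-free modules vanishes. -/
theorem pairing2_eq_zero [Finite M] [Finite N] [Finite W] (hbig : ∃ z : F, z ≠ 0 ∧ z ≠ 1)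
    {ρ' : Matrix.SpecialLinearGroup (Fin 2) F →* Module.End F N}
    {ρ'' : Matrix.SpecialLinearGroup (Fin 2) F →* Module.End F W} (hρ : Fpf ρ) (hρ' : Fpf ρ')
    (hρ'' : Fpf ρ'') (β : M →ₗ[F] N →ₗ[F] W) (hβ : ∀ g x y, β (ρ g x) (ρ' g y) = ρ'' g (β x y)) :
    β = 0 := by
  refine LinearMap.ker_eq_top.1 (isGen2 hbig hρ _ fun σ f hf => ?_)
  rintro _ ⟨x, rfl⟩
  refine LinearMap.ker_eq_top.1 (isGen2 hbig hρ' _ fun τ g hg => ?_)
  rintro _ ⟨y, rfl⟩
  by_contra hne
  obtain ⟨η, p, hp, hpne⟩ := exists_separating2 hbig hρ'' hne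
  apply hpne
  exact LinearMap.congr_fun (LinearMap.congr_fun
    (pairing_nat2 hbig (((β.comp f).compl₂ g).compr₂ p) (σ := σ) (τ := τ) (η := η)
      fun h a b => by
        show p (β (f _) (g _)) = _
        rw [hf, hg, hβ, hp]
        rfl) x) y

section Operators

variable {R : Type*} [CommRing R] {X : Type*} [AddCommGroup X] [Module R X]

/-- `u(b) - 1`, in characteristic two. -/
def Rop2 (ρ : Matrix.SpecialLinearGroup (Fin 2) F →* Module.End R X) (b : F) : Module.End R X :=
  ρ (u b) + 1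

/-- The ratio of `u(b) - 1` and `u(1) - 1`. -/
def Qop2 (ρ : Matrix.SpecialLinearGroup (Fin 2) F →* Module.End R X) (b : F) : Module.End R X :=
  Rop2 ρ b * ρ w

/-- The ratio is semisimple. -/
def Trel2 (ρ : Matrix.SpecialLinearGroup (Fin 2) F →* Module.End R X) (q : ℕ) (b : F) : Module.End R X :=
  (Qop2 ρ b + Qop2 ρ b ^ q) * Rop2 ρ 1

end Operators

theorem Rop2_nat (σ : F →+* F) (b : F) (y : Fin 2 → F) :
    Rop2 (nat2 σ) b y = ![σ b * y 1, 0] := by
  show nat2 σ (u b) y + y = _
  rw [nat2_u]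
  funext i
  fin_cases i <;> simp <;> grind [CharTwo.two_eq_zero]

theorem Trel2_nat (σ : F →+* F) (b : F) (y : Fin 2 → F) :
    Trel2 (nat2 σ) (Nat.card F) b y = 0 := by
  have hQ : ∀ x, Qop2 (nat2 σ) b ![x, 0] = ![σ b * x, 0] := fun x => by
    show Rop2 (nat2 σ) b (nat2 σ w ![x, 0]) = _
    rw [nat2_w, Rop2_nat]; simp
  have hP : ∀ (j : ℕ) x, (Qop2 (nat2 σ) b ^ j) ![x, 0] = ![σ b ^ j * x, 0] := by
    intro j
    induction j with
    | zero => simp
    | succ j ih =>
      intro x
      rw [pow_succ', Module.End.mul_apply, ih, hQ]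
      funext i; fin_cases i <;> simp <;> ring
  haveI := Fintype.ofFinite F
  have hpow : σ b ^ Nat.card F = σ b := by rw [Nat.card_eq_fintype_card, FiniteField.pow_card]
  rw [Trel2, Module.End.mul_apply, Rop2_nat, LinearMap.add_apply, hQ, hP, hpow]
  funext i
  fin_cases i <;> simp <;> grind [CharTwo.two_eq_zero]

theorem Trel2_hom {N' : Type*} [AddCommGroup N'] [Module F N']
    {ρ' : Matrix.SpecialLinearGroup (Fin 2) F →* Module.End F N'} {p : M →ₗ[F] N'}
    (hp : IsHom ρ ρ' p) (q : ℕ) (b : F) (x : M) : p (Trel2 ρ q b x) = Trel2 ρ' q b (p x) := by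
  have hR : ∀ b x, p (Rop2 ρ b x) = Rop2 ρ' b (p x) := fun b x => by simp [Rop2, hp _ _]
  have hQ : ∀ x, p (Qop2 ρ b x) = Qop2 ρ' b (p x) := fun x => by simp [Qop2, hR, hp _ _]
  have hP : ∀ (n : ℕ) x, p ((Qop2 ρ b ^ n) x) = (Qop2 ρ' b ^ n) (p x) := by
    intro n
    induction n with
    | zero => simp
    | succ n ih => intro x; rw [pow_succ', pow_succ', Module.End.mul_apply, Module.End.mul_apply, hQ, ih]
  simp [Trel2, hR, hQ, hP, map_add]

theorem Trel2_eq_zero [Finite M] (hbig : ∃ z : F, z ≠ 0 ∧ z ≠ 1) (hρ : Fpf ρ) (b : F) (x : M) :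
    Trel2 ρ (Nat.card F) b x = 0 := by
  by_contra h
  obtain ⟨σ, p, hp, hne⟩ := exists_separating2 hbig hρ h
  exact hne (by rw [Trel2_hom hp, Trel2_nat])

theorem fixed2_iff [Finite M] (hbig : ∃ z : F, z ≠ 0 ∧ z ≠ 1) (hρ : Fpf ρ) {b : F} (hb : b ≠ 0) (x : M) :
    ρ (u b) x = x ↔ ρ (u 1) x = x := by
  have key : ∀ c e : F, c ≠ 0 → ρ (u c) x = x → ρ (u e) x = x := by
    intro c e hc h
    by_contra hne
    obtain ⟨σ, p, hp, hpne⟩ := exists_separating2 hbig hρ (sub_ne_zero.2 hne)
    apply hpne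
    have h1 : nat2 σ (u c) (p x) = p x := by rw [← hp, h]
    have h2 := congrFun h1 0
    rw [nat2_u] at h2
    simp [hc] at h2
    rw [map_sub, hp, nat2_u, sub_eq_zero]
    funext i; fin_cases i <;> simp [h2]
  exact ⟨key b 1 hb, key 1 b one_ne_zero⟩

end CfsgLib.CNModules.LTwo

namespace CfsgLib.CNModules.LTwo

open CfsgLib.SL2

variable {F : Type*} [Field F] [CharP F 2] [Finite F] [Algebra (ZMod 2) F]
variable {M : Type*} [AddCommGroup M] [Module (ZMod 2) M]
variable (hbig : ∃ z : F, z ≠ 0 ∧ z ≠ 1)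
include hbig

/-- The fixed points of all involutions of a root group agree. -/
theorem fixed2_iff_two [Finite M] {ρ : Matrix.SpecialLinearGroup (Fin 2) F →* Module.End (ZMod 2) M}
    (hρ : Fpf ρ) {b : F} (hb : b ≠ 0) (x : M) : ρ (u b) x = x ↔ ρ (u 1) x = x := by
  haveI := finite_ext (F := F) (M := M)
  have h := fixed2_iff hbig hρ.extend hb ((1 : F) ⊗ₜ[ZMod 2] x)
  rw [extRep_tmul, extRep_tmul] at h
  exact (tmul_one_injective.eq_iff).symm.trans (h.trans tmul_one_injective.eq_iff)

/-- The operator identity on a module over the prime field. -/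
theorem Trel2_eq_zero_two [Finite M] {ρ : Matrix.SpecialLinearGroup (Fin 2) F →* Module.End (ZMod 2) M}
    (hρ : Fpf ρ) (b : F) (x : M) : Trel2 ρ (Nat.card F) b x = 0 := by
  haveI := finite_ext (F := F) (M := M)
  have h := Trel2_eq_zero hbig hρ.extend b ((1 : F) ⊗ₜ[ZMod 2] x)
  refine tmul_one_injective (F := F) ?_
  show (1 : F) ⊗ₜ[ZMod 2] (Trel2 ρ (Nat.card F) b x) = (1 : F) ⊗ₜ[ZMod 2] (0 : M)
  rw [TensorProduct.tmul_zero, ← h]
  have e : Trel2 (extRep F ρ) (Nat.card F) b = (Trel2 ρ (Nat.card F) b).baseChange F := by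
    have hbc : ∀ A B : Module.End (ZMod 2) M,
        (A * B).baseChange F = A.baseChange F * B.baseChange F := fun A B => LinearMap.baseChange_comp _ _
    have hpw : ∀ (A : Module.End (ZMod 2) M) (j : ℕ), (A ^ j).baseChange F = A.baseChange F ^ j := by
      intro A j
      induction j with
      | zero => exact LinearMap.baseChange_id
      | succ j ih => rw [pow_succ, pow_succ, hbc, ih]
    have hone : (1 : Module.End (ZMod 2) M).baseChange F = 1 := LinearMap.baseChange_id
    simp only [Trel2, Qop2, Rop2, hbc, hpw, LinearMap.baseChange_add, hone]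
    rfl
  rw [e, LinearMap.baseChange_tmul]

/-- An equivariant pairing over the prime field vanishes. -/
theorem pairing2_eq_zero_two [Finite M] {N W : Type*} [AddCommGroup N] [Module (ZMod 2) N] [Finite N]
    [AddCommGroup W] [Module (ZMod 2) W] [Finite W]
    {ρ : Matrix.SpecialLinearGroup (Fin 2) F →* Module.End (ZMod 2) M}
    {ρ' : Matrix.SpecialLinearGroup (Fin 2) F →* Module.End (ZMod 2) N}
    {ρ'' : Matrix.SpecialLinearGroup (Fin 2) F →* Module.End (ZMod 2) W} (hρ : Fpf ρ)
    (hρ' : Fpf ρ') (hρ'' : Fpf ρ'') (β : M →ₗ[ZMod 2] N →ₗ[ZMod 2] W)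
    (hβ : ∀ g x y, β (ρ g x) (ρ' g y) = ρ'' g (β x y)) : β = 0 := by
  haveI := finite_ext (F := F) (M := M)
  haveI := finite_ext (F := F) (M := N)
  haveI := finite_ext (F := F) (M := W)
  set B : F ⊗[ZMod 2] M →ₗ[F] F ⊗[ZMod 2] N →ₗ[F] F ⊗[ZMod 2] W :=
    LinearMap.liftBaseChange F ((LinearMap.baseChangeHom (ZMod 2) F N W).comp β) with hB
  have hBt : ∀ (c d : F) m n, B (c ⊗ₜ[ZMod 2] m) (d ⊗ₜ[ZMod 2] n) = (c * d) ⊗ₜ[ZMod 2] β m n := by
    intro c d m n
    simp [hB, LinearMap.liftBaseChange_tmul, TensorProduct.smul_tmul']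
  have h0 : B = 0 := pairing2_eq_zero hbig hρ.extend hρ'.extend hρ''.extend B fun g x y => by
    induction x using TensorProduct.induction_on with
    | zero => simp
    | add a b ha hb => simp only [map_add, LinearMap.add_apply, ha, hb]
    | tmul c m =>
      induction y using TensorProduct.induction_on with
      | zero => simp
      | add a b ha hb => simp only [map_add, ha, hb]
      | tmul d n => rw [extRep_tmul, extRep_tmul, hBt, hBt, extRep_tmul, hβ]
  refine LinearMap.ext fun m => LinearMap.ext fun n => tmul_one_injective (F := F) ?_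
  have := hBt 1 1 m n
  rw [h0, mul_one] at this
  show (1 : F) ⊗ₜ[ZMod 2] β m n = (1 : F) ⊗ₜ[ZMod 2] (0 : W)
  rw [← this, TensorProduct.tmul_zero]
  rfl

end CfsgLib.CNModules.LTwo
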