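import Cfsg.Agent.CNModules.Abelian
import Cfsg.Agent.CNModules.Doubling
import Cfsg.Agent.CNModules.SzPairing
import Cfsg.Agent.CNModules.LTwoGen
import Cfsg.Agent.Suzuki.Bridge

/-!
A normal 2-subgroup on which elements of odd order act fixed point freely, with quotient `SL₂(2ⁿ)` or a
Suzuki group, is elementary abelian.
-/

set_option autoImplicit false

namespace CfsgLib.CNModules

universe u

section Transport

variable {R : Type*} [CommRing R] {K L : Type*} [AddCommGroup K] [Module R K] [AddCommGroup L]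

/-- Intertwined operators have intertwined powers. -/
theorem intertwine_pow {ι : K →+ L} {A : Module.End R K} {B : AddMonoid.End L}
    (h : ∀ x, ι (A x) = B (ι x)) (n : ℕ) (x : K) : ι ((A ^ n) x) = (B ^ n) (ι x) := by
  induction n generalizing x with
  | zero => rfl
  | succ n ih => rw [pow_succ', pow_succ']; exact (h _).trans (congrArg B (ih x))

end Transport

/-- Elements of a fixed point free module of exponent four and the operator relation. -/
theorem fpfAdd_two {H : Type*} [Group H] {L : Type u} [AddCommGroup L]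
    {ρ : H →* AddMonoid.End L} (hρ : FpfAdd ρ) [Module (ZMod 2) (omegaTwo L)] :
    Fpf (linRep (omegaRep ρ)) := hρ.omega.linRep

theorem endo_mul_apply {H : Type*} [Group H] {L : Type*} [AddCommGroup L] (ρ : H →* AddMonoid.End L)
    (g h : H) (v : L) : ρ (g * h) v = ρ g (ρ h v) := by rw [map_mul]; rfl

theorem endo_one_apply {H : Type*} [Group H] {L : Type*} [AddCommGroup L] (ρ : H →* AddMonoid.End L)
    (v : L) : ρ 1 v = v := by rw [map_one]; rfl

section Suzuki

open CfsgLib.Suzuki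

variable {F : Type} [Field F] [CharP F 2] [Finite F] {θ : F →+* F} (hT : TitsEndo θ)

include hT in
theorem pairingVanishes_sz : PairingVanishes.{u, 0} (grp θ) := by
  intro M N W _ _ _ _ _ _ _ _ _ ρ ρ' ρ'' h h' h'' β hβ
  letI : Algebra (ZMod 2) F := ZMod.algebra F 2
  exact pairing_eq_zero_two hT h h' h'' β hβ

include hT in
theorem exponentDrops_sz {k : ℕ} (hk : ∀ x : F, θ x = x ^ k) (hk2 : Even k) (hk0 : k ≠ 0) :
    ExponentDrops.{u, 0} (grp θ) := by
  intro L _ _ ρ hρ h4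
  letI : Algebra (ZMod 2) F := ZMod.algebra F 2
  letI : Module (ZMod 2) (omegaTwo L) := AddCommGroup.zmodModule omegaTwo_two
  haveI : Finite (omegaTwo L) := inferInstance
  set r := linRep (omegaRep ρ)
  have hr : Fpf r := fpfAdd_two hρ
  have hv : ∀ (g : grp θ) (x : omegaTwo L), ((r g x : omegaTwo L) : L) = ρ g x := fun g x => rfl
  obtain ⟨b, hb0, hb1⟩ := hT.big
  have hz : uElt hT (0 : F) 1 * uElt hT 0 1 = 1 := by
    rw [uElt_mul, ← uElt_zero hT]; congr 1 <;> simp [CharTwo.add_self_eq_zero]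
  have hy : uElt hT 0 b * uElt hT 0 b = 1 := by
    rw [uElt_mul, ← uElt_zero hT]; congr 1 <;> simp [CharTwo.add_self_eq_zero]
  have hfix : ∀ c : F, c ≠ 0 → ∀ x : L, (2 : ℕ) • x = 0 →
      (ρ (uElt hT 0 c) x = x ↔ ρ (uElt hT 0 1) x = x) := by
    intro c hc x hx
    have := fixed_iff_two hT hr hc ⟨x, hx⟩
    rw [Subtype.ext_iff, Subtype.ext_iff, hv, hv] at this
    exact this
  have hb1' : (1 : F) + b ≠ 0 := fun e => hb1 (by
    rw [← CharTwo.neg_eq b]; exact (eq_neg_of_add_eq_zero_left e).symm)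
  have hcen : ∀ e a c : F, uElt hT a c * uElt hT 0 e = uElt hT 0 e * uElt hT a c := fun e a c => by
    rw [uElt_mul, uElt_mul, uElt_inj]; simp [add_comm]
  intro x
  refine exponent_two_of_double (ρ (uElt hT 0 1)) (ρ (uElt hT 0 b)) (ρ (uElt hT 1 0))
    (ρ (wElt hT) + ρ (wElt hT * uElt hT 0 1 * wElt hT)) (Nat.card F) k ?_ h4 ?_ ?_ ?_ ?_ ?_ ?_ ?_ ?_ ?_ x
  · rw [even_iff_two_dvd]
    haveI := Fintype.ofFinite F
    obtain ⟨n, hp, hn⟩ := FiniteField.card F 2
    rw [Nat.card_eq_fintype_card, hn]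
    exact dvd_pow_self 2 n.ne_zero
  · intro v; rw [← endo_mul_apply, hz, endo_one_apply]
  · intro v; rw [← endo_mul_apply, hy, endo_one_apply]
  · intro v; rw [← endo_mul_apply, ← endo_mul_apply, hcen]
  · intro v; rw [← endo_mul_apply, ← endo_mul_apply, hcen]
  · intro v; rw [← endo_mul_apply, ← endo_mul_apply, hcen]
  · exact fun v hv2 => (hfix b hb0 v hv2).symm
  · intro v hv2 e
    rw [← endo_mul_apply, uElt_mul] at e
    refine (hfix _ hb1' v hv2).1 ?_
    simpa using e
  · intro v hv2 hv1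
    have h := eq_of_fixed_z (hT := hT) (hr.extend (F := F).five hT)
      (v := (1 : F) ⊗ₜ[ZMod 2] (⟨v, hv2⟩ : omegaTwo L)) (by
        rw [extRep_tmul]; congr 1; exact Subtype.ext ((hv _ _).trans hv1))
    rw [extRep_tmul, extRep_tmul, ← TensorProduct.tmul_add, extRep_tmul, ← TensorProduct.tmul_add] at h
    have h' := congrArg Subtype.val (tmul_one_injective h)
    show (ρ (wElt hT) v + ρ (wElt hT * uElt hT 0 1 * wElt hT) v) +
      ρ (uElt hT 0 1) (ρ (wElt hT) v + ρ (wElt hT * uElt hT 0 1 * wElt hT) v) = v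
    rw [add_comm]
    exact h'
  · intro v hv2 hv1
    set lop := (ρ (wElt hT) + ρ (wElt hT * uElt hT 0 1 * wElt hT) : AddMonoid.End L) with hlop
    set vK : omegaTwo L := ⟨v, hv2⟩
    have hl : ∀ w : omegaTwo L, ((Lop hT r w : omegaTwo L) : L) = lop w := fun w => rfl
    have hQ : ∀ w : omegaTwo L, ((Qop hT r b w : omegaTwo L) : L) =
        ((ρ (uElt hT 0 b) + 1) * lop : AddMonoid.End L) w := fun w => rfl
    have hN : ∀ w : omegaTwo L, ((Nop hT r w : omegaTwo L) : L) = (ρ (uElt hT 1 0) + 1 : AddMonoid.End L) w :=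
      fun w => rfl
    have hP : ∀ w, (((Qop hT r b ^ Nat.card F) w : omegaTwo L) : L) =
        (((ρ (uElt hT 0 b) + 1) * lop) ^ Nat.card F : AddMonoid.End L) w :=
      fun w => intertwine_pow (ι := (omegaTwo L).subtype) (A := Qop hT r b) hQ _ w
    have hPk : ∀ w, ((((Qop hT r b ^ Nat.card F) ^ k) w : omegaTwo L) : L) =
        ((((ρ (uElt hT 0 b) + 1) * lop) ^ Nat.card F) ^ k : AddMonoid.End L) w :=
      fun w => intertwine_pow (ι := (omegaTwo L).subtype) (A := Qop hT r b ^ Nat.card F) hP _ w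
    have hx : Rop hT r 1 (Lop hT r vK) = vK := by
      refine tmul_one_injective (F := F) ?_
      have h := eq_of_fixed_z (hT := hT) (hr.extend (F := F).five hT)
        (v := (1 : F) ⊗ₜ[ZMod 2] vK) (by
          rw [extRep_tmul]; congr 1; exact Subtype.ext ((hv _ _).trans hv1))
      rw [extRep_tmul, extRep_tmul, ← TensorProduct.tmul_add, extRep_tmul, ← TensorProduct.tmul_add] at h
      exact h
    have h0 := Trel_eq_zero_two hT hr hk hk2 hk0 b (Lop hT r vK)
    rw [Trel, Module.End.mul_apply, hx] at h0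
    have h1 := congrArg Subtype.val h0
    simp only [LinearMap.add_apply, Module.End.mul_apply, AddSubgroup.coe_add, hQ, hP, hPk, hN,
      AddSubgroup.coe_zero] at h1
    exact h1

end Suzuki

namespace LTwo

open CfsgLib.SL2

variable {F : Type} [Field F] [CharP F 2] [Finite F]

theorem pairingVanishes_sl (hbig : ∃ z : F, z ≠ 0 ∧ z ≠ 1) :
    PairingVanishes.{u, 0} (Matrix.SpecialLinearGroup (Fin 2) F) := by
  intro M N W _ _ _ _ _ _ _ _ _ ρ ρ' ρ'' h h' h'' β hβ
  letI : Algebra (ZMod 2) F := ZMod.algebra F 2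
  exact pairing2_eq_zero_two hbig h h' h'' β hβ

theorem exponentDrops_sl (hbig : ∃ z : F, z ≠ 0 ∧ z ≠ 1) :
    ExponentDrops.{u, 0} (Matrix.SpecialLinearGroup (Fin 2) F) := by
  intro L _ _ ρ hρ h4
  haveI := Fintype.ofFinite F
  letI : Algebra (ZMod 2) F := ZMod.algebra F 2
  letI : Module (ZMod 2) (omegaTwo L) := AddCommGroup.zmodModule omegaTwo_two
  haveI : Finite (omegaTwo L) := inferInstance
  set r := linRep (omegaRep ρ)
  have hr : Fpf r := fpfAdd_two hρ
  have hv : ∀ (g : Matrix.SpecialLinearGroup (Fin 2) F) (x : omegaTwo L),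
      ((r g x : omegaTwo L) : L) = ρ g x := fun g x => rfl
  obtain ⟨b, hb0, hb1⟩ := hbig
  have hbig : ∃ z : F, z ≠ 0 ∧ z ≠ 1 := ⟨b, hb0, hb1⟩
  have hfix : ∀ c : F, c ≠ 0 → ∀ x : L, (2 : ℕ) • x = 0 → (ρ (u c) x = x ↔ ρ (u 1) x = x) := by
    intro c hc x hx
    have := fixed2_iff_two hbig hr hc ⟨x, hx⟩
    rw [Subtype.ext_iff, Subtype.ext_iff, hv, hv] at this
    exact this
  have hcomm : ∀ c e : F, u c * u e = u e * u c := fun c e => by
    simp only [u]; rw [← map_mul uHom, ← map_mul uHom, mul_comm]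
  have hb1' : (1 : F) + b ≠ 0 := fun e => hb1 (by
    rw [← CharTwo.neg_eq b]; exact (eq_neg_of_add_eq_zero_left e).symm)
  have hsq : ∀ c : F, u c * u c = 1 := fun c => by
    rw [u, ← map_mul, ← ofAdd_add, CharTwo.add_self_eq_zero, ofAdd_zero, map_one]
  intro x
  refine exponent_two_of_double (ρ (u 1)) (ρ (u b)) 1 (ρ w) (Nat.card F) 1 ?_ h4 ?_ ?_ ?_ ?_ ?_ ?_ ?_ ?_ ?_ x
  · rw [even_iff_two_dvd]
    obtain ⟨n, hp, hn⟩ := FiniteField.card F 2
    rw [Nat.card_eq_fintype_card, hn]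
    exact dvd_pow_self 2 n.ne_zero
  · intro v; rw [← endo_mul_apply, hsq, endo_one_apply]
  · intro v; rw [← endo_mul_apply, hsq, endo_one_apply]
  · intro v; rw [← endo_mul_apply, ← endo_mul_apply, hcomm]
  · intro v; rfl
  · intro v; rfl
  · exact fun v hv2 => (hfix b hb0 v hv2).symm
  · intro v hv2 e
    rw [← endo_mul_apply, u, u, ← map_mul, ← ofAdd_add] at e
    exact (hfix _ hb1' v hv2).1 e
  · intro v hv2 hv1
    have h := eq_of_fixed_u (Fpf3.of_fpf (hr.extend (F := F)))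
      (v := (1 : F) ⊗ₜ[ZMod 2] (⟨v, hv2⟩ : omegaTwo L)) (by
        rw [extRep_tmul]; congr 1; exact Subtype.ext ((hv _ _).trans hv1))
    rw [extRep_tmul, extRep_tmul, ← TensorProduct.tmul_add] at h
    have h' := congrArg Subtype.val (tmul_one_injective h)
    rw [add_comm]
    exact h'
  · intro v hv2 hv1
    set vK : omegaTwo L := ⟨v, hv2⟩
    have hQ : ∀ y : omegaTwo L, ((Qop2 r b y : omegaTwo L) : L) =
        ((ρ (u b) + 1) * ρ w : AddMonoid.End L) y := fun y => rfl
    have hP : ∀ y, (((Qop2 r b ^ Nat.card F) y : omegaTwo L) : L) =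
        (((ρ (u b) + 1) * ρ w) ^ Nat.card F : AddMonoid.End L) y :=
      fun y => intertwine_pow (ι := (omegaTwo L).subtype) (A := Qop2 r b) hQ _ y
    have hx : Rop2 r 1 (r w vK) = vK := by
      refine tmul_one_injective (F := F) ?_
      have h := eq_of_fixed_u (Fpf3.of_fpf (hr.extend (F := F)))
        (v := (1 : F) ⊗ₜ[ZMod 2] vK) (by
          rw [extRep_tmul]; congr 1; exact Subtype.ext ((hv _ _).trans hv1))
      rw [extRep_tmul, extRep_tmul, ← TensorProduct.tmul_add] at h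
      exact h
    have h0 := Trel2_eq_zero_two hbig hr b (r w vK)
    rw [Trel2, Module.End.mul_apply, hx] at h0
    have h1 := congrArg Subtype.val h0
    simp only [LinearMap.add_apply, AddSubgroup.coe_add, hQ, hP, AddSubgroup.coe_zero] at h1
    have hN : (1 + 1 : AddMonoid.End L) v = 0 := by
      show v + v = 0
      rw [← two_nsmul, hv2]
    rw [hN, map_zero, add_zero]
    exact h1

end LTwo

open CfsgLib.Suzuki in
/-- The main statement for the two families. -/
theorem elementary_abelian {G : Type u} [Group G] [Finite G] {H : Type} [Group H] (φ : G →* H)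
    (hφ : Function.Surjective φ) (h2 : IsPGroup 2 φ.ker)
    (hfpf : ∀ g, Odd (orderOf g) → g ≠ 1 → ∀ x ∈ φ.ker, g * x * g⁻¹ = x → x = 1)
    (hH : (∃ (F : Type) (_ : Field F) (_ : Finite F) (_ : CharP F 2), (∃ z : F, z ≠ 0 ∧ z ≠ 1) ∧
        Nonempty (H ≃* Matrix.SpecialLinearGroup (Fin 2) F)) ∨
      (∃ (F : Type) (_ : Field F) (_ : Fintype F) (_ : CharP F 2) (m : ℕ), 1 ≤ m ∧
        Fintype.card F = 2 ^ (2 * m + 1) ∧ Nonempty (H ≃* grp (theta F m)))) :
    (∀ a ∈ φ.ker, ∀ b ∈ φ.ker, a * b = b * a) ∧ ∀ x ∈ φ.ker, x * x = 1 := by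
  have main : ∀ {K : Type} [Group K] (e : H ≃* K), PairingVanishes.{u, 0} K → ExponentDrops.{u, 0} K →
      (∀ a ∈ φ.ker, ∀ b ∈ φ.ker, a * b = b * a) ∧ ∀ x ∈ φ.ker, x * x = 1 := by
    intro K _ e hp he
    have hk : (e.toMonoidHom.comp φ).ker = φ.ker := by
      ext x; simp [MonoidHom.mem_ker]
    have hs : Function.Surjective (e.toMonoidHom.comp φ) := e.surjective.comp hφ
    rw [← hk] at h2 hfpf ⊢
    have hc := mul_comm_of_pairing _ hs h2 hfpf hp
    exact ⟨hc, mul_self_of_exponent _ hs h2 hfpf hc he⟩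
  rcases hH with ⟨F, _, _, _, hbig, ⟨e⟩⟩ | ⟨F, _, _, _, m, hm, hF, ⟨e⟩⟩
  · exact main e (LTwo.pairingVanishes_sl hbig) (LTwo.exponentDrops_sl hbig)
  · have hT := titsEndo_theta hm hF
    exact main e (pairingVanishes_sz hT)
      (exponentDrops_sz hT (k := 2 ^ (m + 1)) theta_apply ((Nat.even_pow).2 ⟨even_two, by omega⟩)
        (by positivity))

end CfsgLib.CNModules
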