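import Cfsg.Agent.CNModules.SzGen
import Cfsg.Agent.CIT.SLTwoEven

/-!
Representations of `SL₂(2ⁿ)` on which the elements of odd order act fixed point freely: the simple
ones are twists of the natural module and every such representation is a sum of these.
-/

set_option autoImplicit false

open scoped Matrix

namespace CfsgLib.CNModules.LTwo

open CfsgLib.SL2

universe v

variable {F : Type*} [Field F] [CharP F 2] [Finite F]

local notation "SL₂" => Matrix.SpecialLinearGroup (Fin 2) F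

variable {M : Type v} [AddCommGroup M] [Module F M] {N : Type*} [AddCommGroup N] [Module F N]

section Generic

variable {G : Type*} [Group G]

omit [CharP F 2] [Finite F] in
/-- A homomorphism from a cyclic module, read off from the cyclic submodule of the sum. -/
theorem exists_hom_graph {ρ : G →* Module.End F M} {ρ' : G →* Module.End F N} {v : M} {x : N}
    (hv : orbSpan ρ v = ⊤)
    (hK : ∀ m : N, ((0, m) : M × N) ∈ orbSpan (prodRep ρ ρ') (v, x) → m = 0) :
    ∃ f : M →ₗ[F] N, IsHom ρ ρ' f ∧ f v = x := by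
  set K := orbSpan (prodRep ρ ρ') (v, x)
  set p : K →ₗ[F] M := (LinearMap.fst F M N).comp K.subtype
  have hinj : Function.Injective p := by
    rw [injective_iff_map_eq_zero]
    rintro ⟨⟨a, b⟩, h⟩ hp
    have ha : a = 0 := hp
    subst ha
    exact Subtype.ext (Prod.ext rfl (hK b h))
  have hsurj : Function.Surjective p := by
    rw [← LinearMap.range_eq_top, eq_top_iff, ← hv, orbSpan, Submodule.span_le]
    rintro _ ⟨g, rfl⟩
    exact ⟨⟨_, Submodule.subset_span ⟨g, rfl⟩⟩, rfl⟩
  set e := LinearEquiv.ofBijective p ⟨hinj, hsurj⟩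
  have key : ∀ k : K, (LinearMap.snd F M N).comp (K.subtype.comp e.symm.toLinearMap) (p k) = (k : M × N).2 := by
    intro k
    show ((e.symm (e k) : K) : M × N).2 = _
    rw [e.symm_apply_apply]
  refine ⟨(LinearMap.snd F M N).comp (K.subtype.comp e.symm.toLinearMap), fun g m => ?_,
    key ⟨_, mem_orbSpan _ _⟩⟩
  obtain ⟨k, rfl⟩ := hsurj m
  rw [key]
  exact key ⟨_, invariant_orbSpan _ _ g _ k.2⟩

omit [Finite F] in
/-- A two-group fixes a non-zero vector of a non-zero invariant subspace. -/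
theorem exists_fixed_pGroup [Finite M] (ρ : G →* Module.End F M) {P : Subgroup G} (hP : IsPGroup 2 P)
    {W : Submodule F M} (hW : Invariant ρ W) (hne : W ≠ ⊥) :
    ∃ y ∈ W, y ≠ 0 ∧ ∀ g ∈ P, ρ g y = y := by
  haveI : Fact (Nat.Prime 2) := ⟨Nat.prime_two⟩
  letI : MulAction P W :=
    { smul := fun g y => ⟨ρ g y, hW g y y.2⟩
      one_smul := fun y => Subtype.ext (rho_one ρ _)
      mul_smul := fun g h y => Subtype.ext (rho_mul ρ _ _ _) }
  obtain ⟨y₀, hy₀, hy₀0⟩ := Submodule.exists_mem_ne_zero_of_ne_bot hne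
  have hdvd : 2 ∣ Nat.card W := by
    have h2 : addOrderOf (⟨y₀, hy₀⟩ : W) = 2 :=
      addOrderOf_eq_prime (by rw [two_nsmul]; exact Subtype.ext (smul_two_eq_zero F y₀))
        (fun e => hy₀0 (congrArg Subtype.val e))
    exact h2 ▸ addOrderOf_dvd_natCard _
  obtain ⟨y, hy, hy0⟩ := hP.exists_fixed_point_of_prime_dvd_card_of_fixed_point W hdvd
    (a := 0) (fun g => Subtype.ext (map_zero (ρ (g : G))))
  exact ⟨y, y.2, fun e => hy0 (Subtype.ext e.symm), fun g hg => congrArg Subtype.val (hy ⟨g, hg⟩)⟩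

end Generic

theorem cast_card : ((Nat.card F : ℕ) : F) = 0 := by
  obtain ⟨k, hk1, hk⟩ := Suzuki.card_field (F := F)
  rw [hk, Nat.cast_pow, Nat.cast_ofNat, CharTwo.two_eq_zero, zero_pow (by omega)]

theorem cast_card_sub_one : ((Nat.card F - 1 : ℕ) : F) = 1 := by
  rw [Nat.cast_sub (Nat.one_le_iff_ne_zero.2 Nat.card_pos.ne'), cast_card, Nat.cast_one, zero_sub,
    CharTwo.neg_eq]

theorem odd_card_sub_one : Odd (Nat.card F - 1) := by
  obtain ⟨k, hk1, hk⟩ := Suzuki.card_field (F := F)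
  rw [hk]
  exact Nat.Even.sub_odd Nat.one_le_two_pow ((Nat.even_pow' (by omega)).2 even_two) odd_one

theorem sq_surj (x : F) : ∃ y : F, y ^ 2 = x := Suzuki.sq_surjective x

theorem exists_unit_sq {x : F} (hx : x ≠ 0) : ∃ a : Fˣ, (a : F) ^ 2 = x := by
  obtain ⟨y, rfl⟩ := sq_surj x
  exact ⟨Units.mk0 y (fun e => hx (by simp [e])), rfl⟩

/-- The natural representation twisted by `σ`. -/
def nat2 (σ : F →+* F) : SL₂ →* Module.End F (Fin 2 → F) where
  toFun g := Matrix.toLin' ((g : Matrix (Fin 2) (Fin 2) F).map σ)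
  map_one' := by
    rw [Matrix.SpecialLinearGroup.coe_one, Matrix.map_one σ (map_zero σ) (map_one σ), Matrix.toLin'_one]
    rfl
  map_mul' g h := by
    rw [Matrix.SpecialLinearGroup.coe_mul, Matrix.map_mul, Matrix.toLin'_mul]
    rfl

omit [CharP F 2] [Finite F] in
theorem nat2_apply (σ : F →+* F) (g : SL₂) (x : Fin 2 → F) :
    nat2 σ g x = ![σ (g 0 0) * x 0 + σ (g 0 1) * x 1, σ (g 1 0) * x 0 + σ (g 1 1) * x 1] := by
  funext i
  show ((g : Matrix (Fin 2) (Fin 2) F).map σ *ᵥ x) i = _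
  fin_cases i <;> simp [Matrix.mulVec, dotProduct, Fin.sum_univ_two]

variable (σ : F →+* F)

theorem nat2_u (b : F) (x : Fin 2 → F) : nat2 σ (u b) x = ![x 0 + σ b * x 1, x 1] := by
  rw [nat2_apply]; simp

theorem nat2_w (x : Fin 2 → F) : nat2 σ (w : SL₂) x = ![x 1, x 0] := by
  rw [nat2_apply]; simp [CharTwo.neg_eq]

theorem nat2_d (a : Fˣ) (x : Fin 2 → F) :
    nat2 σ (d a) x = ![σ (a : F) * x 0, (σ (a : F))⁻¹ * x 1] := by
  rw [nat2_apply]; simp

/-- The first basis vector. -/
def f0 : Fin 2 → F := ![1, 0]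

/-- The second basis vector. -/
def f1 : Fin 2 → F := ![0, 1]

/-- The invariant form. -/
def bil2 (x y : Fin 2 → F) : F := x 0 * y 1 + x 1 * y 0

/-- The form as a functional in the second argument. -/
def bilL2 (x : Fin 2 → F) : Module.Dual F (Fin 2 → F) := x 0 • LinearMap.proj 1 + x 1 • LinearMap.proj 0

omit [CharP F 2] [Finite F] in
theorem bilL2_apply (x y : Fin 2 → F) : bilL2 x y = bil2 x y := rfl

omit [CharP F 2] [Finite F] in
theorem eq_of_bil2 {x x' : Fin 2 → F} (h : ∀ y, bil2 x y = bil2 x' y) : x = x' := funext fun i => by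
  fin_cases i
  · simpa [bil2, f1] using h f1
  · simpa [bil2, f0] using h f0

omit [CharP F 2] [Finite F] in
theorem bilL2_coords (Φ : Module.Dual F (Fin 2 → F)) : bilL2 ![Φ f1, Φ f0] = Φ := by
  refine LinearMap.ext fun y => ?_
  conv_rhs => rw [show y = y 0 • f0 + y 1 • f1 by funext i; fin_cases i <;> simp [f0, f1]]
  rw [map_add, map_smul, map_smul, bilL2_apply]
  simp [bil2]
  ring

theorem bil2_nat (g : SL₂) (x y : Fin 2 → F) : bil2 (nat2 σ g x) (nat2 σ g y) = bil2 x y := by
  have h : σ (g 0 0) * σ (g 1 1) + σ (g 0 1) * σ (g 1 0) = 1 := by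
    rw [← map_mul, ← map_mul, ← map_add]
    refine (congrArg σ ?_).trans (map_one σ)
    linear_combination det_eq g + g 0 1 * g 1 0 * CharTwo.two_eq_zero (R := F)
  rw [nat2_apply, nat2_apply]
  simp only [bil2, Matrix.cons_val_zero, Matrix.cons_val_one, Matrix.cons_val_fin_one]
  linear_combination (x 0 * y 1 + x 1 * y 0) * h +
    (σ (g 0 0) * σ (g 1 0) * (x 0 * y 0) + σ (g 0 1) * σ (g 1 1) * (x 1 * y 1)) *
      CharTwo.two_eq_zero (R := F)

theorem bil2_inv (g : SL₂) (x y : Fin 2 → F) :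
    bil2 x (nat2 σ g⁻¹ y) = bil2 (nat2 σ g x) y := by
  conv_rhs => rw [← rho_one (nat2 σ) y, ← mul_inv_cancel g, rho_mul, bil2_nat]

variable {ρ : Matrix.SpecialLinearGroup (Fin 2) F →* Module.End F M}

/-- Fixed by the translations. -/
def Fixed2 (ρ : SL₂ →* Module.End F M) (v : M) : Prop := ∀ b, ρ (u b) v = v

/-- An eigenvector of the torus. -/
def Weight2 (ρ : SL₂ →* Module.End F M) (v : M) (χ : Fˣ → F) : Prop :=
  ∀ a, ρ (d a) v = χ a • v

omit [CharP F 2] [Finite F] in
theorem bruhat (g : SL₂) :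
    (∃ t a, g = u t * d a) ∨ ∃ t s a, g = u t * w * (u s * d a) := by
  by_cases hg : g 1 0 = 0
  · exact Or.inl (eq_u_mul_d hg)
  right
  set t := g 0 0 / g 1 0
  have hB : (u t * w)⁻¹ * g ∈ (B : Subgroup SL₂) := by
    rw [mem_B, mul_inv_rev, Matrix.SpecialLinearGroup.coe_mul, Matrix.SpecialLinearGroup.coe_mul,
      inv_apply, inv_apply]
    simp [Matrix.mul_apply, Fin.sum_univ_two, t]
    field_simp
    ring
  obtain ⟨s, a, h⟩ := eq_u_mul_d hB
  exact ⟨t, s, a, by rw [← h]; group⟩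

omit [CharP F 2] [Finite F] in
theorem kill2 {v : M} (hv : Fixed2 ρ v) {χ : Fˣ → F} (hw : Weight2 ρ v χ) (Φ : M →ₗ[F] F)
    (hΦ : ∀ b m, Φ (ρ (u b) m) = Φ m) (h0 : Φ v = 0) (h1 : Φ (ρ (w : SL₂) v) = 0)
    (g : SL₂) : Φ (ρ g v) = 0 := by
  rcases bruhat g with ⟨t, a, rfl⟩ | ⟨t, s, a, rfl⟩
  · rw [rho_mul, hΦ, hw, map_smul, h0, smul_zero]
  · rw [rho_mul, rho_mul, rho_mul, hw, map_smul, hv, map_smul, hΦ, map_smul, h1, smul_zero]

theorem exists_fixed2 [Finite M] {W : Submodule F M} (hW : Invariant ρ W) (hne : W ≠ ⊥) :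
    ∃ y ∈ W, y ≠ 0 ∧ Fixed2 ρ y := by
  have hU : IsPGroup 2 (U : Subgroup SL₂) := by
    intro g
    obtain ⟨t, ht⟩ := mem_U.1 g.2
    exact ⟨1, Subtype.ext (by
      rw [pow_one, sq, Subgroup.coe_mul, ht, ← u_add, CharTwo.add_self_eq_zero, u_zero]; rfl)⟩
  obtain ⟨y, hy, hy0, hfix⟩ := exists_fixed_pGroup ρ hU hW hne
  exact ⟨y, hy, hy0, fun b => hfix _ (u_mem_U b)⟩

theorem exists_weight2 {y : M} (hy : Fixed2 ρ y) (hy0 : y ≠ 0) :
    ∃ v : M, ∃ k : ℕ, k < Nat.card F - 1 ∧ v ≠ 0 ∧ Fixed2 ρ v ∧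
      Weight2 ρ v (fun a => (a : F) ^ k) := by
  classical
  letI := Fintype.ofFinite Fˣ
  set p : ℕ → M := fun k => ∑ t : Fˣ, (((t : F))⁻¹ ^ k) • ρ (d t) y with hp
  have hsum : ∑ k ∈ Finset.range (Nat.card F - 1), p k = y := by
    rw [hp, Finset.sum_comm]
    simp only [← Finset.sum_smul]
    rw [Finset.sum_eq_single (1 : Fˣ)]
    · simp [rho_one, cast_card, CharTwo.neg_eq]
    · intro t _ ht
      have hm : ((t : F))⁻¹ ≠ 1 := fun e => ht (Units.ext (inv_eq_one.1 e))
      have h := geom_sum_mul (((t : F))⁻¹) (Nat.card F - 1)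
      have hpw : ((t : F))⁻¹ ^ (Nat.card F - 1) = 1 := by
        rw [← Nat.card_units, inv_pow, inv_eq_one]
        exact congrArg Units.val (pow_card_eq_one' (x := t))
      rw [hpw, sub_self, mul_eq_zero] at h
      rw [h.resolve_right (sub_ne_zero.2 hm), zero_smul]
    · intro h; exact absurd (Finset.mem_univ _) h
  obtain ⟨k, hk, hk0⟩ : ∃ k ∈ Finset.range (Nat.card F - 1), p k ≠ 0 := by
    by_contra h
    push Not at h
    exact hy0 (by rw [← hsum]; exact Finset.sum_eq_zero h)
  refine ⟨p k, k, Finset.mem_range.1 hk, hk0, fun b => ?_, fun s => ?_⟩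
  · rw [hp, map_sum]
    refine Finset.sum_congr rfl fun t _ => ?_
    have hx : u b * d t = d t * ((d t)⁻¹ * u b * d t) := by group
    rw [map_smul, ← rho_mul, hx, rho_mul]
    congr 2
    have h1 := d_conj_u t⁻¹ b
    rw [map_inv, inv_inv] at h1
    rw [h1, hy]
  · rw [hp, map_sum, Finset.smul_sum]
    refine Fintype.sum_equiv (Equiv.mulLeft s) _ _ fun t => ?_
    rw [map_smul, ← rho_mul, ← map_mul, Equiv.coe_mulLeft, smul_smul]
    congr 1
    rw [Units.val_mul, mul_inv, mul_pow, ← mul_assoc, inv_pow (s : F),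
      mul_inv_cancel₀ (pow_ne_zero _ s.ne_zero), one_mul]

/-- The element `u(1) w` of order three fixes only zero. -/
def Fpf3 (ρ : SL₂ →* Module.End F M) : Prop := ∀ v, ρ (u 1 * w) v = v → v = 0

omit [Finite F] in
theorem three_facts : ((u 1 : SL₂) * w) * (u 1 * w) = w * u 1 ∧ Odd (orderOf ((u 1 : SL₂) * w)) ∧
    (u 1 : SL₂) * w ≠ 1 ∧ (u 1 * w : SL₂) * (w * u 1) = 1 := by
  have h2 : (2 : F) = 0 := CharTwo.two_eq_zero
  have hsq : ((u 1 : SL₂) * w) * (u 1 * w) = w * u 1 := by
    apply ext4 <;> simp [Matrix.mul_apply, Fin.sum_univ_two, CharTwo.neg_eq] <;>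
      grind [CharTwo.two_eq_zero]
  have h3 : (u 1 * w : SL₂) * (w * u 1) = 1 := by
    apply ext4 <;> simp [Matrix.mul_apply, Fin.sum_univ_two, CharTwo.neg_eq] <;>
      grind [CharTwo.two_eq_zero]
  have hne : (u 1 : SL₂) * w ≠ 1 := fun e => by
    have := congrArg (fun g : SL₂ => g 1 0) e
    simp [Matrix.mul_apply, Fin.sum_univ_two] at this
  haveI : Fact (Nat.Prime 3) := ⟨Nat.prime_three⟩
  refine ⟨hsq, ?_, hne, h3⟩
  rw [orderOf_eq_prime (p := 3) (by rw [pow_succ', pow_two, hsq, h3]) hne]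
  decide

omit [Finite F] in
theorem Fpf3.of_fpf (hρ : Fpf ρ) : Fpf3 ρ :=
  fun v hv => hρ _ three_facts.2.1 three_facts.2.2.1 v hv

theorem nat2_three : Fpf3 (nat2 σ) := by
  intro y hy
  rw [rho_mul, nat2_w, nat2_u] at hy
  have h0 := congrFun hy 0
  have h1 := congrFun hy 1
  simp at h0 h1
  funext i
  fin_cases i <;> simp <;> grind [CharTwo.two_eq_zero]

omit [Finite F] in
theorem three_sum (hρ : Fpf3 ρ) (v : M) : v + ρ (u 1 * w) v + ρ (w * u 1) v = 0 := by
  refine hρ _ ?_
  obtain ⟨h2, -, -, h3⟩ := three_facts (F := F)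
  simp only [map_add, ← rho_mul]
  rw [h2, h3, rho_one]
  abel

omit [Finite F] in
/-- A vector fixed by `u(1)` is in the image of `u(1) - 1`. -/
theorem eq_of_fixed_u (hρ : Fpf3 ρ) {v : M} (hv : ρ (u 1) v = v) :
    ρ (u 1) (ρ (w : SL₂) v) + ρ (w : SL₂) v = v := by
  have h := three_sum hρ v
  rw [rho_mul, rho_mul, hv] at h
  refine Eq.trans ?_ (neg_eq_self' F v)
  rw [eq_neg_iff_add_eq_zero, ← h]
  abel

omit [Finite F] in
/-- An invariant functional vanishes at a fixed vector. -/
theorem functional_fixed2 (hρ : Fpf3 ρ) (φ : M →ₗ[F] F)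
    (hφ : ∀ b m, φ (ρ (u b) m) = φ m) {v : M} (hv : Fixed2 ρ v) : φ v = 0 := by
  have h := congrArg φ (eq_of_fixed_u hρ (hv 1))
  simp only [map_add, hφ] at h
  linear_combination -h + φ (ρ (w : SL₂) v) * CharTwo.two_eq_zero (R := F)

theorem exists_functional2 [Finite M] [Nontrivial M] (ρ : SL₂ →* Module.End F M) :
    ∃ φ : M →ₗ[F] F, φ ≠ 0 ∧ ∀ b m, φ (ρ (u b) m) = φ m := by
  haveI : Module.Finite F M := Module.Finite.of_finite
  haveI : Finite (Module.Dual F M) := Module.finite_of_finite F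
  obtain ⟨φ, -, hφ0, hφ⟩ := exists_fixed2 (ρ := dualRep ρ) (W := ⊤)
    (fun _ _ _ => Submodule.mem_top) (top_ne_bot)
  refine ⟨φ, hφ0, fun b m => ?_⟩
  have := LinearMap.congr_fun (hφ b) (ρ (u b) m)
  rw [dualRep_apply, rho_inv] at this
  exact this.symm

theorem nat2_fixed : Fixed2 (nat2 σ) f0 := by
  intro b
  rw [nat2_u]
  funext i; fin_cases i <;> simp [f0]

theorem nat2_weight : Weight2 (nat2 σ) f0 (fun a => σ (a : F)) := by
  intro a
  rw [nat2_d]
  funext i; fin_cases i <;> simp [f0]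

theorem nat2_w_f0 : nat2 σ (w : SL₂) f0 = f1 := by
  rw [nat2_w]; funext i; fin_cases i <;> simp [f0, f1]

theorem nat2_span : orbSpan (nat2 σ) (f0 : Fin 2 → F) = ⊤ := by
  refine eq_top_iff.2 fun x _ => ?_
  have h1 : (f1 : Fin 2 → F) ∈ orbSpan (nat2 σ) f0 :=
    nat2_w_f0 σ ▸ invariant_orbSpan _ _ _ _ (mem_orbSpan _ _)
  rw [show x = x 0 • f0 + x 1 • f1 by funext i; fin_cases i <;> simp [f0, f1]]
  exact add_mem (Submodule.smul_mem _ _ (mem_orbSpan _ _)) (Submodule.smul_mem _ _ h1)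

theorem nat2_fix {x : Fin 2 → F} (h : Fixed2 (nat2 σ) x) : x = x 0 • f0 := by
  have := congrFun (h 1) 0
  simp [nat2_u] at this
  funext i; fin_cases i <;> simp [f0, this]

theorem nat2_fib (W : Submodule F (Fin 2 → F)) (hW : Invariant (nat2 σ) W) (hne : W ≠ ⊥) :
    (f0 : Fin 2 → F) ∈ W := by
  obtain ⟨y, hy, hy0, hfix⟩ := exists_fixed2 hW hne
  have h := nat2_fix σ hfix
  have h0 : y 0 ≠ 0 := fun e => hy0 (by rw [h, e, zero_smul])
  have := W.smul_mem (y 0)⁻¹ hy
  rwa [h, smul_smul, Pi.smul_apply, f0, show (![1, 0] : Fin 2 → F) 0 = 1 from rfl, smul_eq_mul,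
    mul_one, inv_mul_cancel₀ h0, one_smul] at this

/-- A homomorphism taking one highest vector to another. -/
theorem exists_hom_high2 {ρ' : SL₂ →* Module.End F N} {v : M} {x : N} {χ : Fˣ → F}
    (hspan : orbSpan ρ v = ⊤) (hv : Fixed2 ρ v) (hvw : Weight2 ρ v χ)
    (hx : Fixed2 ρ' x) (hxw : Weight2 ρ' x χ)
    (φ : M →ₗ[F] F) (hφ : ∀ b m, φ (ρ (u b) m) = φ m) (hφv : φ v = 0) (hφ0 : φ ≠ 0)
    (ψ : N →ₗ[F] F) (hψ : ∀ b m, ψ (ρ' (u b) m) = ψ m) (hψx : ψ x = 0)
    (hψw : ψ (ρ' (w : SL₂) x) = 1)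
    (hfib : ∀ W : Submodule F N, Invariant ρ' W → W ≠ ⊥ → x ∈ W) :
    ∃ f : M →ₗ[F] N, IsHom ρ ρ' f ∧ f v = x := by
  refine exists_hom_graph hspan fun m hm => ?_
  by_contra hm0
  set K := orbSpan (prodRep ρ ρ') (v, x)
  have hxK : ((0, x) : M × N) ∈ K := by
    refine hfib (K.comap (LinearMap.inr F M N)) (fun g y hy => ?_) (fun e => hm0 ?_)
    · have h := invariant_orbSpan (prodRep ρ ρ') (v, x) g _ (show ((0, y) : M × N) ∈ K from hy)
      rw [show prodRep ρ ρ' g ((0, y) : M × N) = (ρ g 0, ρ' g y) from rfl, map_zero] at h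
      exact h
    · exact (Submodule.eq_bot_iff _).1 e m hm
  set c := φ (ρ (w : SL₂) v)
  set Φ : M × N →ₗ[F] F := φ.comp (LinearMap.fst F M N) - c • ψ.comp (LinearMap.snd F M N) with hΦ
  have happ : ∀ p : M × N, Φ p = φ p.1 - c * ψ p.2 := fun p => rfl
  have hkill : ∀ p ∈ K, Φ p = 0 := by
    intro p hp
    refine (Submodule.span_le (p := LinearMap.ker Φ)).2 ?_ hp
    rintro _ ⟨g, rfl⟩
    refine kill2 (v := (v, x)) (χ := χ) (fun b => Prod.ext (hv b) (hx b))
      (fun t => Prod.ext (hvw t) (hxw t)) Φ (fun b q => ?_) ?_ ?_ g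
    · rw [happ, happ]
      show φ (ρ _ q.1) - c * ψ (ρ' _ q.2) = _
      rw [hφ, hψ]
    · rw [happ, hφv, hψx, mul_zero, sub_zero]
    · rw [happ]
      show c - c * ψ (ρ' _ x) = 0
      rw [hψw, mul_one, sub_self]
  have h1 := hkill _ (invariant_orbSpan (prodRep ρ ρ') (v, x) w _ hxK)
  rw [happ] at h1
  change φ (ρ _ 0) - c * ψ (ρ' _ x) = 0 at h1
  rw [map_zero, map_zero, hψw, mul_one, zero_sub, neg_eq_zero] at h1
  refine hφ0 (LinearMap.ext fun y => ?_)
  have hy : y ∈ orbSpan ρ v := hspan ▸ Submodule.mem_top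
  refine (Submodule.span_le (p := LinearMap.ker φ)).2 ?_ hy
  rintro _ ⟨g, rfl⟩
  exact kill2 hv hvw φ hφ hφv h1 g

/-- A tensor product of twisted natural representations. -/
def ten2 {ι : Type*} [Fintype ι] [DecidableEq ι] (ε : ι → F →+* F) :
    SL₂ →* Module.End F ((ι → Fin 2) → F) where
  toFun g := Matrix.toLin' (Matrix.of fun a b : ι → Fin 2 =>
    ∏ i, ε i ((g : Matrix (Fin 2) (Fin 2) F) (a i) (b i)))
  map_one' := by
    rw [show (1 : Module.End F ((ι → Fin 2) → F)) = Matrix.toLin' 1 by rw [Matrix.toLin'_one]; rfl]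
    congr 1
    ext a b
    simp only [Matrix.of_apply, Matrix.SpecialLinearGroup.coe_one]
    by_cases h : a = b
    · subst h; simp
    · obtain ⟨i, hi⟩ := Function.ne_iff.1 h
      rw [Matrix.one_apply_ne h]
      exact Finset.prod_eq_zero (Finset.mem_univ i) (by rw [Matrix.one_apply_ne hi, map_zero])
  map_mul' g h := by
    rw [show ∀ A B : Matrix (ι → Fin 2) (ι → Fin 2) F,
      (Matrix.toLin' A : Module.End F ((ι → Fin 2) → F)) * Matrix.toLin' B = Matrix.toLin' (A * B)
      from fun A B => (Matrix.toLin'_mul A B).symm]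
    congr 1
    ext a b
    simp only [Matrix.of_apply, Matrix.SpecialLinearGroup.coe_mul, Matrix.mul_apply,
      map_sum, map_mul, Fintype.prod_sum, Finset.prod_mul_distrib]

omit [CharP F 2] [Finite F] in
theorem ten2_apply {ι : Type*} [Fintype ι] [DecidableEq ι] (ε : ι → F →+* F) (g : SL₂)
    (x : (ι → Fin 2) → F) (a : ι → Fin 2) :
    ten2 ε g x a = ∑ b, (∏ i, ε i ((g : Matrix (Fin 2) (Fin 2) F) (a i) (b i))) * x b := rfl

theorem ten2_fix {ι : Type*} [Fintype ι] [DecidableEq ι] {ε : ι → F →+* F} (hε : Function.Injective ε)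
    {x : (ι → Fin 2) → F} (hA : ∀ b, ten2 ε (u b) x = x) : ∀ a, a ≠ (fun _ => 0) → x a = 0 := by
  classical
  set lev : (ι → Fin 2) → ℕ := fun a => (Finset.univ.filter fun i => a i = 1).card with hlev
  by_contra hcon
  push Not at hcon
  obtain ⟨a₁, hne₁, hx₁⟩ := hcon
  obtain ⟨a, ha, hmax⟩ := Finset.exists_max_image
    (Finset.univ.filter fun a : ι → Fin 2 => x a ≠ 0) lev
    ⟨a₁, Finset.mem_filter.2 ⟨Finset.mem_univ _, hx₁⟩⟩
  have hxa := (Finset.mem_filter.1 ha).2
  obtain ⟨i₀, hi₀⟩ : ∃ i, a i = 1 := by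
    by_contra h
    push Not at h
    obtain ⟨i, hi⟩ := Function.ne_iff.1 hne₁
    have h1 := hmax a₁ (Finset.mem_filter.2 ⟨Finset.mem_univ _, hx₁⟩)
    have h2 : lev a = 0 := by simp [hlev, h]
    have h3 : 0 < lev a₁ := Finset.card_pos.2 ⟨i, by
      rw [Finset.mem_filter]; exact ⟨Finset.mem_univ _, (Fin.exists_fin_two.1 ⟨a₁ i, rfl⟩).resolve_left hi⟩⟩
    omega
  set b := Function.update a i₀ (0 : Fin 2) with hb
  have hsum : ∀ β : F, ∑ i, (if b i = 1 then 0 else x (Function.update b i 1)) * ε i β = 0 := by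
    intro β
    have h1 := congrFun (hA β) b
    rw [ten2_apply, ← Finset.add_sum_erase _ _ (Finset.mem_univ b),
      show (∏ i, ε i ((u β : SL₂) (b i) (b i))) = 1 from Finset.prod_eq_one fun i _ => by
        rcases Fin.exists_fin_two.1 ⟨b i, rfl⟩ with e | e <;> rw [e] <;> simp,
      one_mul, add_eq_left] at h1
    refine Eq.trans ?_ h1
    refine Eq.trans ?_ (Finset.sum_bij_ne_zero (s := Finset.univ.filter fun i : ι => b i ≠ 1)
      (f := fun i => x (Function.update b i 1) * ε i β) (fun i _ _ => Function.update b i 1) ?_ ?_ ?_ ?_)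
    · rw [Finset.sum_filter]
      refine Finset.sum_congr rfl fun i _ => ?_
      by_cases e : b i = 1 <;> simp [e]
    · intro i hi _
      refine Finset.mem_erase.2 ⟨fun e => (Finset.mem_filter.1 hi).2 ?_, Finset.mem_univ _⟩
      simpa using (congrFun e i).symm
    · intro i hi _ j _ _ e
      by_contra hne
      have := congrFun e i
      rw [Function.update_self, Function.update_of_ne hne] at this
      exact (Finset.mem_filter.1 hi).2 this.symm
    · intro a' ha' hne
      have hx' := right_ne_zero_of_mul hne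
      have hstep : ∀ i, b i = 1 → a' i = 1 := fun i hi => by
        by_contra h
        refine left_ne_zero_of_mul hne (Finset.prod_eq_zero (Finset.mem_univ i) ?_)
        rw [hi, (Fin.exists_fin_two.1 ⟨a' i, rfl⟩).resolve_right h]
        simp
      obtain ⟨i, hi⟩ := Function.ne_iff.1 (Finset.mem_erase.1 ha').1
      have hbi : b i ≠ 1 := fun e => hi ((hstep i e).trans e.symm)
      have hai : a' i = 1 := (Fin.exists_fin_two.1 ⟨a' i, rfl⟩).resolve_left fun e =>
        hi (e.trans ((Fin.exists_fin_two.1 ⟨b i, rfl⟩).resolve_right hbi).symm)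
      have heq : Function.update b i 1 = a' := funext fun j => by
        by_cases hj : j = i
        · subst hj; rw [Function.update_self, hai]
        rw [Function.update_of_ne hj]
        rcases Fin.exists_fin_two.1 ⟨b j, rfl⟩ with e | e
        · rcases Fin.exists_fin_two.1 ⟨a' j, rfl⟩ with e' | e'
          · rw [e, e']
          exfalso
          have hmax' := hmax a' (Finset.mem_filter.2 ⟨Finset.mem_univ _, hx'⟩)
          have hsub : insert i (insert j ((Finset.univ.filter fun l => a l = 1).erase i₀)) ⊆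
              Finset.univ.filter fun l => a' l = 1 := by
            intro l hl
            rw [Finset.mem_filter]
            refine ⟨Finset.mem_univ _, ?_⟩
            simp only [Finset.mem_insert, Finset.mem_erase, Finset.mem_filter] at hl
            rcases hl with rfl | rfl | ⟨hl1, -, hl2⟩
            · exact hai
            · exact e'
            · exact hstep l (by rw [hb, Function.update_of_ne hl1, hl2])
          have hnot : ∀ l, b l ≠ 1 → l ∉ (Finset.univ.filter fun m => a m = 1).erase i₀ := fun l hl h => by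
            rw [Finset.mem_erase, Finset.mem_filter] at h
            exact hl (by rw [hb, Function.update_of_ne h.1, h.2.2])
          have hc := Finset.card_le_card hsub
          rw [Finset.card_insert_of_notMem (by
              rw [Finset.mem_insert]
              rintro (h | h)
              · exact hj h.symm
              · exact hnot i hbi h),
            Finset.card_insert_of_notMem (hnot j (by rw [e]; decide)),
            Finset.card_erase_of_mem (show i₀ ∈ Finset.univ.filter (fun m => a m = 1) from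
              Finset.mem_filter.2 ⟨Finset.mem_univ _, hi₀⟩)] at hc
          have : 0 < lev a := Finset.card_pos.2 ⟨i₀, Finset.mem_filter.2 ⟨Finset.mem_univ _, hi₀⟩⟩
          simp only [hlev] at hmax' this
          omega
        · rw [e, hstep j e]
      refine ⟨i, Finset.mem_filter.2 ⟨Finset.mem_univ _, hbi⟩, ?_, heq⟩
      intro e
      apply hne
      subst heq
      rw [Finset.prod_eq_single i (fun j _ hj => by
          rw [Function.update_of_ne hj]
          rcases Fin.exists_fin_two.1 ⟨b j, rfl⟩ with e' | e' <;> rw [e'] <;> simp)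
        (fun h => absurd (Finset.mem_univ i) h), Function.update_self,
        (Fin.exists_fin_two.1 ⟨b i, rfl⟩).resolve_right hbi]
      simpa [mul_comm] using e
    · intro i hi _
      rw [Finset.prod_eq_single i (fun j _ hj => by
          rw [Function.update_of_ne hj]
          rcases Fin.exists_fin_two.1 ⟨b j, rfl⟩ with e' | e' <;> rw [e'] <;> simp)
        (fun h => absurd (Finset.mem_univ i) h), Function.update_self,
        (Fin.exists_fin_two.1 ⟨b i, rfl⟩).resolve_right (Finset.mem_filter.1 hi).2]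
      simp [mul_comm]
  have h0 := coeff_char_eq_zero (fun i => chr (ε i)) _ hsum i₀
    (fun j hj e => hj (hε (chr_injective e)))
  rw [hb, Function.update_self, if_neg (by decide), Function.update_idem, ← hi₀,
    Function.update_eq_self] at h0
  exact hxa h0

/-- A simple module is the image of a twist of the natural module. -/
theorem exists_nat2_hom [Finite M] [Nontrivial M] (hbig : ∃ z : F, z ≠ 0 ∧ z ≠ 1) (hρ : Fpf ρ)
    (hs : ∀ W : Submodule F M, Invariant ρ W → W ≠ ⊥ → W = ⊤) :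
    ∃ (σ : F →+* F) (f : (Fin 2 → F) →ₗ[F] M), IsHom (nat2 σ) ρ f ∧ Function.Injective f ∧
      LinearMap.range f = ⊤ := by
  classical
  obtain ⟨y, -, hy0, hy⟩ := exists_fixed2 (ρ := ρ) (W := ⊤)
    (fun _ _ _ => Submodule.mem_top) top_ne_bot
  obtain ⟨v, k, hk, hv0, hv, hvw⟩ := exists_weight2 hy hy0
  have hk0 : k ≠ 0 := by
    intro e
    obtain ⟨z, hz0, hz1⟩ := hbig
    set t : Fˣ := Units.mk0 z hz0
    refine hv0 (hρ (d t) ?_ ?_ v ?_)
    · refine Odd.of_dvd_nat (odd_card_sub_one (F := F)) ?_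
      rw [orderOf_injective _ d_injective, ← Nat.card_units]
      exact orderOf_dvd_natCard t
    · intro e'
      rw [← map_one d] at e'
      exact hz1 (congrArg Units.val (d_injective e'))
    · rw [hvw, e]; simp
  obtain ⟨φ, hφ0, hφ⟩ := exists_functional2 ρ
  have hspan : orbSpan ρ v = ⊤ := hs _ (invariant_orbSpan _ _)
    (fun e => hv0 ((Submodule.eq_bot_iff _).1 e v (mem_orbSpan _ _)))
  obtain ⟨n, -, hn⟩ := Suzuki.card_field (F := F)
  let ι := {i // i ∈ k.bitIndices.toFinset}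
  let ε : ι → F →+* F := fun i => iterateFrobenius F 2 i
  have hεapp : ∀ (i : ι) (x : F), ε i x = x ^ 2 ^ (i : ℕ) := fun i x => iterateFrobenius_def ..
  have hb : ∀ i : ι, 2 ^ (i : ℕ) < Nat.card F - 1 := fun i => by
    have h1 : 2 ^ (i : ℕ) ≤ k := Nat.two_pow_le_of_mem_bitIndices (List.mem_toFinset.1 i.2)
    omega
  have hε : Function.Injective ε := by
    intro i j e
    obtain ⟨g, hg⟩ := IsCyclic.exists_generator (α := Fˣ)
    have ho : orderOf g = Nat.card F - 1 := by rw [orderOf_eq_card_of_forall_mem_zpowers hg, Nat.card_units]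
    have hp : g ^ 2 ^ (i : ℕ) = g ^ 2 ^ (j : ℕ) := Units.ext (by
      push_cast
      rw [← hεapp, ← hεapp, e])
    exact Subtype.ext (Nat.pow_right_injective le_rfl
      (pow_injOn_Iio_orderOf (ho.symm ▸ hb i) (ho.symm ▸ hb j) hp))
  have hprod : ∀ x : F, ∏ i : ι, ε i x = x ^ k := fun x => by
    simp only [hεapp]
    rw [Finset.prod_pow_eq_pow_sum]
    congr 1
    rw [Finset.sum_coe_sort k.bitIndices.toFinset (fun i => 2 ^ i)]
    exact Finset.sum_toFinset_bitIndices_two_pow k
  have hι : Nonempty ι := by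
    by_contra h
    rw [not_nonempty_iff] at h
    have := hprod 0
    rw [Finset.univ_eq_empty, Finset.prod_empty, zero_pow hk0] at this
    exact one_ne_zero this
  obtain ⟨i₀⟩ := hι
  by_cases hsub : ∀ i : ι, i = i₀
  · refine ⟨ε i₀, ?_⟩
    have hweq : (fun t : Fˣ => (ε i₀) (t : F)) = fun t : Fˣ => (t : F) ^ k := funext fun t => by
      rw [← hprod, Fintype.prod_eq_single i₀ fun i hi => absurd (hsub i) hi]
    have hwn : Weight2 (nat2 (ε i₀)) f0 (fun t => (t : F) ^ k) := hweq ▸ nat2_weight (ε i₀)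
    obtain ⟨f, hf, hf0⟩ := exists_hom_high2 (ρ := ρ) (ρ' := nat2 (ε i₀)) hspan hv hvw
      (nat2_fixed _) hwn φ hφ (functional_fixed2 (Fpf3.of_fpf hρ) φ hφ hv) hφ0
      (LinearMap.proj 1) (fun b m => by rw [nat2_u]; simp) (by simp [f0])
      (by show nat2 (ε i₀) (w : SL₂) f0 1 = 1
          rw [nat2_w_f0]; simp [f1])
      (nat2_fib _)
    have hbij : Function.Bijective f := by
      constructor
      · rw [← LinearMap.ker_eq_bot]
        by_contra h
        have := hs _ (fun g x hx => by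
          rw [LinearMap.mem_ker, hf, LinearMap.mem_ker.1 hx, map_zero]) h
        rw [LinearMap.ker_eq_top] at this
        rw [this] at hf0
        simpa [f0] using congrFun hf0 0
      · rw [← LinearMap.range_eq_top, eq_top_iff, ← nat2_span (ε i₀), orbSpan, Submodule.span_le]
        rintro _ ⟨g, rfl⟩
        exact ⟨ρ g v, by rw [hf, hf0]⟩
    set e := LinearEquiv.ofBijective f hbij
    refine ⟨e.symm.toLinearMap, fun g x => ?_, e.symm.injective, ?_⟩
    · refine e.injective ?_
      show e (e.symm (nat2 (ε i₀) g x)) = f (ρ g (e.symm x))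
      rw [e.apply_symm_apply, hf]
      congr 1
      exact (e.apply_symm_apply x).symm
    · exact LinearMap.range_eq_top.2 e.symm.surjective
  · exfalso
    push Not at hsub
    obtain ⟨i₁, hne⟩ := hsub
    set δ : (ι → Fin 2) → F := Pi.single (fun _ => 0) 1 with hδ
    have happ : ∀ g (b : ι → Fin 2), ten2 ε g δ b =
        ∏ i, ε i ((g : Matrix (Fin 2) (Fin 2) F) (b i) 0) := by
      intro g b
      rw [ten2_apply, Finset.sum_eq_single (fun _ : ι => (0 : Fin 2))]
      · rw [hδ, Pi.single_eq_same, mul_one]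
      · intro a _ ha; rw [hδ, Pi.single_eq_of_ne ha, mul_zero]
      · intro h; exact absurd (Finset.mem_univ _) h
    have hzero : ∀ (c : ι → Fin 2) (g : SL₂), g 1 0 = 0 → c ≠ (fun _ => 0) → ten2 ε g δ c = 0 := by
      intro c g hg hc
      obtain ⟨i, hi⟩ := Function.ne_iff.1 hc
      rw [happ]
      refine Finset.prod_eq_zero (Finset.mem_univ i) ?_
      rw [(Fin.exists_fin_two.1 ⟨c i, rfl⟩).resolve_left hi, hg, map_zero]
    have hfx : Fixed2 (ten2 ε) δ := by
      intro b
      funext c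
      by_cases h : c = fun _ => 0
      · subst h; rw [happ]; simp [hδ]
      · rw [hzero c _ (by simp) h, hδ, Pi.single_eq_of_ne h]
    have hwt : Weight2 (ten2 ε) δ (fun t => (t : F) ^ k) := by
      intro t
      funext c
      by_cases h : c = fun _ => 0
      · subst h; rw [happ]; simp [hδ, hprod]
      · rw [hzero c _ (by simp) h, Pi.smul_apply, hδ, Pi.single_eq_of_ne h, smul_zero]
    have hrow : ∀ (b : F) (m : (ι → Fin 2) → F), ten2 ε (u b) m (fun _ => 1) = m (fun _ => 1) := by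
      intro b m
      rw [ten2_apply, Finset.sum_eq_single (fun _ : ι => (1 : Fin 2))]
      · simp
      · intro c _ hc
        obtain ⟨i, hi⟩ := Function.ne_iff.1 hc
        rw [Finset.prod_eq_zero (Finset.mem_univ i) (by
          rw [(Fin.exists_fin_two.1 ⟨c i, rfl⟩).resolve_right hi]; simp), zero_mul]
      · intro h; exact absurd (Finset.mem_univ _) h
    obtain ⟨f, hf, hf0⟩ := exists_hom_high2 (ρ := ρ) (ρ' := ten2 ε) hspan hv hvw hfx hwt
      φ hφ (functional_fixed2 (Fpf3.of_fpf hρ) φ hφ hv) hφ0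
      (LinearMap.proj (fun _ : ι => (1 : Fin 2))) hrow
      (by show δ (fun _ => 1) = 0
          exact Pi.single_eq_of_ne (fun e => absurd (congrFun e i₀) (by simp)) _)
      (by show ten2 ε (w : SL₂) δ (fun _ => 1) = 1
          rw [happ]; simp [CharTwo.neg_eq])
      (fun W hW hne => by
        obtain ⟨y, hy, hy0, hfix⟩ := exists_fixed2 hW hne
        have h := ten2_fix hε hfix
        have he : y = y (fun _ => 0) • δ := funext fun c => by
          by_cases hc : c = fun _ => 0
          · subst hc; simp [hδ]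
          · simp [hδ, h c hc, Pi.single_eq_of_ne hc]
        have h0 : y (fun _ => 0) ≠ 0 := fun e => hy0 (by rw [he, e, zero_smul])
        have := W.smul_mem (y (fun _ => 0))⁻¹ hy
        rwa [he, smul_smul, Pi.smul_apply, hδ, Pi.single_eq_same, smul_eq_mul, mul_one,
          inv_mul_cancel₀ h0, one_smul, ← hδ] at this)
    have h := congrArg f (eq_of_fixed_u (Fpf3.of_fpf hρ) (hv 1))
    simp only [map_add, hf _ _, hf0] at h
    set b : ι → Fin 2 := fun i => if i = i₀ then 0 else 1 with hb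
    have h := congrFun h b
    rw [Pi.add_apply, ← rho_mul, happ, happ, hδ,
      Pi.single_eq_of_ne (fun e => by simpa [hb, hne] using congrFun e i₁),
      Finset.prod_eq_one (fun i _ => by
        rcases Fin.exists_fin_two.1 ⟨b i, rfl⟩ with e | e <;> rw [e] <;>
          simp [Matrix.mul_apply, Fin.sum_univ_two, CharTwo.neg_eq]),
      Finset.prod_eq_zero (Finset.mem_univ i₀) (by simp [hb]), add_zero] at h
    exact one_ne_zero h

end CfsgLib.CNModules.LTwo
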