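import Cfsg.Agent.CNModules.SzRep
import Mathlib.Algebra.Module.ZMod
import Mathlib.GroupTheory.QuotientGroup.Basic

/-!
Abelian sections of a normal subgroup as modules for the quotient group.
-/

set_option autoImplicit false

namespace CfsgLib.CNModules

universe u v

variable {G : Type u} [Group G] {H : Type v} [Group H]

/-- Every element of odd order lifts to an element of odd order. -/
theorem exists_odd_lift [Finite G] (φ : G →* H) (hφ : Function.Surjective φ) {h : H}
    (hh : Odd (orderOf h)) : ∃ g, φ g = h ∧ Odd (orderOf g) := by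
  obtain ⟨g₀, hg₀⟩ := hφ h
  obtain ⟨a, c, hc, hac⟩ := Nat.exists_eq_two_pow_mul_odd (orderOf_pos g₀).ne'
  obtain ⟨s, hs⟩ := exists_pow_eq_self_of_coprime (x := h) (n := 2 ^ a)
    ((Nat.coprime_two_left.2 hh).pow_left a)
  refine ⟨(g₀ ^ 2 ^ a) ^ s, by rw [map_pow, map_pow, hg₀, hs], ?_⟩
  refine hc.of_dvd_nat (orderOf_dvd_of_pow_eq_one ?_)
  rw [← pow_mul, ← pow_mul, show 2 ^ a * (s * c) = 2 ^ a * c * s by ring, ← hac, pow_mul,
    pow_orderOf_eq_one, one_pow]

/-- An action on an abelian group in which elements of odd order fix only zero. -/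
def FpfAdd {M : Type*} [AddCommGroup M] (ρ : H →* AddMonoid.End M) : Prop :=
  ∀ h : H, Odd (orderOf h) → h ≠ 1 → ∀ v : M, ρ h v = v → v = 0

/-- An action on an elementary abelian 2-group as a linear action. -/
def linRep {M : Type*} [AddCommGroup M] [Module (ZMod 2) M] (ρ : H →* AddMonoid.End M) :
    H →* Module.End (ZMod 2) M where
  toFun h := AddMonoidHom.toZModLinearMap 2 (ρ h)
  map_one' := by rw [map_one]; exact LinearMap.ext fun v => rfl
  map_mul' g h := by rw [map_mul]; exact LinearMap.ext fun v => rfl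

@[simp] theorem linRep_apply {M : Type*} [AddCommGroup M] [Module (ZMod 2) M]
    (ρ : H →* AddMonoid.End M) (h : H) (v : M) : linRep ρ h v = ρ h v := rfl

theorem FpfAdd.linRep {M : Type*} [AddCommGroup M] [Module (ZMod 2) M] {ρ : H →* AddMonoid.End M}
    (hρ : FpfAdd ρ) : Fpf (CfsgLib.CNModules.linRep ρ) := hρ

/-- The elements killed by two. -/
def omegaTwo (L : Type*) [AddCommGroup L] : AddSubgroup L := (nsmulAddMonoidHom 2).ker

theorem mem_omegaTwo {L : Type*} [AddCommGroup L] {x : L} : x ∈ omegaTwo L ↔ (2 : ℕ) • x = 0 :=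
  Iff.rfl

/-- The action on the elements killed by two. -/
def omegaRep {L : Type*} [AddCommGroup L] (ρ : H →* AddMonoid.End L) :
    H →* AddMonoid.End (omegaTwo L) where
  toFun h :=
    { toFun := fun x => ⟨ρ h x, by rw [mem_omegaTwo, ← map_nsmul, mem_omegaTwo.1 x.2, map_zero]⟩
      map_zero' := Subtype.ext (map_zero (ρ h))
      map_add' := fun a b => Subtype.ext (map_add (ρ h) _ _) }
  map_one' := by ext x; simp only [map_one]; rfl
  map_mul' g h := by ext x; simp only [map_mul]; rfl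

theorem omegaRep_coe {L : Type*} [AddCommGroup L] (ρ : H →* AddMonoid.End L) (h : H) (x : omegaTwo L) :
    ((omegaRep ρ h x : omegaTwo L) : L) = ρ h x := rfl

theorem FpfAdd.omega {L : Type*} [AddCommGroup L] {ρ : H →* AddMonoid.End L} (hρ : FpfAdd ρ) :
    FpfAdd (omegaRep ρ) := fun h ho h1 v hv =>
  Subtype.ext (hρ h ho h1 v (congrArg Subtype.val hv))

theorem omegaTwo_two {L : Type*} [AddCommGroup L] (x : omegaTwo L) : (2 : ℕ) • x = 0 :=
  Subtype.ext x.2

set_option maxHeartbeats 1000000 in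
open scoped commutatorElement in
/-- An abelian section of a normal subgroup on which it acts trivially, as a module for the quotient. -/
theorem exists_section [Finite G] (φ : G →* H) (hφ : Function.Surjective φ)
    (hfpf : ∀ g, Odd (orderOf g) → g ≠ 1 → ∀ x ∈ φ.ker, g * x * g⁻¹ = x → x = 1)
    (A B : Subgroup G) [A.Normal] [B.Normal] (hAB : A ≤ B) (hB : B ≤ φ.ker)
    (hcomm : ∀ b ∈ B, ∀ q ∈ φ.ker, ⁅b, q⁆ ∈ A) :
    ∃ (M : Type u) (_ : AddCommGroup M) (_ : Finite M) (ρ : H →* AddMonoid.End M) (pr : B → M),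
      Function.Surjective pr ∧ (∀ a b, pr (a * b) = pr a + pr b) ∧
      (∀ b : B, pr b = 0 ↔ (b : G) ∈ A) ∧
      (∀ (g : G) (b : B), ρ (φ g) (pr b) = pr (MulAut.conjNormal g b)) ∧ FpfAdd ρ := by
  classical
  set A' := A.subgroupOf B with hA'
  have hc : IsMulCommutative (B ⧸ A') := ⟨⟨by
    rintro ⟨a⟩ ⟨b⟩
    apply QuotientGroup.eq.2
    rw [Subgroup.mem_subgroupOf, show ((((a * b)⁻¹ * (b * a) : B)) : G) = ⁅(b : G)⁻¹, (a : G)⁻¹⁆ by
      simp [commutatorElement_def, mul_assoc]]
    exact hcomm _ (inv_mem b.2) _ (inv_mem (hB a.2))⟩⟩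
  obtain ⟨M, _, _, p, hp, hpk⟩ : ∃ (M : Type u) (_ : AddCommGroup M) (_ : Finite M) (p : B →* Multiplicative M),
      Function.Surjective p ∧ p.ker = A' := by
    haveI := hc
    exact ⟨Additive (B ⧸ A'), @Additive.addCommGroup _ (IsMulCommutative.instCommGroup),
      inferInstance, QuotientGroup.mk' A', QuotientGroup.mk'_surjective A', QuotientGroup.ker_mk' A'⟩
  set pr : B → M := fun b => Multiplicative.toAdd (p b)
  have hpr : Function.Surjective pr := fun m => hp (Multiplicative.ofAdd m)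
  have hmul : ∀ a b, pr (a * b) = pr a + pr b := fun a b => by simp [pr]
  have hzero : ∀ b : B, pr b = 0 ↔ (b : G) ∈ A := fun b => by
    rw [← Subgroup.mem_subgroupOf, ← hA', ← hpk, MonoidHom.mem_ker]; rfl
  have heq : ∀ a b : B, pr a = pr b ↔ (a : G)⁻¹ * b ∈ A := fun a b => by
    have := hzero (a⁻¹ * b)
    rw [hmul, show pr a⁻¹ = -pr a by simp [pr], neg_add_eq_zero] at this
    simpa using this
  -- conjugation
  have hker' : ∀ g : G, p.ker ≤ (p.comp (MulAut.conjNormal g : MulAut B).toMonoidHom).ker := by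
    intro g b hb
    rw [hpk, hA', Subgroup.mem_subgroupOf] at hb
    rw [MonoidHom.mem_ker]
    refine congrArg Multiplicative.ofAdd ((hzero _).2 ?_)
    show (((MulAut.conjNormal g b : B)) : G) ∈ A
    rw [MulAut.conjNormal_apply]
    exact (inferInstance : A.Normal).conj_mem _ hb g
  let op : G → AddMonoid.End M := fun g =>
    MonoidHom.toAdditive (p.liftOfSurjective hp ⟨_, hker' g⟩)
  have hop : ∀ g b, op g (pr b) = pr (MulAut.conjNormal g b) := fun g b =>
    congrArg Multiplicative.toAdd (p.liftOfRightInverse_comp_apply _ _ ⟨_, hker' g⟩ b)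
  let Ψ : G →* AddMonoid.End M :=
    { toFun := op
      map_one' := by
        ext v
        obtain ⟨b, rfl⟩ := hpr v
        rw [hop, map_one]; rfl
      map_mul' := fun g g' => by
        ext v
        obtain ⟨b, rfl⟩ := hpr v
        rw [hop, map_mul]
        show _ = op g (op g' (pr b))
        rw [hop, hop]; rfl }
  have hΨ : ∀ g b, Ψ g (pr b) = pr (MulAut.conjNormal g b) := fun g b => hop g b
  have hker : φ.ker ≤ Ψ.ker := fun q hq => by
    rw [MonoidHom.mem_ker]
    ext v
    obtain ⟨b, rfl⟩ := hpr v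
    show Ψ q (pr b) = pr b
    rw [hΨ, heq]
    have := Subgroup.Normal.conj_mem (H := A) inferInstance _ (hcomm _ b.2 _ hq) ((b : G)⁻¹)
    convert this using 1
    simp [commutatorElement_def, MulAut.conjNormal_apply, mul_assoc]
  have hwell : ∀ g g' : G, φ g = φ g' → Ψ g = Ψ g' := fun g g' e => by
    have hq : g'⁻¹ * g ∈ Ψ.ker := hker (by rw [MonoidHom.mem_ker, map_mul, map_inv, e, inv_mul_cancel])
    calc Ψ g = Ψ g' * Ψ (g'⁻¹ * g) := by rw [← map_mul, mul_inv_cancel_left]
      _ = Ψ g' := by rw [MonoidHom.mem_ker.1 hq, mul_one]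
  let ρ : H →* AddMonoid.End M :=
    { toFun := fun h => Ψ (Function.surjInv hφ h)
      map_one' := by
        rw [hwell _ 1 (by rw [Function.surjInv_eq hφ, map_one]), map_one]
      map_mul' := fun x y => by
        rw [← map_mul, hwell _ (Function.surjInv hφ x * Function.surjInv hφ y)
          (by rw [map_mul, Function.surjInv_eq hφ, Function.surjInv_eq hφ, Function.surjInv_eq hφ])] }
  have hρ : ∀ g, ρ (φ g) = Ψ g := fun g => hwell _ _ (Function.surjInv_eq hφ _)
  refine ⟨M, inferInstance, inferInstance, ρ, pr, hpr, hmul, hzero,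
    fun g b => by rw [hρ, hΨ], fun h ho h1 v hv => ?_⟩
  obtain ⟨g, rfl, hg⟩ := exists_odd_lift φ hφ ho
  obtain ⟨b, rfl⟩ := hpr v
  have hg1 : g ≠ 1 := fun e => h1 (by rw [e, map_one])
  rw [hρ, hΨ] at hv
  rw [hzero]
  have ha : (b : G)⁻¹ * (g * b * g⁻¹) ∈ A := by
    have := (heq _ _).1 hv.symm
    simpa [MulAut.conjNormal_apply, mul_assoc] using this
  -- the twisted conjugation map is injective
  have hinj : ∀ x ∈ φ.ker, ∀ y ∈ φ.ker, x⁻¹ * (g * x * g⁻¹) = y⁻¹ * (g * y * g⁻¹) → x = y := by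
    intro x hx y hy e
    have hfix : g * (y * x⁻¹) * g⁻¹ = y * x⁻¹ := by
      calc g * (y * x⁻¹) * g⁻¹ = y * (y⁻¹ * (g * y * g⁻¹)) * (x⁻¹ * (g * x * g⁻¹))⁻¹ * x⁻¹ := by group
        _ = y * x⁻¹ := by rw [← e]; group
    exact (mul_inv_eq_one.1 (hfpf g hg hg1 _ (mul_mem hy (inv_mem hx)) hfix)).symm
  let f : A → A := fun x => ⟨(x : G)⁻¹ * (g * x * g⁻¹),
    mul_mem (inv_mem x.2) (Subgroup.Normal.conj_mem inferInstance _ x.2 g)⟩
  have hf : Function.Injective f := fun x y e =>
    Subtype.ext (hinj _ (hB (hAB x.2)) _ (hB (hAB y.2)) (congrArg Subtype.val e))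
  obtain ⟨y, hy⟩ := (Finite.injective_iff_surjective.1 hf) ⟨_, ha⟩
  rw [hinj _ (hB b.2) _ (hB (hAB y.2)) (congrArg Subtype.val hy).symm]
  exact y.2

end CfsgLib.CNModules
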