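import Cfsg.Agent.CNModules.SzRep
import Mathlib.LinearAlgebra.Dual.Lemmas

/-!
Extensions of one twist of the natural module of a Suzuki group by another split, when elements of odd
order act fixed point freely.
-/

set_option autoImplicit false

open scoped Matrix

namespace CfsgLib.CNModules

open CfsgLib.Suzuki

variable {F : Type*} [Field F] [CharP F 2] [Finite F] {θ : F →+* F}
variable {M : Type*} [AddCommGroup M] [Module F M]
variable {ρ : grp θ →* Module.End F M}

/-- The second basis vector. -/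
def e1 : Fin 4 → F := ![0, 1, 0, 0]

/-- The third basis vector. -/
def e2 : Fin 4 → F := ![0, 0, 1, 0]

/-- The data of an extension of `σ` by `τ`. -/
structure Extn (hT : TitsEndo θ) (ρ : grp θ →* Module.End F M) (σ τ : F →+* F) where
  inc : (Fin 4 → F) →ₗ[F] M
  prj : M →ₗ[F] (Fin 4 → F)
  ret : M →ₗ[F] (Fin 4 → F)
  inc_hom : IsHom (nat θ τ) ρ inc
  prj_hom : IsHom ρ (nat θ σ) prj
  prj_surj : Function.Surjective prj
  exact' : ∀ m, prj m = 0 ↔ ∃ x, inc x = m
  ret_inc : ∀ x, ret (inc x) = x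

variable {hT : TitsEndo θ} {σ τ : F →+* F} (E : Extn hT ρ σ τ)
include E

theorem Extn.inc_ret {m : M} (h : E.prj m = 0) : E.inc (E.ret m) = m := by
  obtain ⟨x, rfl⟩ := (E.exact' m).1 h
  rw [E.ret_inc]

theorem Extn.prj_inc (x : Fin 4 → F) : E.prj (E.inc x) = 0 := (E.exact' _).2 ⟨x, rfl⟩

theorem Extn.inc_inj : Function.Injective E.inc := fun x y h => by
  rw [← E.ret_inc x, h, E.ret_inc]

/-- The cocycle of a vector over a fixed one. -/
def Extn.coc (v : M) (g : grp θ) : Fin 4 → F := E.ret (ρ g v - v)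

/-- A lift of the highest vector which is an eigenvector of the torus. -/
def Extn.IsLift (v : M) : Prop :=
  E.prj v = e0 ∧ HasWeight hT ρ v (fun t => σ (mu θ t))

theorem Extn.exists_lift : ∃ v, E.IsLift v := by
  classical
  letI := Fintype.ofFinite Fˣ
  obtain ⟨v₀, hv₀⟩ := E.prj_surj e0
  refine ⟨∑ t : Fˣ, (σ (mu θ t))⁻¹ • ρ (tElt hT t) v₀, ?_, fun s => ?_⟩
  · rw [map_sum]
    have : ∀ t : Fˣ, E.prj ((σ (mu θ t))⁻¹ • ρ (tElt hT t) v₀) = (e0 : Fin 4 → F) := fun t => by
      rw [map_smul, E.prj_hom, hv₀, nat_weight σ t, smul_smul,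
        inv_mul_cancel₀ ((map_ne_zero σ).2 (mu_ne_zero t)), one_smul]
    rw [Finset.sum_congr rfl fun t _ => this t, Finset.sum_const, Finset.card_univ,
      ← Nat.card_eq_fintype_card, Nat.card_units, ← Nat.cast_smul_eq_nsmul F]
    obtain ⟨k, hk1, hk⟩ := card_field (F := F)
    have h0 : ((Nat.card F : ℕ) : F) = 0 := by
      rw [hk, Nat.cast_pow, Nat.cast_ofNat, CharTwo.two_eq_zero, zero_pow (by omega)]
    rw [Nat.cast_sub (Nat.one_le_iff_ne_zero.2 Nat.card_pos.ne'), h0, Nat.cast_one, zero_sub,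
      CharTwo.neg_eq, one_smul]
  · rw [map_sum, Finset.smul_sum]
    refine Fintype.sum_equiv (Equiv.mulLeft s) _ _ fun t => ?_
    rw [map_smul, ← rho_mul, tElt_mul, Equiv.coe_mulLeft, smul_smul]
    congr 1
    rw [mu_mul, map_mul, mul_inv, ← mul_assoc, mul_inv_cancel₀ ((map_ne_zero σ).2 (mu_ne_zero s)),
      one_mul]

theorem Extn.rho_eq {v : M} (hv : E.prj v = e0) (a b : F) :
    ρ (uElt hT a b) v = v + E.inc (E.coc v (uElt hT a b)) := by
  rw [Extn.coc, E.inc_ret (by rw [map_sub, E.prj_hom, hv, nat_fixed σ a b, sub_self]), add_sub_cancel]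

theorem Extn.coc_mul {v : M} (hv : E.prj v = e0) (a b c d : F) :
    E.coc v (uElt hT a b * uElt hT c d) =
      E.coc v (uElt hT a b) + nat θ τ (uElt hT a b) (E.coc v (uElt hT c d)) := by
  refine E.inc_inj ?_
  have h : ρ (uElt hT a b * uElt hT c d) v =
      v + E.inc (E.coc v (uElt hT a b * uElt hT c d)) := by rw [uElt_mul]; exact E.rho_eq hv _ _
  rw [rho_mul, E.rho_eq hv c d, map_add, E.rho_eq hv a b, ← E.inc_hom, add_assoc, ← map_add] at h
  exact (add_left_cancel h).symm

theorem Extn.coc_weight {v : M} (hv : E.IsLift v) (t : Fˣ) (a b : F) :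
    σ (mu θ t) • E.coc v (uElt hT (θ t * a) ((t : F) ^ 2 * θ t * b)) =
      nat θ τ (tElt hT t) (E.coc v (uElt hT a b)) := by
  refine E.inc_inj ?_
  have h := congrArg (fun g => ρ g v) (tElt_mul_uElt hT t a b)
  simp only [rho_mul] at h
  rw [E.rho_eq hv.1 a b, map_add, ← E.inc_hom, hv.2, map_smul, E.rho_eq hv.1, smul_add,
    ← map_smul E.inc] at h
  exact (add_left_cancel h).symm

/-- What the cocycle relations give at once. -/
theorem Extn.coc_facts {v : M} (hv : E.IsLift v) :
    ∃ f g p : F → F,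
      (∀ b, E.coc v (uElt hT 0 b) = ![f b, 0, 0, 0]) ∧
      (∀ a, E.coc v (uElt hT a 0) = ![g a, p a, 0, 0]) ∧
      (∀ a b, f (a + b) = f a + f b) ∧ (∀ a b, p (a + b) = p a + p b) ∧
      (∀ a b, g a + g b + τ a * p b = g (a + b) + f (θ a * b)) ∧
      (∀ a, τ a * p a = f (θ a * a)) ∧
      (∀ (t : Fˣ) b, σ (mu θ t) * f ((t : F) ^ 2 * θ t * b) = τ (mu θ t) * f b) ∧
      (∀ (t : Fˣ) a, σ (mu θ t) * p (θ t * a) = τ (t : F) * p a) ∧
      (∀ (t : Fˣ) a, σ (mu θ t) * g (θ t * a) = τ (mu θ t) * g a) := by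
  set A : F → Fin 4 → F := fun a => E.coc v (uElt hT a 0) with hA
  set B : F → Fin 4 → F := fun b => E.coc v (uElt hT 0 b) with hB
  have hB0 : B 0 = 0 := by
    simp only [hB, Extn.coc, uElt_zero, rho_one, sub_self, map_zero]
  have hA0 : A 0 = 0 := hB0
  have hBB : ∀ b c, B (b + c) = B b + nat θ τ (uElt hT 0 b) (B c) := fun b c => by
    simp only [hB]
    rw [← E.coc_mul hv.1, uElt_mul]; congr 2 <;> simp
  have hAA : ∀ a c, A a + nat θ τ (uElt hT a 0) (A c) =
      A (a + c) + nat θ τ (uElt hT (a + c) 0) (B (θ a * c)) := fun a c => by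
    simp only [hA, hB]
    rw [← E.coc_mul hv.1, ← E.coc_mul hv.1, uElt_mul, uElt_mul]; congr 2 <;> simp
  have hAB : ∀ a b, A a + nat θ τ (uElt hT a 0) (B b) = B b + nat θ τ (uElt hT 0 b) (A a) := fun a b => by
    simp only [hA, hB]
    rw [← E.coc_mul hv.1, ← E.coc_mul hv.1, ← uElt_split, ← uElt_split']
  have h23 : ∀ b, B b 3 = 0 ∧ B b 2 = 0 := by
    intro b
    by_cases hb : b = 0
    · simp [hb, hB0]
    have h := hBB b b
    rw [CharTwo.add_self_eq_zero, hB0, nat_uZ] at h
    have hτ : τ b ≠ 0 := (map_ne_zero τ).2 hb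
    have h1 := congrFun h 1
    have h0 := congrFun h 0
    simp at h1 h0
    have e3 : B b 3 = 0 := by
      refine (mul_eq_zero.1 ?_).resolve_left hτ
      linear_combination -h1 - B b 1 * CharTwo.two_eq_zero (R := F)
    refine ⟨e3, (mul_eq_zero.1 ?_).resolve_left hτ⟩
    rw [e3] at h0
    linear_combination -h0 - B b 0 * CharTwo.two_eq_zero (R := F)
  have hA3 : ∀ a, A a 3 = 0 := by
    intro a
    have h1 := congrFun (hAB a 1) 1
    simp [nat_uA, nat_uZ, h23] at h1
    linear_combination -h1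
  have hA2 : ∀ a b, τ b * A a 2 = τ a * B b 1 := by
    intro a b
    have h0 := congrFun (hAB a b) 0
    simp [nat_uA, nat_uZ, h23, hA3] at h0
    linear_combination -h0
  have hB1w : ∀ (t : Fˣ) b, σ (mu θ t) * B ((t : F) ^ 2 * θ t * b) 1 = τ (t : F) * B b 1 := by
    intro t b
    have h := congrFun (E.coc_weight hv t 0 b) 1
    rw [mul_zero, nat_t] at h
    simpa [hB] using h
  have hc1 : B 1 1 = 0 := by
    by_contra hne
    have hB1 : ∀ b, B b 1 = τ b * A 1 2 := fun b => by
      have := hA2 1 b; rw [map_one, one_mul] at this; exact this.symm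
    have h12 : A 1 2 = B 1 1 := by have := hA2 1 1; rwa [map_one, one_mul, one_mul] at this
    obtain ⟨z, hz0, hz1⟩ := hT.big
    have key : ∀ x : F, x ≠ 0 → σ x * τ x = 1 := by
      intro x hx
      obtain ⟨t, rfl⟩ := exists_mu_eq hT hx
      have h := hB1w t 1
      rw [mul_one, hB1, h12] at h
      have ht : τ (t : F) ≠ 0 := (map_ne_zero τ).2 t.ne_zero
      have h2 : σ (mu θ t) * τ ((t : F) ^ 2 * θ t) = τ (t : F) :=
        mul_right_cancel₀ hne (by linear_combination h)
      refine mul_right_cancel₀ ht ?_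
      rw [one_mul]
      calc σ (mu θ t) * τ (mu θ t) * τ (t : F) = σ (mu θ t) * τ ((t : F) ^ 2 * θ t) := by
            simp only [mu, map_mul, map_pow]; ring
        _ = τ (t : F) := h2
    have k1 := key z hz0
    have k2 := key (z + 1) (fun e => hz1 (CharTwo.add_eq_zero.1 e))
    simp only [map_add, map_one] at k2
    have hsum : σ z + τ z = 1 := by
      grind [CharTwo.two_eq_zero]
    have h3 : σ z ^ 3 = 1 := by
      grind [CharTwo.two_eq_zero]
    have h3' : z ^ 3 = 1 := σ.injective (by rw [map_pow, h3, map_one])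
    exact hz1 (pow_three_eq_one hT h3')
  have hB1 : ∀ b, B b 1 = 0 := fun b => by
    have h1 := hA2 1 b
    have h2 := hA2 1 1
    rw [map_one, one_mul, one_mul, hc1] at h2
    rw [h2, mul_zero, map_one, one_mul] at h1
    exact h1.symm
  have hA2' : ∀ a, A a 2 = 0 := fun a => by
    have := hA2 a 1; rw [hB1, mul_zero, map_one, one_mul] at this; exact this
  refine ⟨fun b => B b 0, fun a => A a 0, fun a => A a 1, fun b => ?_, fun a => ?_, fun a b => ?_,
    fun a b => ?_, fun a b => ?_, fun a => ?_, fun t b => ?_, fun t a => ?_, fun t a => ?_⟩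
  · funext i; fin_cases i <;> simp [hB1, h23, hB]
    all_goals first | exact hB1 b | exact (h23 b).1 | exact (h23 b).2
  · funext i; fin_cases i <;> simp [hA]
    all_goals first | exact hA2' a | exact hA3 a
  · have h := congrFun (hBB a b) 0
    simpa [nat_uZ, h23] using h
  · have h := congrFun (hAA a b) 1
    simp [nat_uA, h23, hA2', hB1] at h
    exact h.symm
  · have h := congrFun (hAA a b) 0
    simp [nat_uA, h23, hA2', hA3, hB1] at h
    linear_combination h
  · have h := congrFun (hAA a a) 0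
    rw [CharTwo.add_self_eq_zero, hA0] at h
    simp [nat_uA, h23, hA2', hA3, hB1] at h
    linear_combination h - A a 0 * CharTwo.two_eq_zero (R := F)
  · have h := congrFun (E.coc_weight hv t 0 b) 0
    rw [mul_zero, nat_t] at h
    simpa [hB] using h
  · have h := congrFun (E.coc_weight hv t a 0) 1
    rw [mul_zero, nat_t] at h
    simpa [hA] using h
  · have h := congrFun (E.coc_weight hv t a 0) 0
    rw [mul_zero, nat_t] at h
    simpa [hA] using h

theorem Extn.exists_central_fixed : ∃ v, E.IsLift v ∧ ∀ b, E.coc v (uElt hT 0 b) = 0 := by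
  obtain ⟨v, hv⟩ := E.exists_lift
  obtain ⟨f, g, p, hf, hg, hfadd, hpadd, hgp, hsq, hfw, hpw, hgw⟩ := E.coc_facts hv
  obtain ⟨η, hη⟩ := exists_ringHom f hfadd (fun s hs => by
    obtain ⟨t, rfl⟩ := exists_multiplier hT hs
    refine ⟨τ (mu θ t) / σ (mu θ t), fun b => ?_⟩
    rw [div_mul_eq_mul_div, eq_div_iff ((map_ne_zero σ).2 (mu_ne_zero t))]
    linear_combination hfw t b)
  by_cases h1 : f 1 = 0
  · exact ⟨v, hv, fun b => by rw [hf, hη, h1, zero_mul]; funext i; fin_cases i <;> simp⟩
  obtain ⟨ω, hω⟩ := exists_ringHom p hpadd (fun s hs => by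
    obtain ⟨x, rfl⟩ := hT.surj s
    have hx : x ≠ 0 := fun e => hs (by rw [e, map_zero])
    refine ⟨τ x / σ (mu θ (Units.mk0 x hx)), fun a => ?_⟩
    rw [div_mul_eq_mul_div, eq_div_iff ((map_ne_zero σ).2 (mu_ne_zero _))]
    have := hpw (Units.mk0 x hx) a
    rw [Units.val_mk0] at this
    linear_combination this)
  have hp1 : p 1 = f 1 := by simpa using hsq 1
  have hprod : ∀ a, τ a * ω a = (η.comp θ) a * η a := fun a => by
    refine mul_right_cancel₀ h1 ?_
    have h := hsq a
    rw [hω, hη, hp1, map_mul] at h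
    rw [RingHom.comp_apply]
    linear_combination h
  obtain ⟨z, hz0, hz1⟩ := hT.big
  have hfw1 : ∀ t : Fˣ, σ (mu θ t) * η ((t : F) ^ 2 * θ t) = τ (mu θ t) := fun t => by
    have := hfw t 1
    rw [mul_one, hη] at this
    exact mul_right_cancel₀ h1 (by linear_combination this)
  rcases cases_of_prod hprod with ⟨hτ, -⟩ | ⟨hτ, hω'⟩ | ⟨-, he⟩
  · exfalso
    obtain ⟨t, ht⟩ := exists_mu_eq hT hz0
    have h := hfw1 t
    rw [hτ, RingHom.comp_apply] at h
    have e : η (θ (mu θ t)) = η ((t : F) ^ 2 * θ t) := by rw [mu, map_mul, hT.sq, mul_comm]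
    rw [e] at h
    have hne : η ((t : F) ^ 2 * θ t) ≠ 0 :=
      (map_ne_zero η).2 (mul_ne_zero (pow_ne_zero 2 t.ne_zero) ((map_ne_zero θ).2 t.ne_zero))
    rw [mul_eq_right₀ hne, ht] at h
    exact hz1 (σ.injective (by rw [h, map_one]))
  · have hw2 : ∀ t : Fˣ, σ (mu θ t) = (τ (t : F))⁻¹ := fun t => by
      have h := hfw1 t
      rw [← hτ] at h
      refine eq_inv_of_mul_eq_one_left (mul_right_cancel₀ ((map_ne_zero τ).2 (mu_ne_zero (θ := θ) t)) ?_)
      rw [one_mul]
      calc σ (mu θ t) * τ (t : F) * τ (mu θ t) = σ (mu θ t) * τ ((t : F) ^ 2 * θ t) := by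
            simp only [mu, map_mul, map_pow]; ring
        _ = τ (mu θ t) := h
    refine ⟨v + f 1 • E.inc e2, ⟨?_, fun t => ?_⟩, fun b => ?_⟩
    · rw [map_add, map_smul, E.prj_inc, smul_zero, add_zero, hv.1]
    · rw [map_add, map_smul, ← E.inc_hom, hv.2, smul_add, smul_comm]
      congr 2
      rw [← map_smul E.inc]
      congr 1
      rw [nat_t]
      funext i
      fin_cases i <;> simp [e2, hw2]
    · refine E.inc_inj ?_
      rw [map_zero, Extn.coc, E.inc_ret]
      · rw [map_add, map_smul, ← E.inc_hom, E.rho_eq hv.1, hf, hη, ← hτ]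
        rw [show v + E.inc ![f 1 * τ b, 0, 0, 0] + f 1 • E.inc (nat θ τ (uElt hT 0 b) e2) -
          (v + f 1 • E.inc e2) = E.inc (![f 1 * τ b, 0, 0, 0] + f 1 • nat θ τ (uElt hT 0 b) e2 -
            f 1 • e2) by simp only [map_add, map_sub, map_smul]; abel]
        rw [← map_zero E.inc]
        congr 1
        funext i
        fin_cases i <;> simp [nat_uZ, e2]
        linear_combination f 1 * τ b * CharTwo.two_eq_zero (R := F)
      · simp [map_sub, map_add, E.prj_hom _ _, hv.1, E.prj_inc, nat_fixed σ 0 b]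
  · exfalso
    exact theta_ne_id hT (RingHom.ext fun x => η.injective (DFunLike.congr_fun he x))

/-- There is a lift of the highest vector fixed by the translations. -/
theorem Extn.exists_fixed_lift : ∃ v, E.IsLift v ∧ Fixed hT ρ v := by
  classical
  obtain ⟨v, hv, hB⟩ := E.exists_central_fixed
  obtain ⟨f, g, p, hf, hg, -, -, hgp, hsq, -, -, hgw⟩ := E.coc_facts hv
  have hf0 : ∀ b, f b = 0 := fun b => by
    have := congrFun ((hf b).symm.trans (hB b)) 0; simpa using this
  have hp0 : ∀ a, p a = 0 := fun a => by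
    rcases eq_or_ne a 0 with rfl | ha
    · have h := congrFun (hg 0) 1
      simpa [Extn.coc, uElt_zero, rho_one] using h.symm
    · have := hsq a
      rw [hf0] at this
      exact (mul_eq_zero.1 this).resolve_left ((map_ne_zero τ).2 ha)
  have hgadd : ∀ a b, g (a + b) = g a + g b := fun a b => by
    have := hgp a b; rw [hf0, hp0] at this; linear_combination -this
  obtain ⟨ω, hω⟩ := exists_ringHom g hgadd (fun s hs => by
    obtain ⟨x, rfl⟩ := hT.surj s
    have hx : x ≠ 0 := fun e => hs (by rw [e, map_zero])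
    refine ⟨τ (mu θ (Units.mk0 x hx)) / σ (mu θ (Units.mk0 x hx)), fun a => ?_⟩
    rw [div_mul_eq_mul_div, eq_div_iff ((map_ne_zero σ).2 (mu_ne_zero _))]
    have := hgw (Units.mk0 x hx) a
    rw [Units.val_mk0] at this
    linear_combination this)
  suffices hc : g 1 = 0 by
    refine ⟨v, hv, fun a b => ?_⟩
    rw [uElt_split, rho_mul, E.rho_eq hv.1, hB, map_zero, add_zero, E.rho_eq hv.1, hg, hω, hc, hp0,
      zero_mul]
    rw [show (![0, 0, 0, 0] : Fin 4 → F) = 0 by funext i; fin_cases i <;> simp, map_zero, add_zero]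
  by_contra hc
  have hw : ∀ t : Fˣ, σ (mu θ t) * ω (θ t) = τ (mu θ t) := fun t => by
    have := hgw t 1
    rw [mul_one, hω] at this
    exact mul_right_cancel₀ hc (by linear_combination this)
  have hprod : ∀ x, τ x * (ω.comp θ) x = σ x * (ω.comp (frobenius F 2)) x := by
    intro x
    rcases eq_or_ne x 0 with rfl | hx
    · simp
    obtain ⟨t, rfl⟩ := exists_mu_eq hT hx
    rw [← hw, RingHom.comp_apply, RingHom.comp_apply, frobenius_def, mu, map_mul, map_mul, map_mul,
      hT.sq, map_pow, map_pow, map_mul]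
    ring
  obtain ⟨z, hz0, hz1⟩ := hT.big
  rcases cases_of_prod hprod with ⟨-, he⟩ | ⟨hτ, hσ⟩ | ⟨hτ, hσ⟩
  · exact theta_ne_sq hT fun x => by
      simpa [frobenius_def] using ω.injective (DFunLike.congr_fun he x)
  swap
  · -- the impossible solution
    obtain ⟨t, ht⟩ := exists_mu_eq hT hz0
    have h := hw t
    rw [hσ, hτ, RingHom.comp_apply, RingHom.comp_apply, frobenius_def, ← map_mul] at h
    have h' := ω.injective h
    rw [mu, map_mul, hT.sq] at h'
    have h2 : θ (t : F) ^ 2 = 1 := by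
      refine mul_left_cancel₀ (mul_ne_zero (pow_ne_zero 2 t.ne_zero) ((map_ne_zero θ).2 t.ne_zero)) ?_
      linear_combination h'
    have h3 := sq_eq_one h2
    rw [← map_one θ] at h3
    rw [mu, θ.injective h3, map_one, mul_one] at ht
    exact hz1 ht.symm
  -- the identity at a lift of the third vector
  have hστ : σ ≠ τ := fun e => theta_ne_sq hT fun x => by
    have := DFunLike.congr_fun (hσ.trans (e.trans hτ)) x
    simpa [frobenius_def] using ω.injective this
  have hστθ : σ ≠ τ.comp θ := fun e => hz1 (by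
    have := DFunLike.congr_fun (hσ.trans e) z
    simp only [hτ, RingHom.comp_apply, frobenius_def] at this
    have h2 := θ.injective (by rw [map_pow]; exact ω.injective this : θ z = θ (z ^ 2))
    exact mul_left_cancel₀ hz0 (by linear_combination -h2))
  have hωτ : ω ≠ τ := fun e => hz1 (by
    have := DFunLike.congr_fun (e.trans hτ) z
    simp only [RingHom.comp_apply, frobenius_def] at this
    exact mul_left_cancel₀ hz0 (by linear_combination -(ω.injective this)))
  have hωσθ : ω ≠ σ.comp θ := fun e => hz1 (by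
    have := DFunLike.congr_fun e z
    rw [← hσ] at this
    simp only [RingHom.comp_apply] at this
    have h2 := ω.injective this
    rw [hT.sq] at h2
    exact mul_left_cancel₀ hz0 (by linear_combination -h2))
  obtain ⟨v1, hv1⟩ := E.prj_surj e1
  obtain ⟨v2, hv2⟩ := E.prj_surj e2
  set d : F → Fin 4 → F := fun b => E.ret (ρ (uElt hT 0 b) v2 - v2 - σ b • v) with hd
  set D : F → Fin 4 → F := fun b => E.ret (ρ (uElt hT 0 b) v1 - v1) with hD
  set e : F → Fin 4 → F := fun a =>
    E.ret (ρ (uElt hT a 0) v2 - v2 - σ (θ a) • v1 - σ (a * θ a) • v) with he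
  have hdv : ∀ b, ρ (uElt hT 0 b) v2 = v2 + σ b • v + E.inc (d b) := fun b => by
    rw [hd, E.inc_ret ?_]
    · abel
    · rw [map_sub, map_sub, map_smul, E.prj_hom, hv2, hv.1, nat_uZ]
      funext i; fin_cases i <;> simp [e2, e0]
  have hDv : ∀ b, ρ (uElt hT 0 b) v1 = v1 + E.inc (D b) := fun b => by
    rw [hD, E.inc_ret ?_]
    · abel
    · rw [map_sub, E.prj_hom, hv1, nat_uZ]
      funext i; fin_cases i <;> simp [e1]
  have hev : ∀ a, ρ (uElt hT a 0) v2 = v2 + σ (θ a) • v1 + σ (a * θ a) • v + E.inc (e a) := fun a => by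
    rw [he, E.inc_ret ?_]
    · abel
    · rw [map_sub, map_sub, map_sub, map_smul, map_smul, E.prj_hom, hv2, hv1, hv.1, nat_uA]
      funext i; fin_cases i <;> simp [e2, e1, e0]
  have hid : ∀ a b, σ b * (g 1 * ω a) + (τ a * d b 1 + τ (a * θ a) * d b 2 + τ (a ^ 2 * θ a) * d b 3) =
      σ (θ a) * D b 0 + (τ b * e a 2 + τ (θ b) * e a 3) := by
    intro a b
    have h : ρ (uElt hT a 0) (ρ (uElt hT 0 b) v2) = ρ (uElt hT 0 b) (ρ (uElt hT a 0) v2) := by
      rw [← rho_mul, ← rho_mul, ← uElt_split, ← uElt_split']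
    rw [hdv, hev, map_add, map_add, map_add, map_add, map_add, map_smul, map_smul, map_smul,
      ← E.inc_hom, ← E.inc_hom, E.rho_eq hv.1 a 0, E.rho_eq hv.1 0 b, hB, map_zero, add_zero,
      hDv, hev, hdv] at h
    have h' : E.inc (e a + σ b • E.coc v (uElt hT a 0) + nat θ τ (uElt hT a 0) (d b)) =
        E.inc (d b + σ (θ a) • D b + nat θ τ (uElt hT 0 b) (e a)) := by
      refine add_left_cancel (a := v2 + σ (θ a) • v1 + σ (a * θ a) • v + σ b • v) ?_
      simp only [map_add, map_smul]
      refine Eq.trans ?_ (h.trans ?_)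
      · rw [smul_add]; abel
      · rw [smul_add]; abel
    have h0 := congrFun (E.inc_inj h') 0
    simp [hg, hω a, nat_uA, nat_uZ, Matrix.vecHead] at h0
    simp only [map_mul, map_pow]
    linear_combination h0
  obtain ⟨L, hL, hLk⟩ := Submodule.exists_dual_map_eq_bot_of_notMem
    (p := Submodule.span F {(fun b => τ b : F → F), (fun b => τ (θ b))}) (x := (fun b => σ b : F → F))
    (by
      intro h
      obtain ⟨a, c, hac⟩ := Submodule.mem_span_pair.1 h
      refine neg_ne_zero.2 (one_ne_zero (α := F)) (coeff_char_eq_zero ![chr σ, chr τ, chr (τ.comp θ)]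
        ![(-1 : F), a, c] (fun x => ?_) 0 ?_)
      · have := congrFun hac x
        simp [Fin.sum_univ_three] at this ⊢
        linear_combination this
      · intro j hj e
        fin_cases j
        · exact hj rfl
        · exact hστ (chr_injective e).symm
        · exact hστθ (chr_injective e).symm)
    inferInstance
  have hk1 : L (fun b => τ b) = 0 := by
    have := (Submodule.eq_bot_iff _).1 hLk _ (Submodule.mem_map_of_mem (Submodule.subset_span (Set.mem_insert _ _)))
    simpa using this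
  have hk2 : L (fun b => τ (θ b)) = 0 := by
    have := (Submodule.eq_bot_iff _).1 hLk _ (Submodule.mem_map_of_mem
      (Submodule.subset_span (Set.mem_insert_of_mem _ (Set.mem_singleton _))))
    simpa using this
  set K := L (fun b => σ b) with hK
  have hid' : ∀ a, g 1 * K * ω a + L (fun b => d b 1) * τ a + L (fun b => d b 2) * τ (a * θ a) +
      L (fun b => d b 3) * τ (a ^ 2 * θ a) - L (fun b => D b 0) * σ (θ a) = 0 := by
    intro a
    have hfun : (g 1 * ω a) • (fun b => σ b : F → F) + τ a • (fun b => d b 1) +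
        τ (a * θ a) • (fun b => d b 2) + τ (a ^ 2 * θ a) • (fun b => d b 3) =
        σ (θ a) • (fun b => D b 0) + e a 2 • (fun b => τ b : F → F) + e a 3 • (fun b => τ (θ b) : F → F) := by
      funext b
      simp only [Pi.add_apply, Pi.smul_apply, smul_eq_mul]
      linear_combination hid a b
    have h := congrArg L hfun
    simp only [map_add, map_smul, smul_eq_mul, hk1, hk2, ← hK] at h
    linear_combination h
  have hfin := coeff_char_eq_zero
    ![chr ω, chr τ, chr τ * chr (τ.comp θ), chr (τ.comp (frobenius F 2)) * chr (τ.comp θ), chr (σ.comp θ)]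
    ![g 1 * K, L (fun b => d b 1), L (fun b => d b 2), L (fun b => d b 3), -L (fun b => D b 0)]
    (fun a => by
      have := hid' a
      simp [Fin.sum_univ_five, frobenius_def, map_mul, map_pow] at this ⊢
      linear_combination this) 0 (by
      intro j hj e
      fin_cases j
      · exact hj rfl
      · exact hωτ (chr_injective e).symm
      · have he : ∀ x, τ x * (τ.comp θ) x = ω x := fun x => DFunLike.congr_fun e x
        exact theta_ne_id hT (RingHom.ext fun x => τ.injective (DFunLike.congr_fun (eq_of_prod_eq he) x).symm)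
      · have he : ∀ x, (τ.comp (frobenius F 2)) x * (τ.comp θ) x = ω x := fun x => DFunLike.congr_fun e x
        exact theta_ne_sq hT fun x => by
          simpa [frobenius_def] using τ.injective (DFunLike.congr_fun (eq_of_prod_eq he) x).symm
      · exact hωσθ (chr_injective e).symm)
  exact hc ((mul_eq_zero.1 hfin).resolve_right hL)

end CfsgLib.CNModules
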