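import Cfsg.Agent.CNModules.SzExt

/-!
A module of a Suzuki group with fixed-point-free elements of odd order is generated by, and separated
by, twists of the natural module.
-/

set_option autoImplicit false

open scoped Matrix

namespace CfsgLib.CNModules

open CfsgLib.Suzuki

universe v

variable {F : Type*} [Field F] [CharP F 2] [Finite F] {θ : F →+* F}
variable {M : Type v} [AddCommGroup M] [Module F M] {ρ : grp θ →* Module.End F M}
variable {hT : TitsEndo θ} {σ τ : F →+* F}

/-- The form as a functional in the second argument. -/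
def bilL (x : Fin 4 → F) : Module.Dual F (Fin 4 → F) := ∑ i, x i • LinearMap.proj i.rev

omit [CharP F 2] [Finite F] in
theorem bilL_apply (x y : Fin 4 → F) : bilL x y = bil x y := by
  simp [bilL, bil, LinearMap.sum_apply]

omit [CharP F 2] [Finite F] in
theorem eq_of_bil {x x' : Fin 4 → F} (h : ∀ y, bil x y = bil x' y) : x = x' := funext fun i => by
  have := h (Pi.single i.rev 1)
  rwa [bil_single, bil_single] at this

omit [CharP F 2] [Finite F] in
theorem bilL_coords (Φ : Module.Dual F (Fin 4 → F)) : bilL (fun i => Φ (Pi.single i.rev 1)) = Φ := by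
  refine (Pi.basisFun F (Fin 4)).ext fun j => ?_
  rw [Pi.basisFun_apply, bilL_apply]
  fin_cases j <;> simp [bil, Fin.sum_univ_four]

theorem bil_inv (hT : TitsEndo θ) (σ : F →+* F) (g : grp θ) (x y : Fin 4 → F) :
    bil x (nat θ σ g⁻¹ y) = bil (nat θ σ g x) y := by
  conv_rhs => rw [← rho_one (nat θ σ) y, ← mul_inv_cancel g, rho_mul, bil_nat σ hT]

/-- The extension dual to a given one. -/
noncomputable def Extn.dual (E : Extn hT ρ σ τ) : Extn hT (dualRep ρ) τ σ :=
  let inc' : (Fin 4 → F) →ₗ[F] Module.Dual F M :=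
    { toFun := fun x => (bilL x).comp E.prj
      map_add' := fun x y => LinearMap.ext fun m => by simp [bilL_apply, bil, add_mul, Finset.sum_add_distrib]
      map_smul' := fun c x => LinearMap.ext fun m => by simp [bilL_apply, bil, Finset.mul_sum, mul_assoc] }
  have hinj : LinearMap.ker inc' = ⊥ := LinearMap.ker_eq_bot'.2 fun x hx => eq_of_bil fun y => by
    obtain ⟨m, rfl⟩ := E.prj_surj y
    rw [← bilL_apply, ← bilL_apply]
    have := LinearMap.congr_fun hx m
    simp only [inc', LinearMap.coe_mk, AddHom.coe_mk, LinearMap.comp_apply, LinearMap.zero_apply] at this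
    rw [this, bilL_apply]; simp [bil]
  { inc := inc'
    prj :=
      { toFun := fun Φ i => Φ (E.inc (Pi.single i.rev 1))
        map_add' := fun _ _ => rfl
        map_smul' := fun _ _ => rfl }
    ret := (LinearMap.exists_leftInverse_of_injective inc' hinj).choose
    inc_hom := fun g x => LinearMap.ext fun m => by
      show bilL (nat θ σ g x) (E.prj m) = dualRep ρ g ((bilL x).comp E.prj) m
      rw [dualRep_apply, LinearMap.comp_apply, E.prj_hom, bilL_apply, bilL_apply, bil_inv hT]
    prj_hom := fun g Φ => by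
      refine eq_of_bil fun y => ?_
      have hy : ∀ (Ψ : Module.Dual F M) (z : Fin 4 → F), bil (fun i => Ψ (E.inc (Pi.single i.rev 1))) z =
          Ψ (E.inc z) := fun Ψ z => by
        rw [← bilL_apply]; exact LinearMap.congr_fun (bilL_coords (Ψ.comp E.inc)) z
      show bil (fun i => dualRep ρ g Φ (E.inc (Pi.single i.rev 1))) y = _
      rw [hy, dualRep_apply, ← E.inc_hom, ← hy Φ, bil_inv hT]
      rfl
    prj_surj := fun x => ⟨(bilL x).comp E.ret, funext fun i => by
      show bilL x (E.ret (E.inc (Pi.single i.rev 1))) = x i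
      rw [E.ret_inc, bilL_apply, bil_single]⟩
    exact' := fun Φ => by
      obtain ⟨s, hs⟩ := E.prj.exists_rightInverse_of_surjective (LinearMap.range_eq_top.2 E.prj_surj)
      constructor
      · intro h
        refine ⟨fun i => Φ (s (Pi.single i.rev 1)), LinearMap.ext fun m => ?_⟩
        show bilL (fun i => (Φ.comp s) (Pi.single i.rev 1)) (E.prj m) = Φ m
        rw [bilL_coords, LinearMap.comp_apply]
        have h0 : E.prj (m - s (E.prj m)) = 0 := by
          rw [map_sub, ← LinearMap.comp_apply E.prj s, hs, LinearMap.id_apply, sub_self]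
        obtain ⟨y, hy⟩ := (E.exact' _).1 h0
        have hz : Φ (E.inc y) = 0 := by
          have e := LinearMap.congr_fun (bilL_coords (Φ.comp E.inc)) y
          rw [LinearMap.comp_apply] at e
          rw [← e, bilL_apply]
          simp only [bil, LinearMap.comp_apply]
          refine Finset.sum_eq_zero fun i _ => ?_
          rw [show Φ (E.inc (Pi.single i.rev 1)) = 0 from congrFun h i, zero_mul]
        rw [hy, map_sub, sub_eq_zero] at hz
        exact hz.symm
      · rintro ⟨x, rfl⟩
        funext i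
        show bilL x (E.prj (E.inc (Pi.single i.rev 1))) = 0
        rw [E.prj_inc, map_zero]
    ret_inc := fun x => LinearMap.congr_fun
      (LinearMap.exists_leftInverse_of_injective inc' hinj).choose_spec x }

/-- Two-step extensions split. -/
theorem Extn.exists_section (E : Extn hT ρ σ τ) (hρ : Fpf5 hT ρ) :
    ∃ s : (Fin 4 → F) →ₗ[F] M, IsHom (nat θ σ) ρ s ∧ ∀ x, E.prj (s x) = x := by
  obtain ⟨v, ⟨hv, hvw⟩, hvf⟩ := E.exists_fixed_lift
  obtain ⟨Φ, ⟨hΦ, -⟩, hΦf⟩ := E.dual.exists_fixed_lift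
  have hΦi : ∀ a b m, Φ (ρ (uElt hT a b) m) = Φ m := fun a b m => by
    have := LinearMap.congr_fun (hΦf a b) (ρ (uElt hT a b) m)
    rw [dualRep_apply, rho_inv] at this
    exact this.symm
  have hΦ3 : Φ (E.inc e3) = 1 := by
    have := congrFun hΦ 0
    rw [show (e0 : Fin 4 → F) 0 = 1 from rfl] at this
    rw [← this]
    show Φ (E.inc e3) = Φ (E.inc (Pi.single (0 : Fin 4).rev 1))
    congr 2
    funext i; fin_cases i <;> simp [e3]
  set Ψ : M →ₗ[F] F := Φ - Φ (ρ (wElt hT) v) • (LinearMap.proj (3 : Fin 4)).comp E.prj with hΨ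
  have hΨapp : ∀ m, Ψ m = Φ m - Φ (ρ (wElt hT) v) * E.prj m 3 := fun m => rfl
  set K := orbSpan (prodRep (nat θ σ) ρ) ((e0 : Fin 4 → F), v)
  have hsub : ∀ p ∈ K, E.prj p.2 = p.1 := by
    intro p hp
    have hle : K ≤ LinearMap.ker (E.prj.comp (LinearMap.snd F (Fin 4 → F) M) - LinearMap.fst F (Fin 4 → F) M) := by
      refine Submodule.span_le.2 ?_
      rintro _ ⟨g, rfl⟩
      show E.prj (ρ g v) - nat θ σ g e0 = 0
      rw [E.prj_hom, hv, sub_self]
    exact sub_eq_zero.1 (hle hp)
  have hkill : ∀ p ∈ K, Ψ p.2 = 0 := by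
    intro p hp
    refine (Submodule.span_le (p := LinearMap.ker (Ψ.comp (LinearMap.snd F (Fin 4 → F) M)))).2 ?_ hp
    rintro _ ⟨g, rfl⟩
    refine kill hvf hvw Ψ (fun a b m => ?_) ?_ ?_ g
    · rw [hΨapp, hΨapp, hΦi, E.prj_hom, nat_row_three]
    · rw [hΨapp, functional_fixed_eq_zero hρ Φ hΦi hvf, hv]; simp [e0]
    · rw [hΨapp, E.prj_hom, hv, nat_w_e0]; simp [e3]
  obtain ⟨s, hs, hs0⟩ := exists_hom (ρ := nat θ σ) (ρ' := ρ) (nat_span hT σ) (v := (e0 : Fin 4 → F)) (x := v)
    fun m hm => by
      by_contra hm0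
      obtain ⟨y, rfl⟩ := (E.exact' m).1 (hsub _ hm)
      set W : Submodule F (Fin 4 → F) :=
        K.comap ((LinearMap.inr F (Fin 4 → F) M).comp E.inc)
      have hW : Invariant (nat θ τ) W := fun g z hz => by
        have h := invariant_orbSpan (prodRep (nat θ σ) ρ) ((e0 : Fin 4 → F), v) g _ hz
        show ((0, E.inc (nat θ τ g z)) : (Fin 4 → F) × M) ∈ K
        rw [E.inc_hom]
        have e : prodRep (nat θ σ) ρ g ((0, E.inc z) : (Fin 4 → F) × M) = (0, ρ g (E.inc z)) := by
          show (nat θ σ g 0, ρ g (E.inc z)) = _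
          rw [map_zero]
        exact e ▸ h
      have he0 := nat_fib hT τ W hW (fun e => hm0 (by
        rw [(Submodule.eq_bot_iff _).1 e y hm, map_zero]))
      have h3 := hW (wElt hT) _ he0
      rw [nat_w_e0] at h3
      have := hkill _ h3
      change Ψ (E.inc e3) = 0 at this
      rw [hΨapp, hΦ3, E.prj_inc, Pi.zero_apply, mul_zero, sub_zero] at this
      exact one_ne_zero this
  refine ⟨s, hs, fun x => ?_⟩
  have hle : orbSpan (nat θ σ) (e0 : Fin 4 → F) ≤ LinearMap.ker (E.prj.comp s - LinearMap.id) := by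
    refine Submodule.span_le.2 ?_
    rintro _ ⟨g, rfl⟩
    show E.prj (s (nat θ σ g e0)) - nat θ σ g e0 = 0
    rw [hs, hs0, E.prj_hom, hv, sub_self]
  exact sub_eq_zero.1 (hle ((nat_span hT σ).symm ▸ Submodule.mem_top))

/-- The restriction of an action to an invariant subspace. -/
def subRep {G : Type*} [Group G] (ρ : G →* Module.End F M) (W : Submodule F M) (hW : Invariant ρ W) :
    G →* Module.End F W where
  toFun g := (ρ g).restrict (hW g)
  map_one' := LinearMap.ext fun x => Subtype.ext (rho_one ρ (x : M))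
  map_mul' g h := LinearMap.ext fun x => Subtype.ext (rho_mul ρ g h (x : M))

/-- The action on the quotient by an invariant subspace. -/
def quotRep {G : Type*} [Group G] (ρ : G →* Module.End F M) (W : Submodule F M) (hW : Invariant ρ W) :
    G →* Module.End F (M ⧸ W) where
  toFun g := W.mapQ W (ρ g) (hW g)
  map_one' := Submodule.linearMap_qext _ (LinearMap.ext fun x => by
    simp [rho_one])
  map_mul' g h := Submodule.linearMap_qext _ (LinearMap.ext fun x => by
    simp [rho_mul])

theorem Fpf.sub {G : Type*} [Group G] {ρ : G →* Module.End F M} (h : Fpf ρ) (W : Submodule F M)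
    (hW : Invariant ρ W) : Fpf (subRep ρ W hW) := fun g hg hg1 x hx =>
  Subtype.ext (h g hg hg1 x (congrArg Subtype.val hx))

theorem Fpf.prod {G : Type*} [Group G] {ρ : G →* Module.End F M} {N : Type*} [AddCommGroup N] [Module F N]
    {ρ' : G →* Module.End F N} (h : Fpf ρ) (h' : Fpf ρ') : Fpf (prodRep ρ ρ') := fun g hg hg1 x hx =>
  Prod.ext (h g hg hg1 _ (congrArg Prod.fst hx)) (h' g hg hg1 _ (congrArg Prod.snd hx))

theorem Fpf.quot {G : Type*} [Group G] {ρ : G →* Module.End F M} (h : Fpf ρ) (W : Submodule F M)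
    (hW : Invariant ρ W) : Fpf (quotRep ρ W hW) := by
  intro g hg hg1 x hx
  obtain ⟨m, rfl⟩ := Submodule.mkQ_surjective W x
  set n := orderOf g with hn
  have hs : (∑ k ∈ Finset.range n, ρ (g ^ k) m) = 0 := by
    refine h g hg hg1 _ ?_
    rw [map_sum]
    have e : ∀ k, ρ g (ρ (g ^ k) m) = ρ (g ^ (k + 1)) m := fun k => by rw [← rho_mul, pow_succ']
    simp only [e]
    have h1 := Finset.sum_range_succ (fun k => ρ (g ^ k) m) n
    rw [Finset.sum_range_succ', pow_zero, hn, pow_orderOf_eq_one] at h1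
    exact add_right_cancel h1
  have hpow : ∀ k : ℕ, W.mkQ (ρ (g ^ k) m) = W.mkQ m := by
    intro k
    induction k with
    | zero => rw [pow_zero, rho_one]
    | succ k ih =>
      have e : quotRep ρ W hW g (W.mkQ (ρ (g ^ k) m)) = W.mkQ (ρ g (ρ (g ^ k) m)) := rfl
      rw [pow_succ', rho_mul, ← e, ih, hx]
  have h2 := congrArg W.mkQ hs
  rw [map_sum, map_zero, Finset.sum_congr rfl (fun k _ => hpow k), Finset.sum_const, Finset.card_range,
    ← Nat.cast_smul_eq_nsmul F] at h2
  obtain ⟨j, hj⟩ := hg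
  rwa [show ((n : ℕ) : F) = 1 by rw [hj]; push_cast; rw [CharTwo.two_eq_zero]; ring, one_smul] at h2

/-- Generated by twists of the natural module. -/
def IsGen (ρ : grp θ →* Module.End F M) : Prop :=
  ∀ W : Submodule F M,
    (∀ (σ : F →+* F) (f : (Fin 4 → F) →ₗ[F] M), IsHom (nat θ σ) ρ f → LinearMap.range f ≤ W) → W = ⊤

theorem isGen_aux (hT : TitsEndo θ) : ∀ (n : ℕ) (M : Type v) [AddCommGroup M] [Module F M] [Finite M]
    (ρ : grp θ →* Module.End F M), Nat.card M = n → Fpf ρ → IsGen ρ := by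
  intro n
  induction n using Nat.strong_induction_on with
  | _ n ih =>
  intro M _ _ _ ρ hn hρ W hW
  classical
  by_cases hM : Subsingleton M
  · exact eq_top_iff.2 fun x _ => by rw [Subsingleton.elim x 0]; exact zero_mem _
  haveI : Nontrivial M := not_subsingleton_iff_nontrivial.1 hM
  obtain ⟨U, ⟨hU, hU0⟩, hUmin⟩ := Set.exists_min_image
    {U : Submodule F M | Invariant ρ U ∧ U ≠ ⊥} (fun U => Nat.card U) (Set.toFinite _)
    ⟨⊤, fun _ _ _ => Submodule.mem_top, top_ne_bot⟩
  haveI : Nontrivial U := Submodule.nontrivial_iff_ne_bot.2 hU0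
  have hsimple : ∀ X : Submodule F U, Invariant (subRep ρ U hU) X → X ≠ ⊥ → X = ⊤ := by
    intro X hX hX0
    have hmapinv : Invariant ρ (X.map U.subtype) := by
      rintro g _ ⟨x, hx, rfl⟩
      exact ⟨_, hX g x hx, rfl⟩
    have h1 := hUmin _ ⟨hmapinv, fun e => hX0 (Submodule.map_injective_of_injective U.subtype_injective
      (e.trans (Submodule.map_bot _).symm))⟩
    refine Submodule.toAddSubgroup_injective (AddSubgroup.eq_top_of_card_eq _ (le_antisymm
      (Nat.card_le_card_of_injective _ Subtype.val_injective) (h1.trans_eq ?_)))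
    exact Nat.card_congr (X.equivMapOfInjective U.subtype Subtype.val_injective).symm.toEquiv
  obtain ⟨τ, f₀, hf₀, hf₀i, hf₀r⟩ := exists_nat_hom hT (hρ.sub U hU) hsimple
  set inc := U.subtype.comp f₀
  have hinc : IsHom (nat θ τ) ρ inc := fun g x => congrArg Subtype.val (hf₀ g x)
  have hUW : U ≤ W := by
    intro u hu
    obtain ⟨y, hy⟩ := LinearMap.range_eq_top.1 hf₀r ⟨u, hu⟩
    exact hW τ inc hinc ⟨y, congrArg Subtype.val hy⟩
  have hlt : Nat.card (M ⧸ U) < n := by
    rw [← hn, Submodule.card_eq_card_quotient_mul_card U]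
    have h1 : 1 < Nat.card U := Finite.one_lt_card_iff_nontrivial.2 inferInstance
    haveI : Finite (M ⧸ U) := Finite.of_surjective _ U.mkQ_surjective
    have h2 : 0 < Nat.card (M ⧸ U) := Nat.card_pos
    nlinarith
  haveI : Finite (M ⧸ U) := Finite.of_surjective _ U.mkQ_surjective
  have hq : W.map U.mkQ = ⊤ := by
    refine ih _ hlt (M ⧸ U) (quotRep ρ U hU) rfl (hρ.quot U hU) _ fun σ f hf => ?_
    set P : Submodule F ((Fin 4 → F) × M) :=
      LinearMap.ker (U.mkQ.comp (LinearMap.snd F (Fin 4 → F) M) - f.comp (LinearMap.fst F (Fin 4 → F) M))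
    have hmem : ∀ p : (Fin 4 → F) × M, p ∈ P ↔ U.mkQ p.2 = f p.1 := fun p => by
      rw [LinearMap.mem_ker, LinearMap.sub_apply, sub_eq_zero]; rfl
    have hPinv : Invariant (prodRep (nat θ σ) ρ) P := by
      intro g p hp
      rw [hmem] at hp ⊢
      show U.mkQ (ρ g p.2) = f (nat θ σ g p.1)
      rw [hf, ← hp]
      rfl
    have hnat : ∀ x : Fin 4 → F, ((0, inc x) : (Fin 4 → F) × M) ∈ P := fun x => by
      rw [hmem, map_zero]
      exact (Submodule.Quotient.mk_eq_zero U).2 (f₀ x).2
    obtain ⟨r, hr⟩ := inc.exists_leftInverse_of_injective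
      (LinearMap.ker_eq_bot.2 (Subtype.val_injective.comp hf₀i))
    let E : Extn hT (subRep (prodRep (nat θ σ) ρ) P hPinv) σ τ :=
      { inc := ((LinearMap.inr F (Fin 4 → F) M).comp inc).codRestrict P hnat
        prj := (LinearMap.fst F (Fin 4 → F) M).comp P.subtype
        ret := r.comp ((LinearMap.snd F (Fin 4 → F) M).comp P.subtype)
        inc_hom := fun g x => Subtype.ext (Prod.ext (map_zero (nat θ σ g)).symm (hinc g x))
        prj_hom := fun g x => rfl
        prj_surj := fun x => by
          obtain ⟨m, hm⟩ := U.mkQ_surjective (f x)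
          exact ⟨⟨(x, m), (hmem _).2 hm⟩, rfl⟩
        exact' := fun p => by
          constructor
          · intro h
            have h1 := (hmem p.1).1 p.2
            rw [show (p : (Fin 4 → F) × M).1 = 0 from h, map_zero, Submodule.mkQ_apply,
              Submodule.Quotient.mk_eq_zero] at h1
            obtain ⟨y, hy⟩ := LinearMap.range_eq_top.1 hf₀r ⟨_, h1⟩
            exact ⟨y, Subtype.ext (Prod.ext h.symm (congrArg Subtype.val hy))⟩
          · rintro ⟨x, rfl⟩
            rfl
        ret_inc := fun x => LinearMap.congr_fun hr x }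
    obtain ⟨s, hs, hsec⟩ := E.exists_section fun p hp => Subtype.ext (Prod.ext
      (nat_five hT σ _ (congrArg Prod.fst (congrArg Subtype.val hp)))
      (hρ.five hT _ (congrArg Prod.snd (congrArg Subtype.val hp))))
    rintro _ ⟨x, rfl⟩
    refine ⟨((s x : P) : (Fin 4 → F) × M).2, hW σ ((LinearMap.snd F (Fin 4 → F) M).comp
      (P.subtype.comp s)) (fun g y => by
        show ((s (nat θ σ g y) : P) : (Fin 4 → F) × M).2 = ρ g _
        rw [hs]; rfl) ⟨x, rfl⟩, ?_⟩
    rw [(hmem _).1 (s x).2]
    congr 1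
    exact hsec x
  refine eq_top_iff.2 fun m _ => ?_
  obtain ⟨w, hw, hwm⟩ := (hq ▸ Submodule.mem_top : U.mkQ m ∈ W.map U.mkQ)
  have : m - w ∈ U := (Submodule.Quotient.eq U).1 hwm.symm
  simpa using W.add_mem (hUW this) hw

theorem isGen [Finite M] (hT : TitsEndo θ) (hρ : Fpf ρ) : IsGen ρ := isGen_aux hT _ M ρ rfl hρ

/-- Homomorphisms to twists of the natural module separate the points. -/
theorem exists_separating [Finite M] (hT : TitsEndo θ) (hρ : Fpf ρ) {m : M} (hm : m ≠ 0) :
    ∃ (σ : F →+* F) (p : M →ₗ[F] (Fin 4 → F)), IsHom ρ (nat θ σ) p ∧ p m ≠ 0 := by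
  haveI : Module.Finite F M := Module.Finite.of_finite
  haveI : Finite (Module.Dual F M) := Module.finite_of_finite F
  by_contra hcon
  push Not at hcon
  refine hm ((Module.forall_dual_apply_eq_zero_iff F m).1 fun Φ => ?_)
  have htop := isGen hT hρ.dual (LinearMap.ker (Module.Dual.eval F M m)) fun σ h hh => ?_
  · exact (htop ▸ Submodule.mem_top : Φ ∈ LinearMap.ker (Module.Dual.eval F M m))
  rintro _ ⟨x, rfl⟩
  show h x m = 0
  let p : M →ₗ[F] (Fin 4 → F) := LinearMap.pi fun i => h (Pi.single i.rev 1)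
  have hp : ∀ m' y, bil (p m') y = h y m' := fun m' y => by
    rw [← bilL_apply]
    exact LinearMap.congr_fun (bilL_coords ((Module.Dual.eval F M m').comp h)) y
  rw [← hp, hcon σ p fun g m' => eq_of_bil fun y => by
    rw [hp, ← bil_inv hT, hp, hh, dualRep_apply, inv_inv]]
  simp [bil]

end CfsgLib.CNModules
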