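import Cfsg.Agent.CNModules.Characters
import Cfsg.Agent.Suzuki.TISubgroups
import Cfsg.Agent.Suzuki.Partition

/-!
The natural module of a Suzuki group twisted by an endomorphism of the field, and tensor products of such.
-/

set_option autoImplicit false

open scoped Matrix

namespace CfsgLib.CNModules

open CfsgLib.Suzuki

variable {F : Type*} [Field F] [CharP F 2] [Finite F] {θ : F →+* F}

/-- `t θ t`, the weight of the first coordinate. -/
def mu (θ : F →+* F) (t : Fˣ) : F := (t : F) * θ t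

theorem mu_mul (s t : Fˣ) : mu θ (s * t) = mu θ s * mu θ t := by
  simp [mu, mul_mul_mul_comm]

theorem mu_ne_zero (t : Fˣ) : mu θ t ≠ 0 := mul_ne_zero t.ne_zero ((map_ne_zero θ).2 t.ne_zero)

theorem mu_eq_one (hT : TitsEndo θ) {t : Fˣ} (h : mu θ t = 1) : t = 1 := by
  have h1 : (t : F) * θ t = 1 := h
  have h2 := congrArg θ h1
  rw [map_mul, hT.sq, map_one] at h2
  exact Units.ext (by rw [Units.val_one]; linear_combination h2 - (t : F) * h1)

theorem mu_injective (hT : TitsEndo θ) : Function.Injective (mu θ) := fun s t h => by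
  have h1 : mu θ (s * t⁻¹) * mu θ t = 1 * mu θ t := by rw [← mu_mul, inv_mul_cancel_right, h, one_mul]
  exact mul_inv_eq_one.1 (mu_eq_one hT (mul_right_cancel₀ (mu_ne_zero t) h1))

theorem exists_mu_eq (hT : TitsEndo θ) {x : F} (hx : x ≠ 0) : ∃ t : Fˣ, mu θ t = x := by
  obtain ⟨t, ht⟩ := theta_mul_self_surjective hT x
  have ht' : θ t * t = x := ht
  have ht0 : t ≠ 0 := fun e => hx (by rw [← ht', e, mul_zero])
  exact ⟨Units.mk0 t ht0, by rw [mu, Units.val_mk0, mul_comm, ht']⟩

theorem theta_ne_id (hT : TitsEndo θ) : θ ≠ RingHom.id F := by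
  intro e
  obtain ⟨z, hz0, hz1⟩ := hT.big
  have h := hT.sq z
  rw [e, RingHom.id_apply, RingHom.id_apply] at h
  exact hz1 (mul_left_cancel₀ hz0 (by linear_combination -h))

theorem theta_ne_sq (hT : TitsEndo θ) : ¬ ∀ x, θ x = x ^ 2 := by
  intro e
  obtain ⟨z, hz0, hz1⟩ := hT.big
  have h := hT.sq z
  rw [e, e] at h
  exact hz1 (sq_eq_one (mul_left_cancel₀ (pow_ne_zero 2 hz0) (by linear_combination h)))

/-- The field has no element of order three. -/
theorem pow_three_eq_one (hT : TitsEndo θ) {z : F} (h : z ^ 3 = 1) : z = 1 := by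
  have h4 : z ^ 4 = z := by rw [pow_succ, h, one_mul]
  have e4 : θ (θ (θ (θ z))) = z := by
    rw [hT.sq, hT.sq, ← pow_mul]; exact h4
  have hz3 : θ z ^ 3 = 1 := by rw [← map_pow, h, map_one]
  by_contra hne
  have hroots : ∀ y : F, y ^ 3 = 1 → y = 1 ∨ y = z ∨ y = z ^ 2 := by
    intro y hy
    have hs : z ^ 2 + z + 1 = 0 := by
      refine (mul_eq_zero.1 (show (z - 1) * (z ^ 2 + z + 1) = 0 by linear_combination h)).resolve_left
        (sub_ne_zero.2 hne)
    have : (y - 1) * ((y - z) * (y - z ^ 2)) = 0 := by linear_combination hy + (y - y ^ 2) * hs + (y - 1) * h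
    simpa [sub_eq_zero] using this
  have hsq : θ (θ z) = z ^ 2 := hT.sq z
  rcases hroots _ hz3 with e | e | e
  · exact hne (θ.injective (by rw [e, map_one]))
  · rw [e, e] at hsq
    exact hne (mul_left_cancel₀ (show z ≠ 0 from fun e0 => by rw [e0] at h; simp at h) (by linear_combination -hsq))
  · rw [e, map_pow, e, ← pow_mul] at hsq
    rw [show (2 : ℕ) * 2 = 4 from rfl, h4] at hsq
    exact hne (mul_left_cancel₀ (show z ≠ 0 from fun e0 => by rw [e0] at h; simp at h) (by linear_combination -hsq))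

/-- The natural representation twisted by `σ`. -/
def nat (θ : F →+* F) (σ : F →+* F) : grp θ →* Module.End F (Fin 4 → F) where
  toFun g := Matrix.toLin' (((g : Matrix.SpecialLinearGroup (Fin 4) F) : Matrix (Fin 4) (Fin 4) F).map σ)
  map_one' := by
    rw [Subgroup.coe_one, Matrix.SpecialLinearGroup.coe_one, Matrix.map_one σ (map_zero σ) (map_one σ),
      Matrix.toLin'_one]
    rfl
  map_mul' g h := by
    rw [Subgroup.coe_mul, Matrix.SpecialLinearGroup.coe_mul, Matrix.map_mul, Matrix.toLin'_mul]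
    rfl

theorem nat_apply (σ : F →+* F) (g : grp θ) (x : Fin 4 → F) (i : Fin 4) :
    nat θ σ g x i = ∑ j, σ ((g : Matrix.SpecialLinearGroup (Fin 4) F) i j) * x j := rfl

variable (σ : F →+* F) (hT : TitsEndo θ)

theorem nat_uA (a : F) (x : Fin 4 → F) : nat θ σ (uElt hT a 0) x =
    ![x 0 + σ a * x 1 + σ (a * θ a) * x 2 + σ (a ^ 2 * θ a) * x 3, x 1 + σ (θ a) * x 2,
      x 2 + σ a * x 3, x 3] := by
  funext i
  fin_cases i <;> simp [nat_apply, uElt, uMat_coe, Fin.sum_univ_four, ovF]

theorem nat_uZ (b : F) (x : Fin 4 → F) : nat θ σ (uElt hT 0 b) x =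
    ![x 0 + σ b * x 2 + σ (θ b) * x 3, x 1 + σ b * x 3, x 2, x 3] := by
  funext i
  fin_cases i <;> simp [nat_apply, uElt, uMat_coe, Fin.sum_univ_four, ovF]

theorem nat_w (x : Fin 4 → F) : nat θ σ (wElt hT) x = ![x 3, x 2, x 1, x 0] := by
  funext i
  fin_cases i <;> simp [nat_apply, wElt, wMat_coe, Fin.sum_univ_four]

theorem nat_t (t : Fˣ) (x : Fin 4 → F) : nat θ σ (tElt hT t) x =
    ![σ (mu θ t) * x 0, σ (t : F) * x 1, (σ (t : F))⁻¹ * x 2, (σ (mu θ t))⁻¹ * x 3] := by
  funext i
  fin_cases i <;> simp [nat_apply, tElt, tMat_coe, Fin.sum_univ_four, mu, map_inv₀]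

/-- The first basis vector. -/
def e0 : Fin 4 → F := ![1, 0, 0, 0]

/-- The last basis vector. -/
def e3 : Fin 4 → F := ![0, 0, 0, 1]

omit [CharP F 2] [Finite F] in
theorem e0_eq : (e0 : Fin 4 → F) = Pi.single 0 1 := by
  funext i; fin_cases i <;> simp [e0]

theorem uElt_split (a b : F) : uElt hT a b = uElt hT a 0 * uElt hT 0 b := by
  rw [uElt_mul]; congr 1 <;> simp

theorem uElt_split' (a b : F) : uElt hT a b = uElt hT 0 b * uElt hT a 0 := by
  rw [uElt_mul]; congr 1 <;> simp

/-- Any subspace invariant under the translations and containing the last basis vector is everything. -/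
theorem eq_top_of_e3 (W : Submodule F (Fin 4 → F)) (hW : ∀ a b, ∀ x ∈ W, nat θ σ (uElt hT a b) x ∈ W)
    (h3 : e3 ∈ W) : W = ⊤ := by
  have hu : ∀ a b, nat θ σ (uElt hT a 0) (nat θ σ (uElt hT 0 b) e3) ∈ W := fun a b =>
    hW a 0 _ (hW 0 b _ h3)
  have h10 := hu 1 0
  have h01 := hu 0 1
  have h11 := hu 1 1
  simp [nat_uA, nat_uZ, e3, map_zero, CharTwo.add_self_eq_zero] at h10 h01 h11
  have h0 : (e0 : Fin 4 → F) ∈ W := by
    have := W.add_mem (W.add_mem (W.add_mem h3 h10) h01) h11
    convert this using 1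
    funext i
    fin_cases i <;> simp [e0, e3] <;> grind [CharTwo.two_eq_zero]
  refine eq_top_iff.2 fun x _ => ?_
  have key : x = (x 0 + x 1 + x 2) • e0 + (x 1) • ![1, 1, 0, 1] + (x 2) • ![1, 0, 1, 1] +
      (x 1 + x 2 + x 3) • e3 := by
    funext i
    fin_cases i <;> simp [e0, e3] <;> grind [CharTwo.two_eq_zero]
  rw [key]
  exact W.add_mem (W.add_mem (W.add_mem (W.smul_mem _ h0) (W.smul_mem _ h01)) (W.smul_mem _ h10))
    (W.smul_mem _ h3)

/-- The invariant form. -/
def bil (x y : Fin 4 → F) : F := ∑ i, x i * y i.rev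

omit [CharP F 2] [Finite F] in
theorem bil_single (x : Fin 4 → F) (i : Fin 4) : bil x (Pi.single i.rev 1) = x i := by
  fin_cases i <;> simp [bil, Fin.sum_univ_four]

theorem bil_nat (hT : TitsEndo θ) (g : grp θ) (x y : Fin 4 → F) :
    bil (nat θ σ g x) (nat θ σ g y) = bil x y := by
  set M : Matrix (Fin 4) (Fin 4) F :=
    ((g : Matrix.SpecialLinearGroup (Fin 4) F) : Matrix (Fin 4) (Fin 4) F).map σ with hM
  have h1 : Mᵀ * form4 F * M = form4 F := by
    have h0 : ((g : Matrix.SpecialLinearGroup (Fin 4) F) : Matrix (Fin 4) (Fin 4) F)ᵀ * form4 F *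
        ((g : Matrix.SpecialLinearGroup (Fin 4) F) : Matrix (Fin 4) (Fin 4) F) = form4 F :=
      grp_le_formGrp hT g.2
    have hJ : (form4 F).map σ = form4 F := by
      ext i j; fin_cases i <;> fin_cases j <;> simp [form4]
    have := congrArg (fun A => A.map σ) h0
    simp only [Matrix.map_mul, ← Matrix.transpose_map, hJ] at this
    exact this
  have hb : ∀ x y : Fin 4 → F, bil x y = x ⬝ᵥ (form4 F *ᵥ y) := by
    intro x y
    simp [bil, dotProduct, Matrix.mulVec, form4, Fin.sum_univ_four]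
  rw [hb, hb]
  show (M *ᵥ x) ⬝ᵥ (form4 F *ᵥ (M *ᵥ y)) = _
  conv_rhs => rw [← h1]
  simp only [Matrix.dotProduct_mulVec, Matrix.vecMul_mulVec, Matrix.vecMul_vecMul, Matrix.mul_assoc]

/-- The fixed space of the translations is the first axis. -/
theorem nat_fix {x : Fin 4 → F} (hA : ∀ a, nat θ σ (uElt hT a 0) x = x)
    (hZ : ∀ b, nat θ σ (uElt hT 0 b) x = x) : x = x 0 • e0 := by
  have h1 := congrFun (hZ 1) 1
  have h0 := congrFun (hZ 1) 0
  have h2 := congrFun (hA 1) 0
  simp [nat_uA, nat_uZ] at h0 h1 h2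
  simp [h1] at h0 h2
  simp [h0] at h2
  funext i
  fin_cases i <;> simp [e0, h0, h1, h2]

/-- A tensor product of twisted natural representations. -/
def ten (θ : F →+* F) {ι : Type*} [Fintype ι] [DecidableEq ι] (ε : ι → F →+* F) :
    grp θ →* Module.End F ((ι → Fin 4) → F) where
  toFun g := Matrix.toLin' (Matrix.of fun a b : ι → Fin 4 =>
    ∏ i, ε i ((g : Matrix.SpecialLinearGroup (Fin 4) F) (a i) (b i)))
  map_one' := by
    rw [show (1 : Module.End F ((ι → Fin 4) → F)) = Matrix.toLin' 1 by rw [Matrix.toLin'_one]; rfl]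
    congr 1
    ext a b
    simp only [Matrix.of_apply, Subgroup.coe_one, Matrix.SpecialLinearGroup.coe_one]
    by_cases h : a = b
    · subst h; simp
    · obtain ⟨i, hi⟩ := Function.ne_iff.1 h
      rw [Matrix.one_apply_ne h]
      exact Finset.prod_eq_zero (Finset.mem_univ i) (by rw [Matrix.one_apply_ne hi, map_zero])
  map_mul' g h := by
    rw [show ∀ A B : Matrix (ι → Fin 4) (ι → Fin 4) F,
      (Matrix.toLin' A : Module.End F ((ι → Fin 4) → F)) * Matrix.toLin' B = Matrix.toLin' (A * B)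
      from fun A B => (Matrix.toLin'_mul A B).symm]
    congr 1
    ext a b
    simp only [Matrix.of_apply, Subgroup.coe_mul, Matrix.SpecialLinearGroup.coe_mul, Matrix.mul_apply,
      map_sum, map_mul, Fintype.prod_sum, Finset.prod_mul_distrib]

theorem ten_apply {ι : Type*} [Fintype ι] [DecidableEq ι] (ε : ι → F →+* F) (g : grp θ)
    (x : (ι → Fin 4) → F) (a : ι → Fin 4) :
    ten θ ε g x a = ∑ b, (∏ i, ε i ((g : Matrix.SpecialLinearGroup (Fin 4) F) (a i) (b i))) * x b := rfl

/-- If the only relevant columns differ in one place, a row of a tensor product is linear. -/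
theorem single_change {ι : Type*} [Fintype ι] [DecidableEq ι] (ε : ι → F →+* F)
    (M : Matrix (Fin 4) (Fin 4) F) (x : (ι → Fin 4) → F) (b : ι → Fin 4) (hM : ∀ k, M k k = 1)
    (up : Fin 4 → Fin 4)
    (h : ∀ a', a' ≠ b → (∏ i, ε i (M (b i) (a' i))) * x a' ≠ 0 →
      ∃ i, up (b i) ≠ b i ∧ a' = Function.update b i (up (b i))) :
    ∑ a', (∏ i, ε i (M (b i) (a' i))) * x a' =
      x b + ∑ i, if up (b i) = b i then 0
        else ε i (M (b i) (up (b i))) * x (Function.update b i (up (b i))) := by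
  classical
  rw [← Finset.add_sum_erase _ _ (Finset.mem_univ b)]
  congr 1
  · simp [hM]
  rw [← Finset.sum_filter_add_sum_filter_not Finset.univ (fun i : ι => up (b i) = b i),
    Finset.sum_eq_zero (fun i hi => if_pos (Finset.mem_filter.1 hi).2), zero_add]
  symm
  refine Finset.sum_bij_ne_zero (fun i _ _ => Function.update b i (up (b i))) ?_ ?_ ?_ ?_
  · intro i hi _
    refine Finset.mem_erase.2 ⟨fun e => (Finset.mem_filter.1 hi).2 ?_, Finset.mem_univ _⟩
    simpa using congrFun e i
  · intro i hi _ j hj _ e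
    by_contra hne
    have := congrFun e i
    rw [Function.update_self, Function.update_of_ne hne] at this
    exact (Finset.mem_filter.1 hi).2 this
  · intro a' ha' hne
    obtain ⟨i, hi, rfl⟩ := h a' (Finset.mem_erase.1 ha').1 hne
    refine ⟨i, by simp [hi], ?_, rfl⟩
    rw [if_neg hi]
    intro e
    apply hne
    rw [Finset.prod_eq_single i (fun j _ hj => by rw [Function.update_of_ne hj, hM, map_one])
      (fun h => absurd (Finset.mem_univ i) h), Function.update_self]
    exact e
  · intro i hi _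
    rw [if_neg (Finset.mem_filter.1 hi).2, Finset.prod_eq_single i
      (fun j _ hj => by rw [Function.update_of_ne hj, hM, map_one])
      (fun h => absurd (Finset.mem_univ i) h), Function.update_self]

theorem entry_Z (b : F) (k l : Fin 4) (h : (uMat θ 0 b : Matrix (Fin 4) (Fin 4) F) k l ≠ 0) :
    k = l ∨ k.val + 2 ≤ l.val := by
  fin_cases k <;> fin_cases l <;> simp_all [uMat_coe]

theorem entry_A (a : F) (k l : Fin 4) (h : (uMat θ a 0 : Matrix (Fin 4) (Fin 4) F) k l ≠ 0) :
    k = l ∨ k.val + 1 ≤ l.val := by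
  fin_cases k <;> fin_cases l <;> simp_all [uMat_coe]

/-- The index two places later, where there is one. -/
def upTwo : Fin 4 → Fin 4 := ![2, 3, 2, 3]

/-- The index after the first one. -/
def upOne : Fin 4 → Fin 4 := ![1, 1, 2, 3]

theorem upTwo_spec {k l : Fin 4} (h : l.val = k.val + 2) : upTwo k = l ∧ upTwo k ≠ k := by
  fin_cases k <;> fin_cases l <;> simp_all [upTwo]

theorem upOne_spec {k l : Fin 4} (h : l.val = k.val + 1) (hl : l.val < 2) :
    upOne k = l ∧ upOne k ≠ k := by
  fin_cases k <;> fin_cases l <;> simp_all [upOne]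

theorem uMat_upTwo (b : F) {k : Fin 4} (h : upTwo k ≠ k) :
    (uMat θ 0 b : Matrix (Fin 4) (Fin 4) F) k (upTwo k) = b := by
  fin_cases k <;> simp_all [upTwo, uMat_coe]

theorem uMat_upOne (a : F) {k : Fin 4} (h : upOne k ≠ k) :
    (uMat θ a 0 : Matrix (Fin 4) (Fin 4) F) k (upOne k) = a := by
  fin_cases k <;> simp_all [upOne, uMat_coe]

/-- The level of an index. -/
def level {ι : Type*} [Fintype ι] (a : ι → Fin 4) : ℕ := ∑ i, (a i).val

theorem level_update {ι : Type*} [Fintype ι] [DecidableEq ι] (a : ι → Fin 4) (i : ι) (k : Fin 4) :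
    level (Function.update a i k) + (a i).val = level a + k.val := by
  unfold level
  rw [← Finset.add_sum_erase _ _ (Finset.mem_univ i), ← Finset.add_sum_erase _ _ (Finset.mem_univ i),
    Function.update_self, Finset.sum_congr rfl (fun j hj => by
      rw [Function.update_of_ne (Finset.mem_erase.1 hj).1] : ∀ j ∈ Finset.univ.erase i,
        ((Function.update a i k) j).val = (a j).val)]
  omega


theorem single_of_level {ι : Type*} [Fintype ι] [DecidableEq ι] {a' b : ι → Fin 4} {d : ℕ} (hd : 0 < d)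
    (hne : a' ≠ b) (hstep : ∀ i, a' i = b i ∨ (b i).val + d ≤ (a' i).val)
    (hle : level a' ≤ level b + d) :
    ∃ i, (a' i).val = (b i).val + d ∧ a' = Function.update b i (a' i) := by
  obtain ⟨i, hi⟩ := Function.ne_iff.1 hne
  have hmono : ∀ j, (b j).val ≤ (a' j).val := fun j => by
    rcases hstep j with e | e
    · rw [e]
    · omega
  have h1 : level a' = (a' i).val + ∑ j ∈ Finset.univ.erase i, (a' j).val :=
    (Finset.add_sum_erase _ _ (Finset.mem_univ i)).symm
  have h2 : level b = (b i).val + ∑ j ∈ Finset.univ.erase i, (b j).val :=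
    (Finset.add_sum_erase _ _ (Finset.mem_univ i)).symm
  have h3 : ∑ j ∈ Finset.univ.erase i, (b j).val ≤ ∑ j ∈ Finset.univ.erase i, (a' j).val :=
    Finset.sum_le_sum fun j _ => hmono j
  have hi' := (hstep i).resolve_left hi
  refine ⟨i, by omega, funext fun j => ?_⟩
  by_cases hj : j = i
  · subst hj; rw [Function.update_self]
  · rw [Function.update_of_ne hj]
    by_contra hjne
    have hj' := (hstep j).resolve_left hjne
    have hlt : ∑ j ∈ Finset.univ.erase i, (b j).val < ∑ j ∈ Finset.univ.erase i, (a' j).val :=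
      Finset.sum_lt_sum (fun j _ => hmono j) ⟨j, Finset.mem_erase.2 ⟨hj, Finset.mem_univ j⟩, by omega⟩
    omega

/-- The fixed space of the translations in a tensor product of different twists is a line. -/
theorem ten_fix {ι : Type*} [Fintype ι] [DecidableEq ι] {ε : ι → F →+* F} (hε : Function.Injective ε)
    {x : (ι → Fin 4) → F} (hA : ∀ a, ten θ ε (uElt hT a 0) x = x)
    (hZ : ∀ b, ten θ ε (uElt hT 0 b) x = x) : ∀ a, a ≠ (fun _ => 0) → x a = 0 := by
  classical
  have hind : ∀ (c : ι → F), (∀ β, ∑ i, c i * ε i β = 0) → ∀ i, c i = 0 := fun c hc i =>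
    coeff_char_eq_zero (fun i => chr (ε i)) c hc i (fun j hj e => hj (hε (chr_injective e)))
  have hent : ∀ (g : Matrix (Fin 4) (Fin 4) F) (b a' : ι → Fin 4),
      (∏ i, ε i (g (b i) (a' i))) * x a' ≠ 0 → x a' ≠ 0 ∧ ∀ i, g (b i) (a' i) ≠ 0 :=
    fun g b a' h => ⟨right_ne_zero_of_mul h, fun i e => left_ne_zero_of_mul h
      (Finset.prod_eq_zero (Finset.mem_univ i) (by rw [e, map_zero]))⟩
  have hbad : ∀ a, x a ≠ 0 → ∀ i, (a i).val < 2 := by
    by_contra hcon
    push Not at hcon
    obtain ⟨a₁, ha₁, i₁, hi₁⟩ := hcon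
    obtain ⟨a, ha, hmax⟩ := Finset.exists_max_image
      (Finset.univ.filter fun a : ι → Fin 4 => x a ≠ 0 ∧ ∃ i, 2 ≤ (a i).val) level
      ⟨a₁, Finset.mem_filter.2 ⟨Finset.mem_univ _, ha₁, i₁, hi₁⟩⟩
    obtain ⟨-, hxa, i₀, hi₀⟩ := Finset.mem_filter.1 ha
    set b := Function.update a i₀ ⟨(a i₀).val - 2, by omega⟩ with hb
    have hlev : level b + 2 = level a := by
      have h := level_update a i₀ ⟨(a i₀).val - 2, by omega⟩
      rw [← hb] at h
      simp only at h
      omega
    have hsum : ∀ β : F, ∑ i, (if upTwo (b i) = b i then 0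
        else x (Function.update b i (upTwo (b i)))) * ε i β = 0 := by
      intro β
      have h1 := congrFun (hZ β) b
      rw [ten_apply] at h1
      change ∑ a', (∏ i, ε i ((uMat θ 0 β : Matrix (Fin 4) (Fin 4) F) (b i) (a' i))) * x a' = x b at h1
      rw [single_change ε _ x b (fun k => by fin_cases k <;> simp [uMat_coe]) upTwo
        (fun a' hne h0 => by
          obtain ⟨hx', hne'⟩ := hent _ _ _ h0
          have hstep : ∀ i, a' i = b i ∨ (b i).val + 2 ≤ (a' i).val := fun i =>
            (entry_Z β _ _ (hne' i)).imp Eq.symm id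
          obtain ⟨i, hi⟩ := Function.ne_iff.1 hne
          have hi' := (hstep i).resolve_left hi
          have := hmax a' (Finset.mem_filter.2 ⟨Finset.mem_univ _, hx', i, by omega⟩)
          obtain ⟨j, hj, hj'⟩ := single_of_level two_pos hne hstep (by omega)
          obtain ⟨e1, e2⟩ := upTwo_spec hj
          exact ⟨j, e2, by rw [e1]; exact hj'⟩), add_eq_left] at h1
      refine (Finset.sum_congr rfl fun i _ => ?_).trans h1
      split_ifs with h
      · rw [zero_mul]
      · rw [uMat_upTwo β h, mul_comm]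
    have h0 := hind _ hsum i₀
    obtain ⟨e1, e2⟩ := upTwo_spec (k := b i₀) (l := a i₀) (by
      rw [hb, Function.update_self]; simp only; omega)
    rw [if_neg e2, e1, hb, Function.update_idem, Function.update_eq_self] at h0
    exact hxa h0
  by_contra hcon
  push Not at hcon
  obtain ⟨a₁, hne₁, hx₁⟩ := hcon
  obtain ⟨a, ha, hmax⟩ := Finset.exists_max_image
    (Finset.univ.filter fun a : ι → Fin 4 => x a ≠ 0) level
    ⟨a₁, Finset.mem_filter.2 ⟨Finset.mem_univ _, hx₁⟩⟩
  have hxa := (Finset.mem_filter.1 ha).2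
  obtain ⟨i₀, hi₀⟩ : ∃ i, (a i).val ≠ 0 := by
    by_contra h
    push Not at h
    have h1 := hmax a₁ (Finset.mem_filter.2 ⟨Finset.mem_univ _, hx₁⟩)
    have h2 : level a = 0 := Finset.sum_eq_zero fun i _ => h i
    obtain ⟨i, hi⟩ := Function.ne_iff.1 hne₁
    have h3 : (a₁ i).val ≤ level a₁ :=
      Finset.single_le_sum (f := fun j => (a₁ j).val) (fun j _ => Nat.zero_le _) (Finset.mem_univ i)
    exact hi (Fin.ext (by simp only [Fin.val_zero]; omega))
  have hai : (a i₀).val = 1 := by have := hbad a hxa i₀; omega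
  set b := Function.update a i₀ (0 : Fin 4) with hb
  have hlev : level b + 1 = level a := by
    have h := level_update a i₀ 0
    rw [← hb, Fin.val_zero] at h
    omega
  have hsum : ∀ β : F, ∑ i, (if upOne (b i) = b i then 0
      else x (Function.update b i (upOne (b i)))) * ε i β = 0 := by
    intro β
    have h1 := congrFun (hA β) b
    rw [ten_apply] at h1
    change ∑ a', (∏ i, ε i ((uMat θ β 0 : Matrix (Fin 4) (Fin 4) F) (b i) (a' i))) * x a' = x b at h1
    rw [single_change ε _ x b (fun k => by fin_cases k <;> simp [uMat_coe]) upOne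
      (fun a' hne h0 => by
        obtain ⟨hx', hne'⟩ := hent _ _ _ h0
        have hstep : ∀ i, a' i = b i ∨ (b i).val + 1 ≤ (a' i).val := fun i =>
          (entry_A β _ _ (hne' i)).imp Eq.symm id
        have := hmax a' (Finset.mem_filter.2 ⟨Finset.mem_univ _, hx'⟩)
        obtain ⟨j, hj, hj'⟩ := single_of_level one_pos hne hstep (by omega)
        obtain ⟨e1, e2⟩ := upOne_spec hj (hbad a' hx' j)
        exact ⟨j, e2, by rw [e1]; exact hj'⟩), add_eq_left] at h1
    refine (Finset.sum_congr rfl fun i _ => ?_).trans h1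
    split_ifs with h
    · rw [zero_mul]
    · rw [uMat_upOne β h, mul_comm]
  have h0 := hind _ hsum i₀
  obtain ⟨e1, e2⟩ := upOne_spec (k := b i₀) (l := a i₀) (by
    rw [hb, Function.update_self, Fin.val_zero]; omega) (by omega)
  rw [if_neg e2, e1, hb, Function.update_idem, Function.update_eq_self] at h0
  exact hxa h0

end CfsgLib.CNModules
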