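import Cfsg.Agent.CNModules.SzModel
import Mathlib.Algebra.Field.GeomSum
import Mathlib.LinearAlgebra.Dual.Lemmas

/-!
Representations of a Suzuki group on which the elements of odd order act fixed point freely: the
simple ones are twists of the natural module.
-/

set_option autoImplicit false

open scoped Matrix

namespace CfsgLib.CNModules

open CfsgLib.Suzuki

variable {F : Type*} [Field F] [CharP F 2] [Finite F] {θ : F →+* F}
variable {M : Type*} [AddCommGroup M] [Module F M] {N : Type*} [AddCommGroup N] [Module F N]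

/-- Elements of odd order have no fixed points other than zero. -/
def Fpf {G : Type*} [Group G] {R : Type*} [CommRing R] {V : Type*} [AddCommGroup V] [Module R V]
    (ρ : G →* Module.End R V) : Prop :=
  ∀ g : G, Odd (orderOf g) → g ≠ 1 → ∀ v : V, ρ g v = v → v = 0

/-- A linear map commuting with two actions. -/
def IsHom {G : Type*} [Group G] (ρ : G →* Module.End F M) (ρ' : G →* Module.End F N)
    (f : M →ₗ[F] N) : Prop :=
  ∀ g x, f (ρ g x) = ρ' g (f x)

/-- A subspace stable under an action. -/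
def Invariant {G : Type*} [Group G] (ρ : G →* Module.End F M) (W : Submodule F M) : Prop :=
  ∀ g, ∀ x ∈ W, ρ g x ∈ W

omit [CharP F 2] [Finite F] in
theorem rho_mul {G : Type*} [Group G] (ρ : G →* Module.End F M) (g h : G) (v : M) :
    ρ (g * h) v = ρ g (ρ h v) := by rw [map_mul]; rfl

omit [CharP F 2] [Finite F] in
theorem rho_one {G : Type*} [Group G] (ρ : G →* Module.End F M) (v : M) : ρ 1 v = v := by
  rw [map_one]; rfl

omit [CharP F 2] [Finite F] in
theorem rho_inv {G : Type*} [Group G] (ρ : G →* Module.End F M) (g : G) (v : M) :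
    ρ g⁻¹ (ρ g v) = v := by rw [← rho_mul, inv_mul_cancel, rho_one]

/-- The span of an orbit. -/
def orbSpan {G : Type*} [Group G] (ρ : G →* Module.End F M) (v : M) : Submodule F M :=
  Submodule.span F (Set.range fun g => ρ g v)

omit [CharP F 2] [Finite F] in
theorem mem_orbSpan {G : Type*} [Group G] (ρ : G →* Module.End F M) (v : M) : v ∈ orbSpan ρ v :=
  Submodule.subset_span ⟨1, rho_one ρ v⟩

omit [CharP F 2] [Finite F] in
theorem invariant_orbSpan {G : Type*} [Group G] (ρ : G →* Module.End F M) (v : M) :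
    Invariant ρ (orbSpan ρ v) := by
  intro g x hx
  have h : orbSpan ρ v ≤ (orbSpan ρ v).comap (ρ g) := Submodule.span_le.2 <| by
    rintro _ ⟨h, rfl⟩
    exact Submodule.subset_span ⟨g * h, rho_mul ρ g h v⟩
  exact h hx

/-- The sum of two actions. -/
def prodRep {G : Type*} [Group G] (ρ : G →* Module.End F M) (ρ' : G →* Module.End F N) :
    G →* Module.End F (M × N) where
  toFun g := (ρ g).prodMap (ρ' g)
  map_one' := by rw [map_one, map_one]; rfl
  map_mul' g h := by rw [map_mul, map_mul]; rfl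

/-- The contragredient action. -/
def dualRep {G : Type*} [Group G] (ρ : G →* Module.End F M) : G →* Module.End F (Module.Dual F M) where
  toFun g := (ρ g⁻¹).dualMap
  map_one' := by rw [inv_one, map_one]; rfl
  map_mul' g h := by rw [mul_inv_rev, map_mul]; rfl

omit [CharP F 2] [Finite F] in
theorem dualRep_apply {G : Type*} [Group G] (ρ : G →* Module.End F M) (g : G) (Φ : Module.Dual F M)
    (m : M) : dualRep ρ g Φ m = Φ (ρ g⁻¹ m) := rfl

theorem smul_two_eq_zero (F : Type*) [Field F] [CharP F 2] [Module F M] (x : M) : x + x = 0 := by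
  rw [← two_smul F x, CharTwo.two_eq_zero, zero_smul]

theorem neg_eq_self' (F : Type*) [Field F] [CharP F 2] [Module F M] (x : M) : -x = x :=
  (eq_neg_of_add_eq_zero_left (smul_two_eq_zero F x)).symm

theorem Fpf.dual {G : Type*} [Group G] {ρ : G →* Module.End F M} (h : Fpf ρ) : Fpf (dualRep ρ) := by
  intro g hg hg1 Φ hΦ
  refine LinearMap.ext fun m => ?_
  set n := orderOf g with hn
  have hpow : ∀ (k : ℕ), Φ (ρ (g ^ k) m) = Φ m := by
    intro k
    induction k with
    | zero => rw [pow_zero, rho_one]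
    | succ k ih =>
      have := LinearMap.congr_fun hΦ (ρ (g * g ^ k) m)
      rw [dualRep_apply, rho_mul, rho_inv, ih] at this
      rw [pow_succ', rho_mul, ← this]
  have hs : (∑ k ∈ Finset.range n, ρ (g ^ k) m) = 0 := by
    refine h g hg hg1 _ ?_
    rw [map_sum]
    have e : ∀ k, ρ g (ρ (g ^ k) m) = ρ (g ^ (k + 1)) m := fun k => by rw [← rho_mul, pow_succ']
    simp only [e]
    have h1 := Finset.sum_range_succ (fun k => ρ (g ^ k) m) n
    rw [Finset.sum_range_succ', pow_zero, hn, pow_orderOf_eq_one] at h1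
    exact add_right_cancel h1
  have h2 := congrArg Φ hs
  rw [map_sum, map_zero, Finset.sum_congr rfl (fun k _ => hpow k), Finset.sum_const, Finset.card_range,
    ← Nat.cast_smul_eq_nsmul F, smul_eq_mul] at h2
  obtain ⟨j, hj⟩ := hg
  rw [show ((n : ℕ) : F) = 1 by rw [hj]; push_cast; rw [CharTwo.two_eq_zero]; ring, one_mul] at h2
  exact h2

section Suzuki

variable (hT : TitsEndo θ)

/-- Fixed by the translations. -/
def Fixed (ρ : grp θ →* Module.End F M) (v : M) : Prop := ∀ a b, ρ (uElt hT a b) v = v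

/-- An eigenvector of the torus. -/
def HasWeight (ρ : grp θ →* Module.End F M) (v : M) (χ : Fˣ → F) : Prop :=
  ∀ t, ρ (tElt hT t) v = χ t • v

variable {hT} {ρ : grp θ →* Module.End F M}

theorem kill {v : M} (hv : Fixed hT ρ v) {χ : Fˣ → F} (hw : HasWeight hT ρ v χ) (Φ : M →ₗ[F] F)
    (hΦ : ∀ a b m, Φ (ρ (uElt hT a b) m) = Φ m) (h0 : Φ v = 0) (h1 : Φ (ρ (wElt hT) v) = 0)
    (g : grp θ) : Φ (ρ g v) = 0 := by
  rcases grp_cases hT g.2 with ⟨a, b, t, hg⟩ | ⟨a, b, c, e, t, hg⟩
  · rw [show g = uElt hT a b * tElt hT t from Subtype.ext hg, rho_mul, hΦ, hw, map_smul, h0, smul_zero]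
  · rw [show g = uElt hT a b * wElt hT * (uElt hT c e * tElt hT t) from Subtype.ext hg, rho_mul, rho_mul,
      rho_mul, hw, map_smul, hv, map_smul, hΦ, map_smul, h1, smul_zero]

/-- A non-zero invariant subspace contains a vector fixed by the translations. -/
theorem exists_fixed [Finite M] {W : Submodule F M} (hW : Invariant ρ W) (hne : W ≠ ⊥) :
    ∃ y ∈ W, y ≠ 0 ∧ Fixed hT ρ y := by
  haveI : Fact (Nat.Prime 2) := ⟨Nat.prime_two⟩
  letI : MulAction (uGrp hT) W :=
    { smul := fun g y => ⟨ρ g y, hW g y y.2⟩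
      one_smul := fun y => Subtype.ext (rho_one ρ _)
      mul_smul := fun g h y => Subtype.ext (rho_mul ρ _ _ _) }
  obtain ⟨y₀, hy₀, hy₀0⟩ := Submodule.exists_mem_ne_zero_of_ne_bot hne
  have hdvd : 2 ∣ Nat.card W := by
    have h2 : addOrderOf (⟨y₀, hy₀⟩ : W) = 2 :=
      addOrderOf_eq_prime (by rw [two_nsmul]; exact Subtype.ext (smul_two_eq_zero F y₀))
        (fun e => hy₀0 (congrArg Subtype.val e))
    exact h2 ▸ addOrderOf_dvd_natCard _
  obtain ⟨y, hy, hy0⟩ := (isPGroup_uGrp hT).exists_fixed_point_of_prime_dvd_card_of_fixed_point W hdvd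
    (a := 0) (fun g => Subtype.ext (map_zero (ρ (g : grp θ))))
  refine ⟨y, y.2, fun e => hy0 (Subtype.ext e.symm), fun a b => ?_⟩
  exact congrArg Subtype.val (hy ⟨uElt hT a b, uElt_mem hT a b⟩)

/-- A vector fixed by the translations has a component which is an eigenvector of the torus. -/
theorem exists_weight {y : M} (hy : Fixed hT ρ y) (hy0 : y ≠ 0) :
    ∃ v : M, ∃ k : ℕ, k < Nat.card F - 1 ∧ v ≠ 0 ∧ Fixed hT ρ v ∧
      HasWeight hT ρ v (fun t => mu θ t ^ k) := by
  classical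
  letI := Fintype.ofFinite Fˣ
  set p : ℕ → M := fun k => ∑ t : Fˣ, ((mu θ t)⁻¹ ^ k) • ρ (tElt hT t) y with hp
  have hsum : ∑ k ∈ Finset.range (Nat.card F - 1), p k = y := by
    rw [hp, Finset.sum_comm]
    simp only [← Finset.sum_smul]
    rw [Finset.sum_eq_single (1 : Fˣ)]
    · have hodd : ((Nat.card F - 1 : ℕ) : F) = 1 := by
        obtain ⟨k, hk1, hk⟩ := card_field (F := F)
        have h0 : ((Nat.card F : ℕ) : F) = 0 := by
          rw [hk, Nat.cast_pow, Nat.cast_ofNat, CharTwo.two_eq_zero, zero_pow (by omega)]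
        rw [Nat.cast_sub (Nat.one_le_iff_ne_zero.2 Nat.card_pos.ne'), h0, Nat.cast_one, zero_sub,
          CharTwo.neg_eq]
      simp [mu, hodd, tElt_one, rho_one]
    · intro t _ ht
      have hm : (mu θ t)⁻¹ ≠ 1 := fun e => ht (mu_eq_one hT (inv_eq_one.1 e))
      have h := geom_sum_mul ((mu θ t)⁻¹) (Nat.card F - 1)
      have hpw : (mu θ t)⁻¹ ^ (Nat.card F - 1) = 1 := by
        rw [← Nat.card_units, inv_pow, inv_eq_one]
        exact congrArg Units.val (pow_card_eq_one' (x := Units.mk0 _ (mu_ne_zero (θ := θ) t)))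
      rw [hpw, sub_self, mul_eq_zero] at h
      rw [h.resolve_right (sub_ne_zero.2 hm), zero_smul]
    · intro h; exact absurd (Finset.mem_univ _) h
  obtain ⟨k, hk, hk0⟩ : ∃ k ∈ Finset.range (Nat.card F - 1), p k ≠ 0 := by
    by_contra h
    push Not at h
    exact hy0 (by rw [← hsum]; exact Finset.sum_eq_zero h)
  refine ⟨p k, k, Finset.mem_range.1 hk, hk0, fun a b => ?_, fun s => ?_⟩
  · rw [hp, map_sum]
    refine Finset.sum_congr rfl fun t _ => ?_
    have hx : uElt hT a b * tElt hT t = tElt hT t * ((tElt hT t)⁻¹ * uElt hT a b * tElt hT t) := by group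
    rw [map_smul, ← rho_mul, hx, rho_mul]
    congr 2
    have h1 := tElt_conj_uElt hT t⁻¹ a b
    rw [← tElt_inv, inv_inv] at h1
    rw [h1, hy]
  · rw [hp, map_sum, Finset.smul_sum]
    refine Fintype.sum_equiv (Equiv.mulLeft s) _ _ fun t => ?_
    rw [map_smul, ← rho_mul, tElt_mul, Equiv.coe_mulLeft, smul_smul]
    congr 1
    rw [mu_mul, mul_inv, mul_pow, ← mul_assoc, inv_pow (mu θ s), mul_inv_cancel₀
      (pow_ne_zero _ (mu_ne_zero s)), one_mul]

/-- The element `u(0,1) w` of order five fixes only zero. -/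
def Fpf5 (hT : TitsEndo θ) (ρ : grp θ →* Module.End F M) : Prop :=
  ∀ v, ρ (uElt hT 0 1 * wElt hT) v = v → v = 0

theorem uz_mul (hT : TitsEndo θ) : uElt hT (0 : F) 1 * uElt hT 1 0 = uElt hT 1 1 := by
  rw [uElt_mul]; congr 1 <;> simp

theorem w_z_w (hT : TitsEndo θ) :
    wElt hT * uElt hT (0 : F) 1 * wElt hT = uElt hT 1 0 * wElt hT * uElt hT 1 1 := by
  refine Subtype.ext (Subtype.ext ?_)
  simp only [Subgroup.coe_mul, wElt, uElt, Matrix.SpecialLinearGroup.coe_mul, uMat_coe, wMat_coe]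
  ext i j
  fin_cases i <;> fin_cases j <;> simp [Matrix.mul_apply, Fin.sum_univ_four, ovF] <;>
    grind [CharTwo.two_eq_zero]

/-- The element of order five in `⟨z, w⟩`. -/
theorem five_facts (hT : TitsEndo θ) :
    let x := uElt hT (0 : F) 1 * wElt hT
    x * x = uElt hT 1 1 * wElt hT * uElt hT 1 1 ∧
    x * x * (x * x) = wElt hT * uElt hT 0 1 ∧ Odd (orderOf x) ∧ x ≠ 1 := by
  intro x
  have hww := wElt_mul_self hT
  have h2 : x * x = uElt hT 1 1 * wElt hT * uElt hT 1 1 := by
    calc x * x = uElt hT (0 : F) 1 * (wElt hT * uElt hT 0 1 * wElt hT) := by simp only [x]; group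
      _ = uElt hT (0 : F) 1 * uElt hT 1 0 * wElt hT * uElt hT 1 1 := by rw [w_z_w hT]; group
      _ = _ := by rw [uz_mul]
  have h11 : uElt hT (1 : F) 1 * uElt hT 1 1 = uElt hT 0 1 := by
    rw [uElt_mul]; congr 1 <;> simp [CharTwo.add_self_eq_zero]
  have h10 : uElt hT (1 : F) 1 * uElt hT 1 0 = 1 := by
    rw [uElt_mul, ← uElt_zero hT]; congr 1 <;> simp [CharTwo.add_self_eq_zero]
  have hzz : uElt hT (0 : F) 1 * uElt hT 0 1 = 1 := by
    rw [uElt_mul, ← uElt_zero hT]; congr 1 <;> simp [CharTwo.add_self_eq_zero]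
  have h4 : x * x * (x * x) = wElt hT * uElt hT 0 1 := by
    calc x * x * (x * x) = uElt hT (1 : F) 1 * (wElt hT * (uElt hT 1 1 * uElt hT 1 1) * wElt hT) *
          uElt hT 1 1 := by rw [h2]; group
      _ = uElt hT (1 : F) 1 * uElt hT 1 0 * wElt hT * (uElt hT 1 1 * uElt hT 1 1) := by
          rw [h11, w_z_w hT, ← h11]; group
      _ = _ := by rw [h10, h11, one_mul]
  have h5 : x ^ 5 = 1 := by
    rw [show (5 : ℕ) = 2 + 2 + 1 from rfl, pow_add, pow_add, pow_one, pow_two, h4]
    calc wElt hT * uElt hT 0 1 * x = wElt hT * (uElt hT (0 : F) 1 * uElt hT 0 1) * wElt hT := by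
          simp only [x]; group
      _ = 1 := by rw [hzz, mul_one, hww]
  have hx1 : x ≠ 1 := by
    intro e
    have e' : uElt hT (0 : F) 1 = wElt hT := by
      calc uElt hT (0 : F) 1 = x * wElt hT := by simp only [x, mul_assoc, hww, mul_one]
        _ = wElt hT := by rw [e, one_mul]
    exact wElt_not_mem_stabInf hT (e' ▸ uElt_smul_pInf hT 0 1)
  refine ⟨h2, h4, ?_, hx1⟩
  haveI : Fact (Nat.Prime 5) := ⟨by norm_num⟩
  rw [orderOf_eq_prime h5 hx1]
  decide

theorem Fpf.five (hρ : Fpf ρ) (hT : TitsEndo θ) : Fpf5 hT ρ := fun v hv =>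
  hρ _ (five_facts hT).2.2.1 (five_facts hT).2.2.2 v hv

theorem nat_five (hT : TitsEndo θ) (σ : F →+* F) : Fpf5 hT (nat θ σ) := by
  intro y hy
  rw [rho_mul, nat_w, nat_uZ] at hy
  have h0 := congrFun hy 0
  have h1 := congrFun hy 1
  have h2 := congrFun hy 2
  have h3 := congrFun hy 3
  simp at h0 h1 h2 h3
  funext i
  fin_cases i <;> simp <;> grind [CharTwo.two_eq_zero]

theorem five_sum (hρ : Fpf5 hT ρ) (v : M) :
    let x := uElt hT (0 : F) 1 * wElt hT
    v + ρ x v + ρ (x * x) v + ρ (x * x * x) v + ρ (x * x * (x * x)) v = 0 := by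
  intro x
  obtain ⟨-, h4, -, -⟩ := five_facts hT
  refine hρ _ ?_
  simp only [map_add, ← rho_mul]
  have h5 : x * (x * x * (x * x)) = 1 := by
    have hzz : wElt hT * wElt hT = 1 := wElt_mul_self hT
    have hz : uElt hT (0 : F) 1 * uElt hT 0 1 = 1 := by
      rw [uElt_mul, ← uElt_zero hT]; congr 1 <;> simp [CharTwo.add_self_eq_zero]
    rw [h4]
    calc x * (wElt hT * uElt hT 0 1) = uElt hT (0 : F) 1 * (wElt hT * wElt hT) * uElt hT 0 1 := by
          simp only [x]; group
      _ = 1 := by rw [hzz, mul_one, hz]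
  rw [h5, rho_one, show x * (x * x) = x * x * x by group, show x * (x * x * x) = x * x * (x * x) by group]
  abel

/-- The relation on the five points of the orbit of a fixed vector. -/
theorem five_fixed (hρ : Fpf5 hT ρ) {v : M} (hv : Fixed hT ρ v) :
    v + ρ (wElt hT) v + ρ (uElt hT 0 1) (ρ (wElt hT) v) + ρ (uElt hT 1 0) (ρ (wElt hT) v) +
      ρ (uElt hT 1 1) (ρ (wElt hT) v) = 0 := by
  obtain ⟨h2, h4, -, -⟩ := five_facts hT
  have h := five_sum (hT := hT) hρ v
  simp only at h
  set x := uElt hT (0 : F) 1 * wElt hT with hx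
  have hxi : x⁻¹ = wElt hT * uElt hT 0 1 := by
    rw [hx, mul_inv_rev, inv_eq_of_mul_eq_one_right (wElt_mul_self hT),
      inv_eq_of_mul_eq_one_right (show uElt hT (0 : F) 1 * uElt hT 0 1 = 1 by
        rw [uElt_mul, ← uElt_zero hT]; congr 1 <;> simp [CharTwo.add_self_eq_zero])]
  have e3 : x * x * x = uElt hT 1 0 * wElt hT * uElt hT 1 1 * uElt hT 0 1 := by
    calc x * x * x = x * x * (x * x) * x⁻¹ := by group
      _ = wElt hT * uElt hT 0 1 * wElt hT * uElt hT 0 1 := by rw [h4, hxi]; group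
      _ = _ := by rw [w_z_w hT]
  have ha : ρ x v = ρ (uElt hT 0 1) (ρ (wElt hT) v) := by rw [hx, rho_mul]
  have hb : ρ (x * x) v = ρ (uElt hT 1 1) (ρ (wElt hT) v) := by rw [h2, rho_mul, rho_mul, hv]
  have hc : ρ (x * x * x) v = ρ (uElt hT 1 0) (ρ (wElt hT) v) := by
    rw [e3, rho_mul, rho_mul, rho_mul, hv, hv]
  have hd : ρ (x * x * (x * x)) v = ρ (wElt hT) v := by rw [h4, rho_mul, hv]
  rw [ha, hb, hc, hd] at h
  rw [← h]; abel

/-- A vector fixed by the involution `z = u(0,1)` is in the image of `z - 1`. -/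
theorem eq_of_fixed_z (hρ : Fpf5 hT ρ) {v : M} (hv : ρ (uElt hT 0 1) v = v) :
    ρ (uElt hT 0 1) (ρ (wElt hT) v + ρ (wElt hT * uElt hT 0 1 * wElt hT) v) +
      (ρ (wElt hT) v + ρ (wElt hT * uElt hT 0 1 * wElt hT) v) = v := by
  obtain ⟨-, h4, -, -⟩ := five_facts hT
  have h := five_sum (hT := hT) hρ v
  simp only at h
  set x := uElt hT (0 : F) 1 * wElt hT with hx
  have hxi : x⁻¹ = wElt hT * uElt hT 0 1 := by
    rw [hx, mul_inv_rev, inv_eq_of_mul_eq_one_right (wElt_mul_self hT),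
      inv_eq_of_mul_eq_one_right (show uElt hT (0 : F) 1 * uElt hT 0 1 = 1 by
        rw [uElt_mul, ← uElt_zero hT]; congr 1 <;> simp [CharTwo.add_self_eq_zero])]
  have e3 : x * x * x = wElt hT * uElt hT 0 1 * wElt hT * uElt hT 0 1 := by
    calc x * x * x = x * x * (x * x) * x⁻¹ := by group
      _ = _ := by rw [h4, hxi]; group
  have ha : ρ x v = ρ (uElt hT 0 1) (ρ (wElt hT) v) := by rw [hx, rho_mul]
  have hb : ρ (x * x) v = ρ (uElt hT 0 1) (ρ (wElt hT * uElt hT 0 1 * wElt hT) v) := by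
    rw [← rho_mul, hx]; congr 2; group
  have hc : ρ (x * x * x) v = ρ (wElt hT * uElt hT 0 1 * wElt hT) v := by rw [e3, rho_mul, hv]
  have hd : ρ (x * x * (x * x)) v = ρ (wElt hT) v := by rw [h4, rho_mul, hv]
  rw [ha, hb, hc, hd] at h
  refine Eq.trans ?_ (neg_eq_self' F v)
  rw [map_add, eq_neg_iff_add_eq_zero, ← h]
  abel

/-- A homomorphism from a cyclic module, read off from the cyclic submodule of the sum. -/
theorem exists_hom {ρ' : grp θ →* Module.End F N} {v : M} {x : N} (hv : orbSpan ρ v = ⊤)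
    (hK : ∀ m : N, ((0, m) : M × N) ∈ orbSpan (prodRep ρ ρ') (v, x) → m = 0) :
    ∃ f : M →ₗ[F] N, IsHom ρ ρ' f ∧ f v = x := by
  set K := orbSpan (prodRep ρ ρ') (v, x)
  set p : K →ₗ[F] M := (LinearMap.fst F M N).comp K.subtype
  have hinj : Function.Injective p := by
    rw [injective_iff_map_eq_zero]
    rintro ⟨⟨a, b⟩, h⟩ hp
    have ha : a = 0 := hp
    subst ha
    exact Subtype.ext (Prod.ext rfl (hK b h))
  have hsurj : Function.Surjective p := by
    rw [← LinearMap.range_eq_top, eq_top_iff, ← hv, orbSpan, Submodule.span_le]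
    rintro _ ⟨g, rfl⟩
    exact ⟨⟨_, Submodule.subset_span ⟨g, rfl⟩⟩, rfl⟩
  set e := LinearEquiv.ofBijective p ⟨hinj, hsurj⟩
  have key : ∀ k : K, (LinearMap.snd F M N).comp (K.subtype.comp e.symm.toLinearMap) (p k) = (k : M × N).2 := by
    intro k
    show ((e.symm (e k) : K) : M × N).2 = _
    rw [e.symm_apply_apply]
  refine ⟨(LinearMap.snd F M N).comp (K.subtype.comp e.symm.toLinearMap), fun g m => ?_,
    key ⟨_, mem_orbSpan _ _⟩⟩
  obtain ⟨k, rfl⟩ := hsurj m
  rw [key]
  exact key ⟨_, invariant_orbSpan _ _ g _ k.2⟩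

/-- A homomorphism taking one highest vector to another. -/
theorem exists_hom_high {ρ' : grp θ →* Module.End F N} {v : M} {x : N} {χ : Fˣ → F}
    (hspan : orbSpan ρ v = ⊤) (hv : Fixed hT ρ v) (hvw : HasWeight hT ρ v χ)
    (hx : Fixed hT ρ' x) (hxw : HasWeight hT ρ' x χ)
    (φ : M →ₗ[F] F) (hφ : ∀ a b m, φ (ρ (uElt hT a b) m) = φ m) (hφv : φ v = 0) (hφ0 : φ ≠ 0)
    (ψ : N →ₗ[F] F) (hψ : ∀ a b m, ψ (ρ' (uElt hT a b) m) = ψ m) (hψx : ψ x = 0)
    (hψw : ψ (ρ' (wElt hT) x) = 1)
    (hfib : ∀ W : Submodule F N, Invariant ρ' W → W ≠ ⊥ → x ∈ W) :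
    ∃ f : M →ₗ[F] N, IsHom ρ ρ' f ∧ f v = x := by
  refine exists_hom hspan fun m hm => ?_
  by_contra hm0
  set K := orbSpan (prodRep ρ ρ') (v, x)
  have hxK : ((0, x) : M × N) ∈ K := by
    refine hfib (K.comap (LinearMap.inr F M N)) (fun g y hy => ?_) (fun e => hm0 ?_)
    · have h := invariant_orbSpan (prodRep ρ ρ') (v, x) g _ (show ((0, y) : M × N) ∈ K from hy)
      rw [show prodRep ρ ρ' g ((0, y) : M × N) = (ρ g 0, ρ' g y) from rfl, map_zero] at h
      exact h
    · exact (Submodule.eq_bot_iff _).1 e m hm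
  set c := φ (ρ (wElt hT) v)
  set Φ : M × N →ₗ[F] F := φ.comp (LinearMap.fst F M N) - c • ψ.comp (LinearMap.snd F M N) with hΦ
  have happ : ∀ p : M × N, Φ p = φ p.1 - c * ψ p.2 := fun p => rfl
  have hkill : ∀ p ∈ K, Φ p = 0 := by
    intro p hp
    refine (Submodule.span_le (p := LinearMap.ker Φ)).2 ?_ hp
    rintro _ ⟨g, rfl⟩
    refine kill (hT := hT) (v := (v, x)) (χ := χ) (fun a b => Prod.ext (hv a b) (hx a b))
      (fun t => Prod.ext (hvw t) (hxw t)) Φ (fun a b q => ?_) ?_ ?_ g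
    · rw [happ, happ]
      show φ (ρ _ q.1) - c * ψ (ρ' _ q.2) = _
      rw [hφ, hψ]
    · rw [happ, hφv, hψx, mul_zero, sub_zero]
    · rw [happ]
      show c - c * ψ (ρ' _ x) = 0
      rw [hψw, mul_one, sub_self]
  have h1 := hkill _ (invariant_orbSpan (prodRep ρ ρ') (v, x) (wElt hT) _ hxK)
  rw [happ] at h1
  change φ (ρ _ 0) - c * ψ (ρ' _ x) = 0 at h1
  rw [map_zero, map_zero, hψw, mul_one, zero_sub, neg_eq_zero] at h1
  refine hφ0 (LinearMap.ext fun y => ?_)
  have hy : y ∈ orbSpan ρ v := hspan ▸ Submodule.mem_top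
  refine (Submodule.span_le (p := LinearMap.ker φ)).2 ?_ hy
  rintro _ ⟨g, rfl⟩
  exact kill hv hvw φ hφ hφv h1 g

omit [Finite F] in
theorem cast_four : (4 : F) = 0 := by linear_combination (2 : F) * CharTwo.two_eq_zero (R := F)

/-- An invariant functional vanishes at a fixed vector. -/
theorem functional_fixed_eq_zero (hρ : Fpf5 hT ρ) (φ : M →ₗ[F] F)
    (hφ : ∀ a b m, φ (ρ (uElt hT a b) m) = φ m) {v : M} (hv : Fixed hT ρ v) : φ v = 0 := by
  have h := congrArg φ (five_fixed hρ hv)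
  simp only [map_add, hφ, map_zero] at h
  linear_combination h - φ (ρ (wElt hT) v) * cast_four (F := F)

theorem exists_functional [Finite M] [Nontrivial M] (hT : TitsEndo θ) (ρ : grp θ →* Module.End F M) :
    ∃ φ : M →ₗ[F] F, φ ≠ 0 ∧ ∀ a b m, φ (ρ (uElt hT a b) m) = φ m := by
  haveI : Module.Finite F M := Module.Finite.of_finite
  haveI : Finite (Module.Dual F M) := Module.finite_of_finite F
  obtain ⟨φ, -, hφ0, hφ⟩ := exists_fixed (hT := hT) (ρ := dualRep ρ) (W := ⊤)
    (fun _ _ _ => Submodule.mem_top) (top_ne_bot)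
  refine ⟨φ, hφ0, fun a b m => ?_⟩
  have := LinearMap.congr_fun (hφ a b) (ρ (uElt hT a b) m)
  rw [dualRep_apply, rho_inv] at this
  exact this.symm

/-! ### The simple modules -/

theorem nat_fixed (σ : F →+* F) : Fixed hT (nat θ σ) e0 := by
  intro a b
  rw [uElt_split, rho_mul, nat_uZ, nat_uA]
  funext i; fin_cases i <;> simp [e0]

theorem nat_weight (σ : F →+* F) : HasWeight hT (nat θ σ) e0 (fun t => σ (mu θ t)) := by
  intro t
  rw [nat_t]
  funext i; fin_cases i <;> simp [e0]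

theorem nat_w_e0 (σ : F →+* F) : nat θ σ (wElt hT) e0 = e3 := by
  rw [nat_w]; funext i; fin_cases i <;> simp [e0, e3]

theorem nat_row_three (σ : F →+* F) (a b : F) (x : Fin 4 → F) :
    nat θ σ (uElt hT a b) x 3 = x 3 := by
  rw [uElt_split, rho_mul, nat_uA, nat_uZ]; simp

theorem nat_span (hT : TitsEndo θ) (σ : F →+* F) : orbSpan (nat θ σ) (e0 : Fin 4 → F) = ⊤ :=
  eq_top_of_e3 σ hT _ (fun a b x hx => invariant_orbSpan _ _ _ _ hx)
    (nat_w_e0 (hT := hT) σ ▸ invariant_orbSpan _ _ _ _ (mem_orbSpan _ _))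

theorem nat_fib (hT : TitsEndo θ) (σ : F →+* F) (W : Submodule F (Fin 4 → F))
    (hW : Invariant (nat θ σ) W) (hne : W ≠ ⊥) : (e0 : Fin 4 → F) ∈ W := by
  obtain ⟨y, hy, hy0, hfix⟩ := exists_fixed (hT := hT) hW hne
  have h := nat_fix σ hT (fun a => hfix a 0) (fun b => hfix 0 b)
  have h0 : y 0 ≠ 0 := fun e => hy0 (by rw [h, e, zero_smul])
  have : (y 0)⁻¹ • y ∈ W := W.smul_mem _ hy
  rwa [h, smul_smul, Pi.smul_apply, e0, show (![1, 0, 0, 0] : Fin 4 → F) 0 = 1 from rfl, smul_eq_mul,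
    mul_one, inv_mul_cancel₀ h0, one_smul] at this

theorem isHom_injective {σ : F →+* F} {f : (Fin 4 → F) →ₗ[F] M} (hT : TitsEndo θ)
    (hf : IsHom (nat θ σ) ρ f) (h0 : f e0 ≠ 0) : Function.Injective f := by
  rw [← LinearMap.ker_eq_bot]
  by_contra h
  exact h0 (nat_fib hT σ (LinearMap.ker f) (fun g x hx => by
    rw [LinearMap.mem_ker, hf, LinearMap.mem_ker.1 hx, map_zero]) h)

theorem col_uw (a b : F) (r : Fin 4) :
    ((uElt hT a b * wElt hT : grp θ) : Matrix.SpecialLinearGroup (Fin 4) F) r 0 =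
      ![ovF θ a b, b, a, 1] r := by
  fin_cases r <;> simp [uElt, wElt, uMat_coe, wMat_coe, Matrix.mul_apply, Fin.sum_univ_four]

/-- A simple module is the image of a twist of the natural module. -/
theorem exists_nat_hom [Finite M] [Nontrivial M] (hT : TitsEndo θ) (hρ : Fpf ρ)
    (hs : ∀ W : Submodule F M, Invariant ρ W → W ≠ ⊥ → W = ⊤) :
    ∃ (σ : F →+* F) (f : (Fin 4 → F) →ₗ[F] M), IsHom (nat θ σ) ρ f ∧ Function.Injective f ∧
      LinearMap.range f = ⊤ := by
  classical
  obtain ⟨y, -, hy0, hy⟩ := exists_fixed (hT := hT) (ρ := ρ) (W := ⊤)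
    (fun _ _ _ => Submodule.mem_top) top_ne_bot
  obtain ⟨v, k, hk, hv0, hv, hvw⟩ := exists_weight hy hy0
  have hk0 : k ≠ 0 := by
    intro e
    obtain ⟨z, hz0, hz1⟩ := hT.big
    set t : Fˣ := Units.mk0 z hz0
    refine hv0 (hρ (tElt hT t) ?_ ?_ v ?_)
    · have h1 : orderOf (tElt hT t) ∣ Nat.card F - 1 := by
        rw [show tElt hT t = tHom hT t from rfl, orderOf_injective _ (tHom_injective hT), ← Nat.card_units]
        exact orderOf_dvd_natCard t
      obtain ⟨j, hj1, hj⟩ := card_field (F := F)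
      refine Odd.of_dvd_nat ?_ h1
      rw [hj]
      exact Nat.Even.sub_odd Nat.one_le_two_pow ((Nat.even_pow' (by omega)).2 even_two) odd_one
    · intro e'
      rw [← tElt_one hT] at e'
      exact hz1 (congrArg Units.val (tHom_injective hT e'))
    · rw [hvw, e]; simp
  obtain ⟨φ, hφ0, hφ⟩ := exists_functional hT ρ
  have hspan : orbSpan ρ v = ⊤ := hs _ (invariant_orbSpan _ _)
    (fun e => hv0 ((Submodule.eq_bot_iff _).1 e v (mem_orbSpan _ _)))
  obtain ⟨n, -, hn⟩ := card_field (F := F)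
  let ι := {i // i ∈ k.bitIndices.toFinset}
  have hlt : ∀ i : ι, (i : ℕ) < n := fun i => by
    have h1 : 2 ^ (i : ℕ) ≤ k := Nat.two_pow_le_of_mem_bitIndices (List.mem_toFinset.1 i.2)
    have h2 : 2 ^ (i : ℕ) < 2 ^ n := by omega
    exact (Nat.pow_lt_pow_iff_right one_lt_two).1 h2
  let ε : ι → F →+* F := fun i => iterateFrobenius F 2 i
  have hεapp : ∀ (i : ι) (x : F), ε i x = x ^ 2 ^ (i : ℕ) := fun i x => iterateFrobenius_def ..
  have hε : Function.Injective ε := by
    intro i j e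
    obtain ⟨g, hg⟩ := IsCyclic.exists_generator (α := Fˣ)
    have ho : orderOf g = Nat.card F - 1 := by rw [orderOf_eq_card_of_forall_mem_zpowers hg, Nat.card_units]
    have hb : ∀ i : ι, 2 ^ (i : ℕ) < orderOf g := fun i => by
      have h1 : 2 ^ (i : ℕ) ≤ k := Nat.two_pow_le_of_mem_bitIndices (List.mem_toFinset.1 i.2)
      omega
    have hp : g ^ 2 ^ (i : ℕ) = g ^ 2 ^ (j : ℕ) := Units.ext (by
      push_cast
      rw [← hεapp, ← hεapp, e])
    exact Subtype.ext (Nat.pow_right_injective le_rfl (pow_injOn_Iio_orderOf (hb i) (hb j) hp))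
  have hprod : ∀ x : F, ∏ i : ι, ε i x = x ^ k := fun x => by
    simp only [hεapp]
    rw [Finset.prod_pow_eq_pow_sum]
    congr 1
    rw [Finset.sum_coe_sort k.bitIndices.toFinset (fun i => 2 ^ i)]
    exact Finset.sum_toFinset_bitIndices_two_pow k
  have hι : Nonempty ι := by
    by_contra h
    rw [not_nonempty_iff] at h
    have := hprod 0
    rw [Finset.univ_eq_empty, Finset.prod_empty, zero_pow hk0] at this
    exact one_ne_zero this
  obtain ⟨i₀⟩ := hι
  by_cases hsub : ∀ i : ι, i = i₀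
  · -- a single twist
    refine ⟨ε i₀, ?_⟩
    have hweq : (fun t => (ε i₀) (mu θ t)) = fun t => mu θ t ^ k := funext fun t => by
      rw [← hprod, Fintype.prod_eq_single i₀ fun i hi => absurd (hsub i) hi]
    have hwn : HasWeight hT (nat θ (ε i₀)) e0 (fun t => mu θ t ^ k) := hweq ▸ nat_weight (hT := hT) (ε i₀)
    obtain ⟨φ', hφ'0, hφ'⟩ := exists_functional hT ρ
    obtain ⟨f, hf, hf0⟩ := exists_hom_high (hT := hT) (ρ := ρ) (ρ' := nat θ (ε i₀)) hspan hv hvw
      (nat_fixed _) hwn φ hφ (functional_fixed_eq_zero (hρ.five hT) φ hφ hv) hφ0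
      (LinearMap.proj 3) (fun a b m => nat_row_three (hT := hT) _ a b m) (by simp [e0])
      (by show nat θ (ε i₀) (wElt hT) e0 3 = 1
          rw [nat_w_e0]; simp [e3])
      (nat_fib hT _)
    have hbij : Function.Bijective f := by
      constructor
      · rw [← LinearMap.ker_eq_bot]
        by_contra h
        have := hs _ (fun g x hx => by
          rw [LinearMap.mem_ker, hf, LinearMap.mem_ker.1 hx, map_zero]) h
        rw [LinearMap.ker_eq_top] at this
        rw [this] at hf0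
        simpa [e0] using congrFun hf0 0
      · rw [← LinearMap.range_eq_top, eq_top_iff, ← nat_span hT (ε i₀), orbSpan, Submodule.span_le]
        rintro _ ⟨g, rfl⟩
        exact ⟨ρ g v, by rw [hf, hf0]⟩
    set e := LinearEquiv.ofBijective f hbij
    refine ⟨e.symm.toLinearMap, fun g x => ?_, e.symm.injective, ?_⟩
    · refine e.injective ?_
      show e (e.symm (nat θ (ε i₀) g x)) = f (ρ g (e.symm x))
      rw [e.apply_symm_apply, hf]
      congr 1
      exact (e.apply_symm_apply x).symm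
    · exact LinearMap.range_eq_top.2 e.symm.surjective
  · -- several twists: the five point relation fails
    exfalso
    push Not at hsub
    obtain ⟨i₁, hne⟩ := hsub
    set δ : (ι → Fin 4) → F := Pi.single (fun _ => 0) 1 with hδ
    have happ : ∀ g (b : ι → Fin 4), ten θ ε g δ b =
        ∏ i, ε i ((g : Matrix.SpecialLinearGroup (Fin 4) F) (b i) 0) := by
      intro g b
      rw [ten_apply, Finset.sum_eq_single (fun _ : ι => (0 : Fin 4))]
      · rw [hδ, Pi.single_eq_same, mul_one]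
      · intro a _ ha; rw [hδ, Pi.single_eq_of_ne ha, mul_zero]
      · intro h; exact absurd (Finset.mem_univ _) h
    have hcol : ∀ (g : grp θ) (c : Fin 4 → F),
        (∀ r, (g : Matrix.SpecialLinearGroup (Fin 4) F) r 0 = c r) →
        ∀ b : ι → Fin 4, ten θ ε g δ b = ∏ i, ε i (c (b i)) := fun g c h b => by
      rw [happ]; simp only [h]
    have hfx : Fixed hT (ten θ ε) δ := by
      intro a b
      funext c
      rw [hcol _ ![1, 0, 0, 0] (fun r => by fin_cases r <;> simp [uElt, uMat_coe]), hδ]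
      by_cases h : c = fun _ => 0
      · subst h; simp
      · obtain ⟨i, hi⟩ := Function.ne_iff.1 h
        rw [Pi.single_eq_of_ne h]
        refine Finset.prod_eq_zero (Finset.mem_univ i) ?_
        rcases hc : c i with ⟨r, hr⟩
        rw [hc] at hi
        interval_cases r <;> simp_all
    have hwt : HasWeight hT (ten θ ε) δ (fun t => mu θ t ^ k) := by
      intro t
      funext c
      rw [hcol _ ![mu θ t, 0, 0, 0] (fun r => by fin_cases r <;> simp [tElt, tMat_coe, mu]),
        Pi.smul_apply, smul_eq_mul, hδ]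
      by_cases h : c = fun _ => 0
      · subst h; simp [hprod]
      · obtain ⟨i, hi⟩ := Function.ne_iff.1 h
        rw [Pi.single_eq_of_ne h, mul_zero]
        refine Finset.prod_eq_zero (Finset.mem_univ i) ?_
        rcases hc : c i with ⟨r, hr⟩
        rw [hc] at hi
        interval_cases r <;> simp_all
    have hrow : ∀ (a b : F) (m : (ι → Fin 4) → F),
        ten θ ε (uElt hT a b) m (fun _ => 3) = m (fun _ => 3) := by
      intro a b m
      rw [ten_apply, Finset.sum_eq_single (fun _ : ι => (3 : Fin 4))]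
      · simp [uElt, uMat_coe]
      · intro c _ hc
        obtain ⟨i, hi⟩ := Function.ne_iff.1 hc
        rw [Finset.prod_eq_zero (Finset.mem_univ i) (by
          rcases hr : c i with ⟨r, hr'⟩
          rw [hr] at hi
          interval_cases r <;> simp_all [uElt, uMat_coe]), zero_mul]
      · intro h; exact absurd (Finset.mem_univ _) h
    have hwc : ∀ b : ι → Fin 4, ten θ ε (wElt hT) δ b = ∏ i, ε i ((![0, 0, 0, 1] : Fin 4 → F) (b i)) :=
      hcol _ _ (fun r => by fin_cases r <;> simp [wElt, wMat_coe])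
    obtain ⟨f, hf, hf0⟩ := exists_hom_high (hT := hT) (ρ := ρ) (ρ' := ten θ ε) hspan hv hvw hfx hwt
      φ hφ (functional_fixed_eq_zero (hρ.five hT) φ hφ hv) hφ0
      (LinearMap.proj (fun _ : ι => (3 : Fin 4))) hrow
      (by show δ (fun _ => 3) = 0
          exact Pi.single_eq_of_ne (fun e => absurd (congrFun e i₀) (by simp)) _)
      (by show ten θ ε (wElt hT) δ (fun _ => 3) = 1
          rw [hwc]; simp)
      (fun W hW hne => by
        obtain ⟨y, hy, hy0, hfix⟩ := exists_fixed (hT := hT) hW hne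
        have h := ten_fix hT hε (fun a => hfix a 0) (fun b => hfix 0 b)
        have he : y = y (fun _ => 0) • δ := funext fun c => by
          by_cases hc : c = fun _ => 0
          · subst hc; simp [hδ]
          · simp [hδ, h c hc, Pi.single_eq_of_ne hc]
        have h0 : y (fun _ => 0) ≠ 0 := fun e => hy0 (by rw [he, e, zero_smul])
        have := W.smul_mem (y (fun _ => 0))⁻¹ hy
        rwa [he, smul_smul, Pi.smul_apply, hδ, Pi.single_eq_same, smul_eq_mul, mul_one,
          inv_mul_cancel₀ h0, one_smul, ← hδ] at this)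
    have h := congrArg f (five_fixed (hρ.five hT) hv)
    simp only [map_add, map_zero, hf _ _, hf0] at h
    set b : ι → Fin 4 := fun i => if i = i₀ then 1 else if i = i₁ then 2 else 3 with hb
    have hb0 : b i₀ = 1 := by simp [hb]
    have hb1 : b i₁ = 2 := by simp [hb, hne]
    have h := congrFun h b
    simp only [Pi.add_apply, Pi.zero_apply, ← rho_mul] at h
    have hz : ∀ (c : Fin 4 → F) (i : ι), c (b i) = 0 → ∏ l, ε l (c (b l)) = 0 := fun c i hc =>
      Finset.prod_eq_zero (Finset.mem_univ i) (by rw [hc, map_zero])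
    have t1 : δ b = 0 := Pi.single_eq_of_ne (fun e => by simpa [hb0] using congrFun e i₀) _
    have t2 : ten θ ε (wElt hT) δ b = 0 := by
      rw [hwc]; exact hz _ i₀ (by rw [hb0]; rfl)
    have t3 : ten θ ε (uElt hT 0 1 * wElt hT) δ b = 0 := by
      rw [hcol _ _ (col_uw 0 1)]
      exact hz _ i₁ (by rw [hb1]; rfl)
    have t4 : ten θ ε (uElt hT 1 0 * wElt hT) δ b = 0 := by
      rw [hcol _ _ (col_uw 1 0)]
      exact hz _ i₀ (by rw [hb0]; rfl)
    have t5 : ten θ ε (uElt hT 1 1 * wElt hT) δ b = 1 := by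
      rw [hcol _ _ (col_uw 1 1), show (![ovF θ 1 1, 1, 1, 1] : Fin 4 → F) = fun _ => 1 from
        funext fun r => by fin_cases r <;> simp [ovF] <;> grind [CharTwo.two_eq_zero]]
      simp
    rw [t1, t2, t3, t4, t5, zero_add, zero_add, zero_add, zero_add] at h
    exact one_ne_zero h

end Suzuki

end CfsgLib.CNModules
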